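import Mathlib
import Cfsg.Prelude.Def_Blocks
import Cfsg.Prelude.Def_BlockLocal
import Cfsg.Prelude.Def_BrauerPairs
import Cfsg.Agent.Lib.Helper77.MaxPair

/-!
# Conjugation of Brauer pairs

Transport of Brauer pairs, normal inclusion and inclusion of Brauer pairs under conjugation by
an element of the group; every Brauer pair of a block lies below a maximal one; conjugacy of
the Brauer pairs of a block into a given maximal pair.
-/

set_option autoImplicit false
set_option linter.unusedSectionVars false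

namespace Cfsg.Agent.Lib.Helper77

open Cfsg Cfsg.Agent.Lib.Helper16 Cfsg.Agent.Lib.Helper81

section ConjIso

variable {G : Type*} [Group G] {M : Ideal Cfsg.AlgInt}

/-- conjugation by `x` as an isomorphism from `K` onto `K'`, when `K' = x K x⁻¹` -/
def conjIso (x : G) (K K' : Subgroup G) (h : ∀ k : G, k ∈ K ↔ x * k * x⁻¹ ∈ K') : K ≃* K' where
  toFun k := ⟨x * k * x⁻¹, (h k).mp k.2⟩
  invFun k' := ⟨x⁻¹ * k' * x, (h _).mpr (by
    have e : x * (x⁻¹ * (k' : G) * x) * x⁻¹ = k' := by group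
    rw [e]; exact k'.2)⟩
  left_inv k := Subtype.ext (by simp [mul_assoc])
  right_inv k := Subtype.ext (by simp [mul_assoc])
  map_mul' a b := Subtype.ext (by simp [mul_assoc])

theorem conjIso_apply_coe (x : G) (K K' : Subgroup G)
    (h : ∀ k : G, k ∈ K ↔ x * k * x⁻¹ ∈ K') (k : K) :
    ((conjIso x K K' h k : K') : G) = x * k * x⁻¹ := rfl

theorem conjIso_symm_apply_coe (x : G) (K K' : Subgroup G)
    (h : ∀ k : G, k ∈ K ↔ x * k * x⁻¹ ∈ K') (k' : K') :
    (((conjIso x K K' h).symm k' : K) : G) = x⁻¹ * k' * x := rfl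

theorem mem_map_conj_iff (x : G) (K : Subgroup G) (k : G) :
    x * k * x⁻¹ ∈ K.map (MulAut.conj x).toMonoidHom ↔ k ∈ K := by
  constructor
  · rintro ⟨k', hk', h⟩
    have h2 : x * k' * x⁻¹ = x * k * x⁻¹ := h
    have h3 : k' = k := by simpa using h2
    rwa [← h3]
  · intro hk
    exact ⟨k, hk, rfl⟩

theorem mem_centralizer_map_conj_iff (x : G) (Q : Subgroup G) (c : G) :
    c ∈ Subgroup.centralizer (Q : Set G) ↔
      x * c * x⁻¹ ∈ Subgroup.centralizer
        ((Q.map (MulAut.conj x).toMonoidHom : Subgroup G) : Set G) := by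
  rw [Subgroup.mem_centralizer_iff, Subgroup.mem_centralizer_iff]
  constructor
  · rintro h _ ⟨q, hq, rfl⟩
    have h1 := h q hq
    show x * q * x⁻¹ * (x * c * x⁻¹) = x * c * x⁻¹ * (x * q * x⁻¹)
    calc x * q * x⁻¹ * (x * c * x⁻¹) = x * (q * c) * x⁻¹ := by group
      _ = x * (c * q) * x⁻¹ := by rw [h1]
      _ = x * c * x⁻¹ * (x * q * x⁻¹) := by group
  · intro h q hq
    have h1 : x * q * x⁻¹ * (x * c * x⁻¹) = x * c * x⁻¹ * (x * q * x⁻¹) :=
      h (x * q * x⁻¹) ⟨q, hq, rfl⟩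
    have e1 : q * c = x⁻¹ * (x * q * x⁻¹ * (x * c * x⁻¹)) * x := by group
    rw [e1, h1]
    group

/-- the centralizer condition for `Q' = x Q x⁻¹` -/
theorem centralizer_conj_iff {x : G} {Q Q' : Subgroup G}
    (h : Q' = Q.map (MulAut.conj x).toMonoidHom) (c : G) :
    c ∈ Subgroup.centralizer (Q : Set G) ↔ x * c * x⁻¹ ∈ Subgroup.centralizer (Q' : Set G) := by
  subst h
  exact mem_centralizer_map_conj_iff x Q c

/-- conjugation by `x` as an isomorphism from `C_G(Q)` onto `C_G(x Q x⁻¹)` -/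
def centIso (x : G) (Q Q' : Subgroup G) (h : Q' = Q.map (MulAut.conj x).toMonoidHom) :
    Subgroup.centralizer (Q : Set G) ≃* Subgroup.centralizer (Q' : Set G) :=
  conjIso x _ _ (centralizer_conj_iff h)

theorem centIso_apply_coe (x : G) (Q Q' : Subgroup G)
    (h : Q' = Q.map (MulAut.conj x).toMonoidHom) (c : Subgroup.centralizer (Q : Set G)) :
    ((centIso x Q Q' h c : Subgroup.centralizer (Q' : Set G)) : G) = x * c * x⁻¹ := rfl

theorem centIso_symm_apply_coe (x : G) (Q Q' : Subgroup G)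
    (h : Q' = Q.map (MulAut.conj x).toMonoidHom) (c' : Subgroup.centralizer (Q' : Set G)) :
    (((centIso x Q Q' h).symm c' : Subgroup.centralizer (Q : Set G)) : G) = x⁻¹ * c' * x := rfl

/-- the conjugate by `x` of a set of irreducible characters of `C_G(Q)`, as a set of
irreducible characters of the centralizer of a given subgroup `Q'` (to be `x Q x⁻¹`) -/
def conjBlockTo (x : G) (Q Q' : Subgroup G)
    (f : Set (Cfsg.IrrCharacter (Subgroup.centralizer (Q : Set G)))) :
    Set (Cfsg.IrrCharacter (Subgroup.centralizer (Q' : Set G))) :=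
  {ξ' | ∃ ξ ∈ f, ∀ (c : Subgroup.centralizer (Q : Set G))
      (c' : Subgroup.centralizer (Q' : Set G)), (c' : G) = x * (c : G) * x⁻¹ →
        (ξ' : _ → ℂ) c' = (ξ : Subgroup.centralizer (Q : Set G) → ℂ) c}

theorem conjBlock_eq (Q : Subgroup G) (x : G)
    (f : Set (Cfsg.IrrCharacter (Subgroup.centralizer (Q : Set G)))) :
    Cfsg.conjBlock Q x f = conjBlockTo x Q (Q.map (MulAut.conj x).toMonoidHom) f := rfl

theorem conjBlockTo_eq_mapSet (x : G) (Q Q' : Subgroup G)
    (h : Q' = Q.map (MulAut.conj x).toMonoidHom)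
    (f : Set (Cfsg.IrrCharacter (Subgroup.centralizer (Q : Set G)))) :
    conjBlockTo x Q Q' f = mapSet (centIso x Q Q' h) f := by
  ext ξ'
  constructor
  · rintro ⟨ξ, hξ, hc⟩
    refine ⟨ξ, hξ, ?_⟩
    apply Subtype.ext
    funext c'
    rw [mapIrr_apply]
    exact (hc ((centIso x Q Q' h).symm c') c'
      (by rw [centIso_symm_apply_coe]; group)).symm
  · rintro ⟨ξ, hξ, rfl⟩
    refine ⟨ξ, hξ, fun c c' hcc' => ?_⟩
    rw [mapIrr_apply]
    have e : (centIso x Q Q' h).symm c' = c := by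
      apply Subtype.ext
      rw [centIso_symm_apply_coe, hcc']
      group
    rw [e]

/-- the conjugate pair, with the conjugate subgroup replaced by an equal one -/
theorem sigma_conjBlock_eq (x : G) (Q Q' : Subgroup G)
    (h : Q' = Q.map (MulAut.conj x).toMonoidHom)
    (f : Set (Cfsg.IrrCharacter (Subgroup.centralizer (Q : Set G)))) :
    (⟨Q.map (MulAut.conj x).toMonoidHom, Cfsg.conjBlock Q x f⟩ : Cfsg.BrauerPairIdx G) =
      ⟨Q', conjBlockTo x Q Q' f⟩ := by
  subst h
  rfl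

/-- the Brauer functional transported by conjugation -/
theorem brauerOmega_centIso (x : G) (Q Q' : Subgroup G)
    (h : Q' = Q.map (MulAut.conj x).toMonoidHom) (β β' : G → ℂ)
    (hβ : ∀ c ∈ Subgroup.centralizer (Q : Set G), β' (x * c * x⁻¹) = β c)
    (ξ : Cfsg.IrrCharacter (Subgroup.centralizer (Q : Set G))) :
    Cfsg.brauerOmega Q' β'
        (mapIrr (centIso x Q Q' h) ξ : Subgroup.centralizer (Q' : Set G) → ℂ) =
      Cfsg.brauerOmega Q β (ξ : Subgroup.centralizer (Q : Set G) → ℂ) := by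
  unfold Cfsg.brauerOmega
  rw [← finsum_comp_equiv (centIso x Q Q' h).toEquiv]
  refine finsum_congr fun c => ?_
  have e1 : (((centIso x Q Q' h).toEquiv c : Subgroup.centralizer (Q' : Set G)) : G) =
      x * c * x⁻¹ := rfl
  have e2 : (mapIrr (centIso x Q Q' h) ξ : Subgroup.centralizer (Q' : Set G) → ℂ)
      ((centIso x Q Q' h).toEquiv c) = (ξ : Subgroup.centralizer (Q : Set G) → ℂ) c :=
    mapIrr_apply_apply _ ξ c
  rw [e1, hβ c c.2, mapIrr_one, e2]

theorem map_conj_eq_of_mem_normalizer {P : Subgroup G} {n : G}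
    (hn : n ∈ Subgroup.normalizer (P : Set G)) : P = P.map (MulAut.conj n).toMonoidHom := by
  ext y
  constructor
  · intro hy
    refine ⟨n⁻¹ * y * n, (Subgroup.mem_normalizer_iff''.mp hn y).mp hy, ?_⟩
    show n * (n⁻¹ * y * n) * n⁻¹ = y
    group
  · rintro ⟨q, hq, rfl⟩
    exact (Subgroup.mem_normalizer_iff.mp hn q).mp hq

theorem conjBlockTo_eq_conjSet (P : Subgroup G) (n : G)
    (hn : n ∈ Subgroup.normalizer (P : Set G))
    (e : Set (Cfsg.IrrCharacter (Subgroup.centralizer (P : Set G)))) :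
    conjBlockTo n P P e = conjSet (Subgroup.centralizer (P : Set G)) n
      (normalizer_le_normalizer_centralizer P hn) e := by
  rw [conjBlockTo_eq_mapSet n P P (map_conj_eq_of_mem_normalizer hn)]
  unfold conjSet
  apply mapSet_congr
  intro c
  exact Subtype.ext rfl

end ConjIso

section Transport

variable {G : Type*} [Group G] [Fintype G] {M : Ideal Cfsg.AlgInt}

theorem conjBlockTo_conjBlockTo (x y : G) (Q Q' Q'' : Subgroup G)
    (hQ' : Q' = Q.map (MulAut.conj x).toMonoidHom)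
    (hQ'' : Q'' = Q'.map (MulAut.conj y).toMonoidHom)
    (f : Set (Cfsg.IrrCharacter (Subgroup.centralizer (Q : Set G)))) :
    conjBlockTo y Q' Q'' (conjBlockTo x Q Q' f) = conjBlockTo (y * x) Q Q'' f := by
  have h3 : Q'' = Q.map (MulAut.conj (y * x)).toMonoidHom := by
    rw [hQ'', hQ', map_conj_map_conj]
  rw [conjBlockTo_eq_mapSet x Q Q' hQ', conjBlockTo_eq_mapSet y Q' Q'' hQ'',
    conjBlockTo_eq_mapSet (y * x) Q Q'' h3, ← mapSet_trans]
  apply mapSet_congr
  intro c
  apply Subtype.ext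
  show y * (x * (c : G) * x⁻¹) * y⁻¹ = y * x * (c : G) * (y * x)⁻¹
  group

/-- a conjugate of a Brauer pair of `B` is a Brauer pair of `B` -/
theorem isBrauerPairOf_conjBlockTo {p : ℕ} (hM : M.IsPrime) (x : G)
    {B : Set (Cfsg.IrrCharacter G)} {Q Q' : Subgroup G}
    (h : Q' = Q.map (MulAut.conj x).toMonoidHom)
    {f : Set (Cfsg.IrrCharacter (Subgroup.centralizer (Q : Set G)))}
    (hf : Cfsg.IsBrauerPairOf p M B Q f) :
    Cfsg.IsBrauerPairOf p M B Q' (conjBlockTo x Q Q' f) := by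
  obtain ⟨⟨hQ, hfb⟩, hB, hω⟩ := hf
  rw [conjBlockTo_eq_mapSet x Q Q' h]
  refine ⟨⟨by rw [h]; exact hQ.map _, isPBlock_mapSet hM _ hfb⟩, hB, ?_⟩
  rintro ξ' ⟨ξ, hξ, rfl⟩
  rw [brauerOmega_centIso x Q Q' h (Cfsg.blockCoeff B) (Cfsg.blockCoeff B)
    (fun c _ => blockCoeff_isClassFunction B c x) ξ]
  exact hω ξ hξ

/-- a conjugate of a normal inclusion of Brauer pairs is a normal inclusion -/
theorem isNormalSubpair_conjBlockTo {p : ℕ} (hM : M.IsPrime) (x : G) {Q Q' R R' : Subgroup G}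
    (hQ' : Q' = Q.map (MulAut.conj x).toMonoidHom)
    (hR' : R' = R.map (MulAut.conj x).toMonoidHom)
    {f : Set (Cfsg.IrrCharacter (Subgroup.centralizer (Q : Set G)))}
    {g : Set (Cfsg.IrrCharacter (Subgroup.centralizer (R : Set G)))}
    (h : Cfsg.IsNormalSubpair p M Q f R g) :
    Cfsg.IsNormalSubpair p M Q' (conjBlockTo x Q Q' f) R' (conjBlockTo x R R' g) := by
  obtain ⟨⟨hQ, hf⟩, ⟨hR, hg⟩, hQR, hRN, hstab, hω⟩ := h
  have hQR' : Q' ≤ R' := by
    rw [hQ', hR']
    exact Subgroup.map_mono hQR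
  have hRN' : R' ≤ Subgroup.normalizer (Q' : Set G) := by
    rw [hQ', hR']
    have h1 := Subgroup.map_equiv_normalizer_eq Q (MulAut.conj x)
    rw [← h1]
    exact Subgroup.map_mono hRN
  rw [conjBlockTo_eq_mapSet x Q Q' hQ', conjBlockTo_eq_mapSet x R R' hR']
  refine ⟨⟨by rw [hQ']; exact hQ.map _, isPBlock_mapSet hM _ hf⟩,
    ⟨by rw [hR']; exact hR.map _, isPBlock_mapSet hM _ hg⟩, hQR', hRN', ?_, ?_⟩
  · intro u hu
    have hu' := normalizer_le_normalizer_centralizer Q' (hRN' hu)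
    rw [stabilizesBlock_iff _ _ u hu']
    obtain ⟨r, hr, rfl⟩ : ∃ r ∈ R, x * r * x⁻¹ = u := by
      rw [hR'] at hu
      obtain ⟨r, hr, hru⟩ := hu
      exact ⟨r, hr, hru⟩
    have hr' := normalizer_le_normalizer_centralizer Q (hRN hr)
    have hsub := (stabilizesBlock_iff _ _ r hr').mp (hstab r hr)
    have e : conjSet (Subgroup.centralizer (Q' : Set G)) (x * r * x⁻¹) hu'
        (mapSet (centIso x Q Q' hQ') f) =
        mapSet (centIso x Q Q' hQ') (conjSet (Subgroup.centralizer (Q : Set G)) r hr' f) := by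
      unfold conjSet
      rw [← mapSet_trans, ← mapSet_trans]
      apply mapSet_congr
      intro c
      apply Subtype.ext
      show x * r * x⁻¹ * (x * (c : G) * x⁻¹) * (x * r * x⁻¹)⁻¹ = x * (r * (c : G) * r⁻¹) * x⁻¹
      group
    rw [e]
    exact mapSet_mono _ hsub
  · rintro ξ' ⟨ξ, hξ, rfl⟩
    have key := brauerOmega_centIso x R R' hR'
      (Cfsg.subgroupBlockCoeff (Subgroup.centralizer (Q : Set G)) f)
      (Cfsg.subgroupBlockCoeff (Subgroup.centralizer (Q' : Set G))
        (mapSet (centIso x Q Q' hQ') f)) (by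
      intro c hc
      have hcQ : c ∈ Subgroup.centralizer (Q : Set G) := Subgroup.centralizer_le hQR hc
      have hcQ' : x * c * x⁻¹ ∈ Subgroup.centralizer (Q' : Set G) :=
        (centralizer_conj_iff hQ' c).mp hcQ
      rw [subgroupBlockCoeff_eq_ext0, subgroupBlockCoeff_eq_ext0, ext0_of_mem _ _ hcQ,
        ext0_of_mem _ _ hcQ']
      exact blockCoeff_mapSet (centIso x Q Q' hQ') f ⟨c, hcQ⟩) ξ
    rw [key]
    exact hω ξ hξ

/-- a conjugate of an inclusion of Brauer pairs is an inclusion -/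
theorem subpairLE_conjBlock {p : ℕ} (hM : M.IsPrime) (x : G) {Q R : Subgroup G}
    {f : Set (Cfsg.IrrCharacter (Subgroup.centralizer (Q : Set G)))}
    {g : Set (Cfsg.IrrCharacter (Subgroup.centralizer (R : Set G)))}
    (h : Cfsg.SubpairLE p M Q f R g) :
    Cfsg.SubpairLE p M (Q.map (MulAut.conj x).toMonoidHom) (Cfsg.conjBlock Q x f)
      (R.map (MulAut.conj x).toMonoidHom) (Cfsg.conjBlock R x g) := by
  have key : ∀ a b : Cfsg.BrauerPairIdx G,
      Relation.ReflTransGen (Cfsg.NormalSubpairRel p M) a b →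
      Relation.ReflTransGen (Cfsg.NormalSubpairRel p M)
        (⟨a.1.map (MulAut.conj x).toMonoidHom, Cfsg.conjBlock a.1 x a.2⟩ :
          Cfsg.BrauerPairIdx G)
        (⟨b.1.map (MulAut.conj x).toMonoidHom, Cfsg.conjBlock b.1 x b.2⟩ :
          Cfsg.BrauerPairIdx G) := by
    intro a b hab
    induction hab with
    | refl => exact Relation.ReflTransGen.refl
    | tail _ hbc ih => exact ih.tail (isNormalSubpair_conjBlockTo hM x rfl rfl hbc)
  exact key _ _ h

/-- every Brauer pair of `B` lies below a maximal Brauer pair of `B` -/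
theorem exists_isMaximalBrauerPair_ge {p : ℕ} {B : Set (Cfsg.IrrCharacter G)} :
    ∀ (n : ℕ) (Q : Subgroup G) (f : Set (Cfsg.IrrCharacter (Subgroup.centralizer (Q : Set G)))),
      Nat.card G - Nat.card Q = n → Cfsg.IsBrauerPairOf p M B Q f →
      ∃ (R : Subgroup G) (g : Set (Cfsg.IrrCharacter (Subgroup.centralizer (R : Set G)))),
        Cfsg.IsMaximalBrauerPair p M B R g ∧ Cfsg.SubpairLE p M Q f R g := by
  intro n
  induction n using Nat.strong_induction_on with
  | _ n ih =>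
    intro Q f hn hQf
    by_cases hmax : Cfsg.IsMaximalBrauerPair p M B Q f
    · exact ⟨Q, f, hmax, Relation.ReflTransGen.refl⟩
    · have hex : ∃ (R : Subgroup G)
          (g : Set (Cfsg.IrrCharacter (Subgroup.centralizer (R : Set G)))),
          Cfsg.IsBrauerPairOf p M B R g ∧ Cfsg.SubpairLE p M Q f R g ∧ R ≠ Q := by
        by_contra hcon
        apply hmax
        refine ⟨hQf, fun R g hRg hle => ?_⟩
        by_contra hne
        exact hcon ⟨R, g, hRg, hle, hne⟩
      obtain ⟨R, g, hRg, hle, hne⟩ := hex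
      have hQR : Q ≤ R := subpairLE_le hle
      have hlt : Nat.card Q < Nat.card R := by
        by_contra hge
        push Not at hge
        exact hne (Subgroup.eq_of_le_of_card_ge hQR hge).symm
      have hRG : Nat.card R ≤ Nat.card G := Subgroup.card_le_card_group R
      obtain ⟨R', g', hmax', hle'⟩ := ih (Nat.card G - Nat.card R) (by omega) R g rfl hRg
      exact ⟨R', g', hmax', Relation.ReflTransGen.trans hle hle'⟩

/-- **Conjugacy.**  Every Brauer pair of `B` is conjugate to a pair below a given maximal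
Brauer pair of `B`. -/
theorem exists_subpairLE_conjBlock {p : ℕ} [Fact p.Prime] (hM : Cfsg.IsPModular p M)
    {B : Set (Cfsg.IrrCharacter G)} {P Q : Subgroup G}
    {e : Set (Cfsg.IrrCharacter (Subgroup.centralizer (P : Set G)))}
    {f : Set (Cfsg.IrrCharacter (Subgroup.centralizer (Q : Set G)))}
    (hmax : Cfsg.IsMaximalBrauerPair p M B P e) (hQf : Cfsg.IsBrauerPairOf p M B Q f)
    (hdef : ∀ (R : Subgroup G) (g : Set (Cfsg.IrrCharacter (Subgroup.centralizer (R : Set G)))),
      Cfsg.IsMaximalBrauerPair p M B R g → Cfsg.IsDefectGroup p M B R) :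
    ∃ x : G, Cfsg.SubpairLE p M (Q.map (MulAut.conj x).toMonoidHom) (Cfsg.conjBlock Q x f) P e := by
  have hMp := isPrime_of_isPModular hM
  obtain ⟨R, g, hRmax, hle⟩ := exists_isMaximalBrauerPair_ge (M := M) _ Q f rfl hQf
  have hB := hmax.1.2.1
  obtain ⟨x, hx⟩ := isDefectGroup_conj hM B hB (hdef R g hRmax) (hdef P e hmax)
  have h1 : Cfsg.IsBrauerPairOf p M B P (conjBlockTo x R P g) :=
    isBrauerPairOf_conjBlockTo hMp x hx hRmax.1
  obtain ⟨n, hn, hn'⟩ := exists_conjSet_eq_of_isMaximalBrauerPair hM hmax h1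
  have hninv : n⁻¹ ∈ Subgroup.normalizer (P : Set G) := Subgroup.inv_mem _ hn
  have h2 : conjBlockTo (n⁻¹ * x) R P g = e := by
    rw [← conjBlockTo_conjBlockTo x n⁻¹ R P P hx (map_conj_eq_of_mem_normalizer hninv) g,
      conjBlockTo_eq_conjSet P n⁻¹ hninv, hn', conjSet_inv_conjSet]
  have h3 : P = R.map (MulAut.conj (n⁻¹ * x)).toMonoidHom := by
    rw [← map_conj_map_conj, ← hx]
    exact map_conj_eq_of_mem_normalizer hninv
  refine ⟨n⁻¹ * x, ?_⟩
  have h4 := subpairLE_conjBlock hMp (n⁻¹ * x) hle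
  unfold Cfsg.SubpairLE at h4 ⊢
  rw [sigma_conjBlock_eq (n⁻¹ * x) R P h3 g, h2] at h4
  exact h4

end Transport

end Cfsg.Agent.Lib.Helper77
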