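import Mathlib
import Cfsg.Prelude.Def_Blocks
import Cfsg.Prelude.Def_BlockLocal
import Cfsg.Prelude.Def_BrauerPairs
import Cfsg.Agent.Lib.Helper77.ConjPair

/-!
# Principal Brauer pairs

For a `p`-subgroup `R` and an `R`-invariant coefficient function, the sum over the group is
congruent to the sum over the centralizer of `R`.  Consequences: `(Q, b₀(C_G(Q)))` is a Brauer
pair of the principal block, a pair normally included in a principal pair is principal, and
the principal pair of a Sylow `p`-subgroup is a maximal Brauer pair of the principal block.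
-/

set_option autoImplicit false
set_option linter.unusedSectionVars false

namespace Cfsg.Agent.Lib.Helper77

open Cfsg Cfsg.Agent.Lib.Helper16 Cfsg.Agent.Lib.Helper81

section Principal

variable {G : Type*} [Group G] [Fintype G] {M : Ideal Cfsg.AlgInt}

/-- for a `p`-subgroup `R` and an `R`-invariant coefficient function with local integer
values, the sum over `G` is congruent to the sum over `C_G(R)` modulo the local ideal -/
theorem memLocalIdeal_sum_sub_sum_centralizer {p : ℕ} [Fact p.Prime]
    (hM : Cfsg.IsPModular p M) (R : Subgroup G) (hR : IsPGroup p R)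
    [Fintype (Subgroup.centralizer (R : Set G))] {a : G → ℂ} (ha : LocInt M a)
    (hinv : InvBy R a) :
    Cfsg.MemLocalIdeal M (∑ g : G, a g - ∑ c : Subgroup.centralizer (R : Set G), a c) := by
  classical
  have hMp := isPrime_of_isPModular hM
  rw [sum_res (Subgroup.centralizer (R : Set G)) a, ← Finset.sum_sub_distrib]
  apply sum_memLocalIdeal_of_pgroup_act hM hR (fun (r : R) (g : G) => (r : G) * g * (r : G)⁻¹)
    (fun g => by simp) (fun u v g => by simp [mul_assoc])
  · intro g
    by_cases hg : g ∈ Subgroup.centralizer (R : Set G)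
    · rw [ext0_of_mem _ _ hg, one_mul, sub_self]
      exact memLocalRing_zero hMp
    · rw [ext0_of_not_mem _ _ hg, zero_mul, sub_zero]
      exact ha g
  · intro r g
    show a ((r : G) * g * (r : G)⁻¹) - ext0 (Subgroup.centralizer (R : Set G)) (fun _ => 1)
      ((r : G) * g * (r : G)⁻¹) * a ((r : G) * g * (r : G)⁻¹) = _
    rw [hinv r r.2 g]
    by_cases hg : g ∈ Subgroup.centralizer (R : Set G)
    · have hg' : (r : G) * g * (r : G)⁻¹ ∈ Subgroup.centralizer (R : Set G) :=
        (conj_mem_centralizer_iff' r.2).mpr hg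
      rw [ext0_of_mem _ _ hg, ext0_of_mem _ _ hg']
    · have hg' : (r : G) * g * (r : G)⁻¹ ∉ Subgroup.centralizer (R : Set G) :=
        fun h => hg ((conj_mem_centralizer_iff' r.2).mp h)
      rw [ext0_of_not_mem _ _ hg, ext0_of_not_mem _ _ hg']
  · intro g hfix
    have hg : g ∈ Subgroup.centralizer (R : Set G) := by
      rw [Subgroup.mem_centralizer_iff]
      intro r hr
      have h1 : r * g * r⁻¹ = g := hfix ⟨r, hr⟩
      calc r * g = r * g * r⁻¹ * r := by group
        _ = g * r := by rw [h1]
    rw [ext0_of_mem _ _ hg, one_mul, sub_self]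
    exact memLocalIdeal_zero hMp

/-- the Brauer functional at the trivial character is the sum over the centralizer -/
theorem brauerOmega_trivIrr (R : Subgroup G) [Fintype (Subgroup.centralizer (R : Set G))]
    (a : G → ℂ) :
    Cfsg.brauerOmega R a
        (trivIrr (Subgroup.centralizer (R : Set G)) : Subgroup.centralizer (R : Set G) → ℂ) =
      ∑ c : Subgroup.centralizer (R : Set G), a c := by
  unfold Cfsg.brauerOmega
  rw [finsum_eq_sum_of_fintype]
  refine Finset.sum_congr rfl fun c _ => ?_
  rw [trivIrr_apply, trivIrr_apply, mul_one, div_one]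

/-- the central character of the trivial character is the sum of the coefficients -/
theorem omegaF_trivIrr (a : G → ℂ) : omegaF (trivIrr G : G → ℂ) a = ∑ g : G, a g := by
  unfold omegaF
  rw [trivIrr_apply, div_one]
  refine Finset.sum_congr rfl fun g _ => ?_
  rw [trivIrr_apply, mul_one]

/-- **Third main theorem, existence.**  The principal block of `C_G(Q)` gives a Brauer pair
of the principal block of `G`. -/
theorem isBrauerPairOf_principalBlock {p : ℕ} [Fact p.Prime] (hM : Cfsg.IsPModular p M)
    (Q : Subgroup G) (hQ : IsPGroup p Q) :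
    Cfsg.IsBrauerPairOf p M (Cfsg.principalBlock M G) Q
      (Cfsg.principalBlock M (Subgroup.centralizer (Q : Set G))) := by
  classical
  have hMp := isPrime_of_isPModular hM
  have hfinC : Fintype (Subgroup.centralizer (Q : Set G)) := Fintype.ofFinite _
  have hB := isPBlock_principalBlock (G := G) M
  refine ⟨⟨hQ, isPBlock_principalBlock M⟩, hB, ?_⟩
  intro ξ hξ
  have hBR : LocInt M (Cfsg.blockCoeff (Cfsg.principalBlock M G)) :=
    fun g => memLocalRing_blockCoeff hMp _ hB g
  have hBc := blockCoeff_isClassFunction (Cfsg.principalBlock M G)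
  have hadm : BrAdm M Q (Cfsg.blockCoeff (Cfsg.principalBlock M G)) :=
    brAdm_of_isClassFunction hBR hBc
  have hsame : Cfsg.SameBlock M
      (ξ : Subgroup.centralizer (Q : Set G) → ℂ)
      (trivIrr (Subgroup.centralizer (Q : Set G)) : Subgroup.centralizer (Q : Set G) → ℂ) := by
    have h1 : Cfsg.SameBlock M
        (trivIrr (Subgroup.centralizer (Q : Set G)) : Subgroup.centralizer (Q : Set G) → ℂ)
        (ξ : Subgroup.centralizer (Q : Set G) → ℂ) := hξ
    intro g
    have h2 := memLocalIdeal_neg (h1 g)
    rwa [neg_sub] at h2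
  have h1 := memLocalIdeal_brauerOmega_sub_of_sameBlock hMp Q hsame hadm
  have h2 := memLocalIdeal_sum_sub_sum_centralizer hM Q hQ hBR
    (invBy_of_isClassFunction hBc Q)
  rw [← brauerOmega_trivIrr, ← omegaF_trivIrr, omegaF_blockCoeff_set,
    if_pos (trivIrr_mem_principalBlock hMp)] at h2
  have h3 := memLocalIdeal_sub hMp h1 h2
  have e : Cfsg.brauerOmega Q (Cfsg.blockCoeff (Cfsg.principalBlock M G))
        (ξ : Subgroup.centralizer (Q : Set G) → ℂ) -
      Cfsg.brauerOmega Q (Cfsg.blockCoeff (Cfsg.principalBlock M G))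
        (trivIrr (Subgroup.centralizer (Q : Set G)) : Subgroup.centralizer (Q : Set G) → ℂ) -
      (1 - Cfsg.brauerOmega Q (Cfsg.blockCoeff (Cfsg.principalBlock M G))
        (trivIrr (Subgroup.centralizer (Q : Set G)) : Subgroup.centralizer (Q : Set G) → ℂ)) =
      Cfsg.brauerOmega Q (Cfsg.blockCoeff (Cfsg.principalBlock M G))
        (ξ : Subgroup.centralizer (Q : Set G) → ℂ) - 1 := by ring
  rw [e] at h3
  exact h3

/-- a Brauer pair normally included in a principal pair is principal -/
theorem eq_principalBlock_of_isNormalSubpair {p : ℕ} [Fact p.Prime] (hM : Cfsg.IsPModular p M)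
    {Q R : Subgroup G} {f : Set (Cfsg.IrrCharacter (Subgroup.centralizer (Q : Set G)))}
    (h : Cfsg.IsNormalSubpair p M Q f R
      (Cfsg.principalBlock M (Subgroup.centralizer (R : Set G)))) :
    f = Cfsg.principalBlock M (Subgroup.centralizer (Q : Set G)) := by
  classical
  have hMp := isPrime_of_isPModular hM
  have hfinQ : Fintype (Subgroup.centralizer (Q : Set G)) := Fintype.ofFinite _
  have hfinR : Fintype (Subgroup.centralizer (R : Set G)) := Fintype.ofFinite _
  obtain ⟨⟨hQ, hf⟩, ⟨hR, -⟩, hQR, hRN, hstab, hω⟩ := h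
  have h1 := hω (trivIrr (Subgroup.centralizer (R : Set G))) (trivIrr_mem_principalBlock hMp)
  rw [subgroupBlockCoeff_eq_ext0] at h1
  have haR : LocInt M (ext0 (Subgroup.centralizer (Q : Set G)) (Cfsg.blockCoeff f)) :=
    locInt_ext0 hMp _ (fun k => memLocalRing_blockCoeff hMp f hf k)
  have h2 := memLocalIdeal_sum_sub_sum_centralizer hM R hR haR
    (invBy_ext0_blockCoeff_of_stabilizes hstab)
  rw [← brauerOmega_trivIrr] at h2
  have e1 : ∑ g : G, ext0 (Subgroup.centralizer (Q : Set G)) (Cfsg.blockCoeff f) g =
      omegaF (trivIrr (Subgroup.centralizer (Q : Set G)) : Subgroup.centralizer (Q : Set G) → ℂ)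
        (Cfsg.blockCoeff f) := by
    rw [omegaF_trivIrr]
    have h3 := sum_ext0_mul (Subgroup.centralizer (Q : Set G)) (Cfsg.blockCoeff f)
      (fun _ => (1 : ℂ))
    simpa using h3
  rw [e1, omegaF_blockCoeff_set] at h2
  by_cases hmem : trivIrr (Subgroup.centralizer (Q : Set G)) ∈ f
  · exact IsPBlock.eq_blockOf hMp hf hmem
  · exfalso
    rw [if_neg hmem] at h2
    have h4 := memLocalIdeal_add hMp h2 h1
    have e2 : (0 : ℂ) - Cfsg.brauerOmega R
        (ext0 (Subgroup.centralizer (Q : Set G)) (Cfsg.blockCoeff f))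
        (trivIrr (Subgroup.centralizer (R : Set G)) : Subgroup.centralizer (R : Set G) → ℂ) +
      (Cfsg.brauerOmega R (ext0 (Subgroup.centralizer (Q : Set G)) (Cfsg.blockCoeff f))
        (trivIrr (Subgroup.centralizer (R : Set G)) : Subgroup.centralizer (R : Set G) → ℂ) - 1) =
      -1 := by ring
    rw [e2] at h4
    have h5 := memLocalIdeal_neg h4
    rw [neg_neg] at h5
    exact not_memLocalIdeal_one hMp h5

/-- a Brauer pair below a principal pair is principal -/
theorem eq_principalBlock_of_subpairLE {p : ℕ} [Fact p.Prime] (hM : Cfsg.IsPModular p M)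
    {a b : Cfsg.BrauerPairIdx G}
    (h : Relation.ReflTransGen (Cfsg.NormalSubpairRel p M) a b)
    (hb : b.2 = Cfsg.principalBlock M (Subgroup.centralizer (b.1 : Set G))) :
    a.2 = Cfsg.principalBlock M (Subgroup.centralizer (a.1 : Set G)) := by
  induction h with
  | refl => exact hb
  | @tail b c _ hbc ih =>
    apply ih
    have hbc' : Cfsg.IsNormalSubpair p M b.1 b.2 c.1 c.2 := hbc
    rw [hb] at hbc'
    exact eq_principalBlock_of_isNormalSubpair hM hbc'

/-- the principal pair of a Sylow `p`-subgroup is a maximal Brauer pair of the principal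
block -/
theorem isMaximalBrauerPair_principalBlock {p : ℕ} [Fact p.Prime] (hM : Cfsg.IsPModular p M)
    (S : Sylow p G) :
    Cfsg.IsMaximalBrauerPair p M (Cfsg.principalBlock M G) (S : Subgroup G)
      (Cfsg.principalBlock M (Subgroup.centralizer ((S : Subgroup G) : Set G))) := by
  refine ⟨isBrauerPairOf_principalBlock hM _ S.isPGroup', ?_⟩
  intro R g hRg hle
  have hSR : (S : Subgroup G) ≤ R := subpairLE_le hle
  exact S.is_maximal' hRg.1.1 hSR

/-- conjugation maps the principal block to the principal block -/
theorem conjBlock_eq_principalBlock_iff (hM : M.IsPrime) (Q : Subgroup G) (x : G)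
    (e : Set (Cfsg.IrrCharacter (Subgroup.centralizer (Q : Set G)))) :
    Cfsg.conjBlock Q x e = Cfsg.principalBlock M (Subgroup.centralizer
        ((Q.map (MulAut.conj x).toMonoidHom : Subgroup G) : Set G)) ↔
      e = Cfsg.principalBlock M (Subgroup.centralizer (Q : Set G)) := by
  have hp : mapSet (centIso x Q (Q.map (MulAut.conj x).toMonoidHom) rfl)
      (Cfsg.principalBlock M (Subgroup.centralizer (Q : Set G))) =
      Cfsg.principalBlock M (Subgroup.centralizer
        ((Q.map (MulAut.conj x).toMonoidHom : Subgroup G) : Set G)) := by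
    rw [principalBlock_eq, mapSet_blockOf hM, principalBlock_eq]
    rfl
  rw [conjBlock_eq, conjBlockTo_eq_mapSet x Q _ rfl, ← hp]
  constructor
  · intro h
    have h2 := congrArg (mapSet (centIso x Q (Q.map (MulAut.conj x).toMonoidHom) rfl).symm) h
    rwa [mapSet_symm_mapSet, mapSet_symm_mapSet] at h2
  · intro h
    rw [h]

end Principal

end Cfsg.Agent.Lib.Helper77
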