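import Mathlib
import Cfsg.Prelude.Def_Blocks
import Cfsg.Prelude.Def_BlockLocal
import Cfsg.Prelude.Def_BrauerPairs
import Cfsg.Agent.Lib.Helper77.ThirdMain
import Cfsg.Agent.Lib.Helper77.NormalP

/-!
# Idempotent class functions and sets of characters

An idempotent class function is the idempotent of a set of irreducible characters; with local
integer values the set is a union of blocks.  Consequence: a block of a subgroup `K` stable
under a subgroup `T ≥ K` all of whose block idempotents are supported on `K` has the idempotent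
of a block of `T`.  Also: the stabilizer of a set of characters as a subgroup.
-/

set_option autoImplicit false
set_option linter.unusedSectionVars false

namespace Cfsg.Agent.Lib.Helper77

open Cfsg Cfsg.Agent.Lib.Helper16 Cfsg.Agent.Lib.Helper81

section Idem

variable {H : Type*} [Group H] [Fintype H] {M : Ideal Cfsg.AlgInt}

/-- the irreducible characters at which the central character of `u` takes the value `1` -/
def idemSet (u : H → ℂ) : Set (Cfsg.IrrCharacter H) := {χ | omegaF (χ : H → ℂ) u = 1}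

/-- an idempotent class function is the idempotent of its set of characters -/
theorem eq_blockCoeff_idemSet {u : H → ℂ} (hu : Cfsg.IsClassFunction H u)
    (hidem : conv u u = u) : u = Cfsg.blockCoeff (idemSet u) := by
  classical
  apply eq_of_omegaF_eq hu (blockCoeff_isClassFunction _)
  intro χ
  rw [omegaF_blockCoeff_set]
  have h1 : omegaF (χ : H → ℂ) u * omegaF (χ : H → ℂ) u = omegaF (χ : H → ℂ) u := by
    rw [← omegaF_conv χ u hu, hidem]
  by_cases h : χ ∈ idemSet u
  · rw [if_pos h]
    exact h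
  · rw [if_neg h]
    have h2 : omegaF (χ : H → ℂ) u * (omegaF (χ : H → ℂ) u - 1) = 0 := by
      rw [mul_sub, h1, mul_one, sub_self]
    rcases mul_eq_zero.mp h2 with h3 | h3
    · exact h3
    · exact absurd (sub_eq_zero.mp h3) h

/-- the set of characters of an idempotent class function with local integer values is a
union of blocks -/
theorem isBlockUnion_idemSet (hM : M.IsPrime) {u : H → ℂ} (hu : Cfsg.IsClassFunction H u)
    (hidem : conv u u = u) (hR : LocInt M u) : IsBlockUnion M (idemSet u) := by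
  intro χ hχ
  apply blockOf_subset_of_memLocalRing hM (idemSet u) _ hχ
  rw [← eq_blockCoeff_idemSet hu hidem]
  exact hR

/-- a nonempty union of blocks inside a block is the block -/
theorem eq_of_isBlockUnion_of_subset (hM : M.IsPrime) {A B : Set (Cfsg.IrrCharacter H)}
    (hA : IsBlockUnion M A) (hne : A.Nonempty) (hB : Cfsg.IsPBlock M B) (hAB : A ⊆ B) :
    A = B := by
  obtain ⟨χ, hχ⟩ := hne
  apply Set.Subset.antisymm hAB
  rw [IsPBlock.eq_blockOf hM hB (hAB hχ)]
  exact hA χ hχ

/-- a set of irreducible characters is determined by its idempotent -/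
theorem eq_of_blockCoeff_eq {A B : Set (Cfsg.IrrCharacter H)}
    (h : Cfsg.blockCoeff A = Cfsg.blockCoeff B) : A = B := by
  classical
  ext χ
  have h1 := omegaF_blockCoeff_set A χ
  have h2 := omegaF_blockCoeff_set B χ
  rw [h] at h1
  rw [h1] at h2
  by_cases hA : χ ∈ A <;> by_cases hB : χ ∈ B
  · exact ⟨fun _ => hB, fun _ => hA⟩
  · rw [if_pos hA, if_neg hB] at h2
    exact absurd h2 one_ne_zero
  · rw [if_neg hA, if_pos hB] at h2
    exact absurd h2.symm one_ne_zero
  · exact ⟨fun h => absurd h hA, fun h => absurd h hB⟩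

/-- the idempotent of a nonempty set of characters is not zero -/
theorem blockCoeff_ne_zero {A : Set (Cfsg.IrrCharacter H)} (hA : A.Nonempty) :
    Cfsg.blockCoeff A ≠ 0 := by
  classical
  obtain ⟨χ, hχ⟩ := hA
  intro h
  have h1 := omegaF_blockCoeff_set A χ
  rw [h, omegaF_zero, if_pos hχ] at h1
  exact zero_ne_one h1

end Idem

section Ext

variable {G : Type*} [Group G] [Fintype G] {M : Ideal Cfsg.AlgInt}

theorem ext0_res_ext0 {K T : Subgroup G} (hKT : K ≤ T) (c : K → ℂ) :
    ext0 T (res T (ext0 K c)) = ext0 K c := by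
  funext g
  by_cases hg : g ∈ T
  · rw [ext0_res_of_mem T _ hg]
  · rw [ext0_of_not_mem T _ hg, ext0_of_not_mem K _ (fun h => hg (hKT h))]

theorem ext0_injective (K : Subgroup G) {c d : K → ℂ} (h : ext0 K c = ext0 K d) : c = d := by
  have h1 := congrArg (res K) h
  rwa [res_ext0, res_ext0] at h1

/-- **Blocks with a stable idempotent.**  Let `K ≤ T` be subgroups, `f` a block of `K` stable
under `T`, and suppose that the idempotents of the blocks of `T` vanish outside `K`.  Then the
idempotent of `f` is the idempotent of a block of `T`. -/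
theorem exists_block_eq_ext0 (hM : M.IsPrime) (T K : Subgroup G) (hKT : K ≤ T)
    (f : Set (Cfsg.IrrCharacter K)) (hf : Cfsg.IsPBlock M f)
    (hstab : ∀ t ∈ T, Cfsg.StabilizesBlock K f t)
    (hsupp : ∀ F : Set (Cfsg.IrrCharacter T), Cfsg.IsPBlock M F →
      ∀ t : T, (t : G) ∉ K → Cfsg.blockCoeff F t = 0) :
    ∃ F : Set (Cfsg.IrrCharacter T), Cfsg.IsPBlock M F ∧
      ∀ t : T, Cfsg.blockCoeff F t = ext0 K (Cfsg.blockCoeff f) (t : G) := by
  classical
  have hfinT : Fintype T := Fintype.ofFinite _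
  have hfinK : Fintype K := Fintype.ofFinite _
  -- the idempotent of `f` on `T`
  have huc : Cfsg.IsClassFunction T (res T (ext0 K (Cfsg.blockCoeff f))) :=
    isClassFunction_res (invBy_ext0_blockCoeff_of_stabilizes hstab)
  have huR : LocInt M (res T (ext0 K (Cfsg.blockCoeff f))) :=
    locInt_res _ (locInt_ext0 hM K (fun k => memLocalRing_blockCoeff hM f hf k))
  have huG : ext0 T (res T (ext0 K (Cfsg.blockCoeff f))) = ext0 K (Cfsg.blockCoeff f) :=
    ext0_res_ext0 hKT _
  have huGidem : conv (ext0 K (Cfsg.blockCoeff f)) (ext0 K (Cfsg.blockCoeff f)) =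
      ext0 K (Cfsg.blockCoeff f) := by
    rw [conv_ext0, conv_blockCoeff_self]
  have huidem : conv (res T (ext0 K (Cfsg.blockCoeff f))) (res T (ext0 K (Cfsg.blockCoeff f))) =
      res T (ext0 K (Cfsg.blockCoeff f)) := by
    apply ext0_injective T
    rw [← conv_ext0, huG, huGidem]
  have hE := eq_blockCoeff_idemSet huc huidem
  have hEU := isBlockUnion_idemSet hM huc huidem huR
  have hEne : (idemSet (res T (ext0 K (Cfsg.blockCoeff f)))).Nonempty := by
    by_contra hcon
    rw [Set.not_nonempty_iff_eq_empty] at hcon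
    rw [hcon, blockCoeff_empty] at hE
    have h1 : ext0 K (Cfsg.blockCoeff f) = 0 := by
      rw [← huG, hE, ext0_zero]
    have h2 : Cfsg.blockCoeff f = 0 := by
      apply ext0_injective K
      rw [h1, ext0_zero]
    exact blockCoeff_ne_zero (IsPBlock.nonempty hM hf) h2
  obtain ⟨χ, hχ⟩ := hEne
  have hF : Cfsg.IsPBlock M (Cfsg.blockOf M (χ : T → ℂ)) := isPBlock_blockOf χ
  have hFE := hEU χ hχ
  refine ⟨Cfsg.blockOf M (χ : T → ℂ), hF, ?_⟩
  -- the idempotent of the block, restricted to `K`
  have hvG : ext0 K (res K (ext0 T (Cfsg.blockCoeff (Cfsg.blockOf M (χ : T → ℂ))))) =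
      ext0 T (Cfsg.blockCoeff (Cfsg.blockOf M (χ : T → ℂ))) := by
    funext g
    by_cases hg : g ∈ K
    · rw [ext0_res_of_mem K _ hg]
    · rw [ext0_of_not_mem K _ hg]
      by_cases hgT : g ∈ T
      · rw [ext0_of_mem T _ hgT]
        exact (hsupp _ hF ⟨g, hgT⟩ hg).symm
      · rw [ext0_of_not_mem T _ hgT]
  have hwc : Cfsg.IsClassFunction K
      (res K (ext0 T (Cfsg.blockCoeff (Cfsg.blockOf M (χ : T → ℂ))))) :=
    isClassFunction_res (invBy_ext0 hKT (blockCoeff_isClassFunction _))
  have hwR : LocInt M (res K (ext0 T (Cfsg.blockCoeff (Cfsg.blockOf M (χ : T → ℂ))))) :=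
    locInt_res _ (locInt_ext0 hM T (fun k => memLocalRing_blockCoeff hM _ hF k))
  have hvGidem : conv (ext0 T (Cfsg.blockCoeff (Cfsg.blockOf M (χ : T → ℂ))))
      (ext0 T (Cfsg.blockCoeff (Cfsg.blockOf M (χ : T → ℂ)))) =
      ext0 T (Cfsg.blockCoeff (Cfsg.blockOf M (χ : T → ℂ))) := by
    rw [conv_ext0, conv_blockCoeff_self]
  have hwidem : conv (res K (ext0 T (Cfsg.blockCoeff (Cfsg.blockOf M (χ : T → ℂ)))))
      (res K (ext0 T (Cfsg.blockCoeff (Cfsg.blockOf M (χ : T → ℂ))))) =
      res K (ext0 T (Cfsg.blockCoeff (Cfsg.blockOf M (χ : T → ℂ)))) := by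
    apply ext0_injective K
    rw [← conv_ext0, hvG, hvGidem]
  have hvu : conv (ext0 T (Cfsg.blockCoeff (Cfsg.blockOf M (χ : T → ℂ))))
      (ext0 K (Cfsg.blockCoeff f)) =
      ext0 T (Cfsg.blockCoeff (Cfsg.blockOf M (χ : T → ℂ))) := by
    rw [← huG, conv_ext0]
    congr 1
    rw [hE, conv_blockCoeff, Set.inter_eq_left.mpr hFE]
  have hwf : conv (res K (ext0 T (Cfsg.blockCoeff (Cfsg.blockOf M (χ : T → ℂ)))))
      (Cfsg.blockCoeff f) =
      res K (ext0 T (Cfsg.blockCoeff (Cfsg.blockOf M (χ : T → ℂ)))) := by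
    apply ext0_injective K
    rw [← conv_ext0, hvG, hvu]
  have hA := eq_blockCoeff_idemSet hwc hwidem
  have hAU := isBlockUnion_idemSet hM hwc hwidem hwR
  have hAf : idemSet (res K (ext0 T (Cfsg.blockCoeff (Cfsg.blockOf M (χ : T → ℂ))))) ⊆ f := by
    intro ξ hξ
    have h1 : omegaF (ξ : K → ℂ)
        (res K (ext0 T (Cfsg.blockCoeff (Cfsg.blockOf M (χ : T → ℂ))))) = 1 := hξ
    have h2 := omegaF_conv ξ (res K (ext0 T (Cfsg.blockCoeff (Cfsg.blockOf M (χ : T → ℂ)))))
      (blockCoeff_isClassFunction f)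
    rw [hwf, h1, one_mul, omegaF_blockCoeff_set] at h2
    by_contra hn
    rw [if_neg hn] at h2
    exact one_ne_zero h2
  have hAne : (idemSet (res K (ext0 T (Cfsg.blockCoeff (Cfsg.blockOf M (χ : T → ℂ)))))).Nonempty := by
    by_contra hcon
    rw [Set.not_nonempty_iff_eq_empty] at hcon
    rw [hcon, blockCoeff_empty] at hA
    have h1 : ext0 T (Cfsg.blockCoeff (Cfsg.blockOf M (χ : T → ℂ))) = 0 := by
      rw [← hvG, hA, ext0_zero]
    have h2 : Cfsg.blockCoeff (Cfsg.blockOf M (χ : T → ℂ)) = 0 := by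
      apply ext0_injective T
      rw [h1, ext0_zero]
    exact blockCoeff_ne_zero ⟨χ, mem_blockOf_self hM χ⟩ h2
  have hAeq := eq_of_isBlockUnion_of_subset hM hAU hAne hf hAf
  rw [hAeq] at hA
  intro t
  rw [← ext0_coe T (Cfsg.blockCoeff (Cfsg.blockOf M (χ : T → ℂ))) t, ← hvG, hA]

/-- the idempotents of the blocks of a subgroup `T` with `Q ≤ T ≤ N_G(Q)`, `Q` a `p`-group,
vanish outside `C_G(Q)` -/
theorem blockCoeff_eq_zero_of_not_mem_centralizer' {p : ℕ} [Fact p.Prime]
    (hM : Cfsg.IsPModular p M) (T Q : Subgroup G) (hQ : IsPGroup p Q) (hQT : Q ≤ T)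
    (hTN : T ≤ Subgroup.normalizer (Q : Set G)) (F : Set (Cfsg.IrrCharacter T))
    (hF : Cfsg.IsPBlock M F) (t : T) (ht : (t : G) ∉ Subgroup.centralizer (Q : Set G)) :
    Cfsg.blockCoeff F t = 0 := by
  have hn : (Q.subgroupOf T).Normal := (Subgroup.normal_subgroupOf_iff_le_normalizer hQT).mpr hTN
  have hfinT : Fintype T := Fintype.ofFinite _
  apply blockCoeff_eq_zero_of_not_mem_centralizer hM (Q.subgroupOf T) hQ.comap_subtype F hF t
  intro h
  apply ht
  rw [Subgroup.mem_centralizer_iff] at h ⊢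
  intro q hq
  have h1 := h ⟨q, hQT hq⟩ (by
    show (⟨q, hQT hq⟩ : T) ∈ Q.subgroupOf T
    rw [Subgroup.mem_subgroupOf]
    exact hq)
  exact congrArg Subtype.val h1

end Ext

section Stab

variable {G : Type*} [Group G] [Finite G] {M : Ideal Cfsg.AlgInt}

omit [Finite G] in
/-- the elements of a subgroup stabilize every set of its irreducible characters -/
theorem stabilizesBlock_of_mem (K : Subgroup G) (A : Set (Cfsg.IrrCharacter K)) {k : G}
    (hk : k ∈ K) : Cfsg.StabilizesBlock K A k := by
  refine ⟨Subgroup.le_normalizer hk, fun χ hχ => ⟨χ, hχ, ?_⟩⟩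
  intro c c' hcc'
  have e : c' = ⟨k, hk⟩ * c * (⟨k, hk⟩ : K)⁻¹ := Subtype.ext hcc'
  rw [e]
  exact irrCharacter_conj_eq χ ⟨k, hk⟩ c

/-- the stabilizer of a set of irreducible characters of a subgroup -/
def blockStab (K : Subgroup G) (A : Set (Cfsg.IrrCharacter K)) : Subgroup G where
  carrier := {x | Cfsg.StabilizesBlock K A x}
  one_mem' := stabilizesBlock_of_mem K A (Subgroup.one_mem K)
  mul_mem' := by
    intro a b ha hb
    have ha' : a ∈ Subgroup.normalizer (K : Set G) := ha.1
    have hb' : b ∈ Subgroup.normalizer (K : Set G) := hb.1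
    have hab := Subgroup.mul_mem _ ha' hb'
    show Cfsg.StabilizesBlock K A (a * b)
    rw [stabilizesBlock_iff K A (a * b) hab, conjSet_mul K a b ha' hb' hab]
    exact (mapSet_mono _ ((stabilizesBlock_iff K A b hb').mp hb)).trans
      ((stabilizesBlock_iff K A a ha').mp ha)
  inv_mem' := by
    intro a ha
    have hpow : ∀ n : ℕ, Cfsg.StabilizesBlock K A (a ^ n) := by
      intro n
      induction n with
      | zero =>
        rw [pow_zero]
        exact stabilizesBlock_of_mem K A (Subgroup.one_mem K)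
      | succ n ih =>
        have ha' : a ∈ Subgroup.normalizer (K : Set G) := ha.1
        have hn' : a ^ n ∈ Subgroup.normalizer (K : Set G) := ih.1
        have hab := Subgroup.mul_mem _ hn' ha'
        rw [pow_succ, stabilizesBlock_iff K A (a ^ n * a) hab, conjSet_mul K (a ^ n) a hn' ha' hab]
        exact (mapSet_mono _ ((stabilizesBlock_iff K A a ha').mp ha)).trans
          ((stabilizesBlock_iff K A (a ^ n) hn').mp ih)
    have e : a⁻¹ = a ^ (Nat.card G - 1) := by
      apply inv_eq_of_mul_eq_one_right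
      rw [← pow_succ', Nat.sub_add_cancel Nat.card_pos, pow_card_eq_one']
    show Cfsg.StabilizesBlock K A a⁻¹
    rw [e]
    exact hpow _

theorem mem_blockStab_iff (K : Subgroup G) (A : Set (Cfsg.IrrCharacter K)) (x : G) :
    x ∈ blockStab K A ↔ Cfsg.StabilizesBlock K A x := Iff.rfl

theorem le_blockStab (K : Subgroup G) (A : Set (Cfsg.IrrCharacter K)) : K ≤ blockStab K A :=
  fun _ hk => stabilizesBlock_of_mem K A hk

end Stab

end Cfsg.Agent.Lib.Helper77
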