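import Mathlib
import Cfsg.Prelude.Def_Blocks
import Cfsg.Prelude.Def_BlockLocal
import Cfsg.Prelude.Def_BrauerPairs
import Cfsg.Agent.Lib.Helper77.IdemSet
import Cfsg.Agent.S0959
import Cfsg.Agent.S4660

/-!
# Brauer pairs below a maximal pair: local defect groups

For a Brauer pair `(Q, f)` below a maximal Brauer pair `(P, e)` of a block: `C_P(Q)` lies in a
defect group of `f`, `N_P(Q)` lies in a defect group of the block of the stabilizer of `f`
with the idempotent of `f`, and after conjugation these are defect groups.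
-/

set_option autoImplicit false
set_option linter.unusedSectionVars false

namespace Cfsg.Agent.Lib.Helper77

open Cfsg Cfsg.Agent.Lib.Helper16 Cfsg.Agent.Lib.Helper81

section Up

variable {G : Type*} [Group G] [Fintype G] {M : Ideal Cfsg.AlgInt}

/-- **Going up.**  If `Q ≤ R ≤ N_G(Q)` with `R` a `p`-group stabilizing the block `f` of
`C_G(Q)`, and the idempotent of `f` is outside the local ideal at some element of `C_G(R)`,
then some Brauer pair on `R` normally contains `(Q, f)`. -/
theorem exists_isNormalSubpair_of_not_memLocalIdeal {p : ℕ} [Fact p.Prime]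
    (hM : Cfsg.IsPModular p M) {Q R : Subgroup G}
    {f : Set (Cfsg.IrrCharacter (Subgroup.centralizer (Q : Set G)))}
    (hQf : Cfsg.IsBrauerPair p M Q f) (hR : IsPGroup p R) (hQR : Q ≤ R)
    (hRN : R ≤ Subgroup.normalizer (Q : Set G))
    (hstab : ∀ x ∈ R, Cfsg.StabilizesBlock (Subgroup.centralizer (Q : Set G)) f x) {y : G}
    (hy : y ∈ Subgroup.centralizer (R : Set G))
    (hne : ¬ Cfsg.MemLocalIdeal M
      (ext0 (Subgroup.centralizer (Q : Set G)) (Cfsg.blockCoeff f) y)) :
    ∃ g : Set (Cfsg.IrrCharacter (Subgroup.centralizer (R : Set G))),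
      Cfsg.IsNormalSubpair p M Q f R g := by
  have hMp := isPrime_of_isPModular hM
  have hfinQ : Fintype (Subgroup.centralizer (Q : Set G)) := Fintype.ofFinite _
  have hfinR : Fintype (Subgroup.centralizer (R : Set G)) := Fintype.ofFinite _
  have hCRC : Subgroup.centralizer (R : Set G) ≤ Subgroup.centralizer (Q : Set G) :=
    Subgroup.centralizer_le hQR
  have heR : LocInt M (ext0 (Subgroup.centralizer (Q : Set G)) (Cfsg.blockCoeff f)) :=
    locInt_ext0 hMp _ (fun k => memLocalRing_blockCoeff hMp f hQf.2 k)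
  have hinv : InvBy R (ext0 (Subgroup.centralizer (Q : Set G)) (Cfsg.blockCoeff f)) :=
    invBy_ext0_blockCoeff_of_stabilizes hstab
  have hCinv : InvBy (Subgroup.centralizer (R : Set G))
      (ext0 (Subgroup.centralizer (Q : Set G)) (Cfsg.blockCoeff f)) :=
    invBy_ext0 hCRC (blockCoeff_isClassFunction f)
  have hadm : BrAdm M R (ext0 (Subgroup.centralizer (Q : Set G)) (Cfsg.blockCoeff f)) :=
    ⟨heR, hinv, hCinv⟩
  have hee : conv (ext0 (Subgroup.centralizer (Q : Set G)) (Cfsg.blockCoeff f))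
      (ext0 (Subgroup.centralizer (Q : Set G)) (Cfsg.blockCoeff f)) =
      ext0 (Subgroup.centralizer (Q : Set G)) (Cfsg.blockCoeff f) := by
    rw [conv_ext0, conv_blockCoeff, Set.inter_self]
  have huc : Cfsg.IsClassFunction (Subgroup.centralizer (R : Set G))
      (res (Subgroup.centralizer (R : Set G))
        (ext0 (Subgroup.centralizer (Q : Set G)) (Cfsg.blockCoeff f))) :=
    isClassFunction_res hCinv
  have huR : LocInt M (res (Subgroup.centralizer (R : Set G))
      (ext0 (Subgroup.centralizer (Q : Set G)) (Cfsg.blockCoeff f))) := locInt_res _ heR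
  have hidem : LocIdl M (conv (res (Subgroup.centralizer (R : Set G))
        (ext0 (Subgroup.centralizer (Q : Set G)) (Cfsg.blockCoeff f)))
      (res (Subgroup.centralizer (R : Set G))
        (ext0 (Subgroup.centralizer (Q : Set G)) (Cfsg.blockCoeff f))) -
      res (Subgroup.centralizer (R : Set G))
        (ext0 (Subgroup.centralizer (Q : Set G)) (Cfsg.blockCoeff f))) := by
    have h1 := locIdl_res_conv_sub hM R hR heR heR hinv hinv
    rw [hee] at h1
    have h2 := locIdl_neg h1
    rwa [neg_sub] at h2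
  by_cases hall : ∀ ζ : Cfsg.IrrCharacter (Subgroup.centralizer (R : Set G)),
      Cfsg.MemLocalIdeal M (omegaF (ζ : Subgroup.centralizer (R : Set G) → ℂ)
        (res (Subgroup.centralizer (R : Set G))
          (ext0 (Subgroup.centralizer (Q : Set G)) (Cfsg.blockCoeff f))))
  · exact absurd (locIdl_of_idem_of_omegaF hMp huc huR hidem hall ⟨y, hy⟩) hne
  · push Not at hall
    obtain ⟨ζ, hζ⟩ := hall
    have hg : ∀ ζ' ∈ Cfsg.blockOf M (ζ : Subgroup.centralizer (R : Set G) → ℂ),
        Cfsg.MemLocalIdeal M (Cfsg.brauerOmega R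
          (Cfsg.subgroupBlockCoeff (Subgroup.centralizer (Q : Set G)) f)
          (ζ' : Subgroup.centralizer (R : Set G) → ℂ) - 1) := by
      intro ζ' hζ'
      rw [subgroupBlockCoeff_eq_ext0]
      have h1 := memLocalIdeal_brauerOmega_sub_of_sameBlock hMp R
        ((mem_blockOf_iff _ _).mp hζ') hadm
      have hn : ¬ Cfsg.MemLocalIdeal M (Cfsg.brauerOmega R
          (ext0 (Subgroup.centralizer (Q : Set G)) (Cfsg.blockCoeff f))
          (ζ' : Subgroup.centralizer (R : Set G) → ℂ)) := by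
        intro h
        apply hζ
        rw [← brauerOmega_eq_omegaF]
        have h2 := memLocalIdeal_add hMp h1 h
        rwa [sub_add_cancel] at h2
      apply memLocalIdeal_sub_one_of_idem hMp (memLocalRing_brauerOmega hMp R ζ' hadm) _ hn
      have h3 := memLocalIdeal_brauerOmega_conv hM R hR ζ' hadm hadm
      rw [hee] at h3
      exact h3
    exact ⟨Cfsg.blockOf M (ζ : Subgroup.centralizer (R : Set G) → ℂ),
      hQf, ⟨hR, isPBlock_blockOf ζ⟩, hQR, hRN, hstab, hg⟩

/-- a pair below `(P, e)` is normal in the pair below `(P, e)` on any intermediate subgroup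
normalizing it -/
theorem exists_isNormalSubpair_of_subpairLE {p : ℕ} [Fact p.Prime] (hM : Cfsg.IsPModular p M)
    {Q R P : Subgroup G} {f : Set (Cfsg.IrrCharacter (Subgroup.centralizer (Q : Set G)))}
    {e : Set (Cfsg.IrrCharacter (Subgroup.centralizer (P : Set G)))}
    (hPe : Cfsg.IsBrauerPair p M P e) (hle : Cfsg.SubpairLE p M Q f P e) (hQR : Q ≤ R)
    (hRP : R ≤ P) (hRN : R ≤ Subgroup.normalizer (Q : Set G)) :
    ∃ g : Set (Cfsg.IrrCharacter (Subgroup.centralizer (R : Set G))),
      Cfsg.IsNormalSubpair p M Q f R g ∧ Cfsg.SubpairLE p M R g P e := by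
  obtain ⟨g, hg, hgle⟩ := exists_subpairLE hM P e hPe _ R hRP le_rfl
  have hRg : Cfsg.IsBrauerPair p M R g := ⟨hPe.1.to_le hRP, hg⟩
  obtain ⟨f', hf', -⟩ := existsUnique_isNormalSubpair hM R Q g hRg hQR hRN
  have hle' : Cfsg.SubpairLE p M Q f' P e := Relation.ReflTransGen.head
    (show Cfsg.NormalSubpairRel p M ⟨Q, f'⟩ ⟨R, g⟩ from hf') hgle
  have hff := subpairLE_unique hM _ P e le_rfl hPe Q f' f hle' hle
  subst hff
  exact ⟨g, hf', hgle⟩

/-- the idempotent of the lower block of a normal inclusion is outside the local ideal at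
some element centralizing the upper subgroup -/
theorem exists_not_memLocalIdeal_of_isNormalSubpair {p : ℕ} (hM : M.IsPrime)
    {Q R : Subgroup G} {f : Set (Cfsg.IrrCharacter (Subgroup.centralizer (Q : Set G)))}
    {g : Set (Cfsg.IrrCharacter (Subgroup.centralizer (R : Set G)))}
    (h : Cfsg.IsNormalSubpair p M Q f R g) :
    ∃ c ∈ Subgroup.centralizer (R : Set G), ¬ Cfsg.MemLocalIdeal M
      (ext0 (Subgroup.centralizer (Q : Set G)) (Cfsg.blockCoeff f) c) := by
  obtain ⟨⟨hQ, hf⟩, ⟨hR, hg⟩, hQR, hRN, hstab, hω⟩ := h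
  have hfinQ : Fintype (Subgroup.centralizer (Q : Set G)) := Fintype.ofFinite _
  obtain ⟨ξ, hξ⟩ := IsPBlock.nonempty hM hg
  by_contra hcon
  push Not at hcon
  have hI : LocIdl M (ext0 (Subgroup.centralizer (R : Set G))
      (res (Subgroup.centralizer (R : Set G))
        (ext0 (Subgroup.centralizer (Q : Set G)) (Cfsg.blockCoeff f)))) := by
    apply locIdl_ext0 hM
    intro k
    exact hcon k k.2
  have hIC : InvBy (Subgroup.centralizer (R : Set G))
      (ext0 (Subgroup.centralizer (R : Set G))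
        (res (Subgroup.centralizer (R : Set G))
          (ext0 (Subgroup.centralizer (Q : Set G)) (Cfsg.blockCoeff f)))) :=
    invBy_ext0 le_rfl (isClassFunction_res
      (invBy_ext0 (Subgroup.centralizer_le hQR) (blockCoeff_isClassFunction f)))
  have h7 := memLocalIdeal_brauerOmega_of_locIdl hM R ξ hI hIC
  rw [brauerOmega_congr R (fun x hx => by rw [ext0_of_mem _ _ hx]; rfl)
    (ξ : Subgroup.centralizer (R : Set G) → ℂ)] at h7
  have h8 := hω ξ hξ
  rw [subgroupBlockCoeff_eq_ext0] at h8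
  exact not_memLocalIdeal_of_sub_one hM h8 h7

/-- along an inclusion of Brauer pairs, a block containing the upper pair contains the lower
pair -/
theorem isBrauerPairOf_of_subpairLE_down {p : ℕ} [Fact p.Prime] (hM : Cfsg.IsPModular p M)
    {B : Set (Cfsg.IrrCharacter G)} {a b : Cfsg.BrauerPairIdx G}
    (h : Relation.ReflTransGen (Cfsg.NormalSubpairRel p M) a b)
    (hb : Cfsg.IsBrauerPairOf p M B b.1 b.2) : Cfsg.IsBrauerPairOf p M B a.1 a.2 := by
  have hMp := isPrime_of_isPModular hM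
  rcases Relation.ReflTransGen.cases_head h with rfl | ⟨c, hac, hcb⟩
  · exact hb
  · have hQf : Cfsg.IsBrauerPair p M a.1 a.2 := hac.1
    obtain ⟨ξ, hξ⟩ := IsPBlock.nonempty hMp hQf.2
    obtain ⟨A, hA, hA1, hAu⟩ := exists_block_of_brauerOmega hM a.1 hQf.1 ξ
    have hadm : BrAdm M a.1 (Cfsg.blockCoeff A) :=
      brAdm_of_isClassFunction (fun g => memLocalRing_blockCoeff hMp A hA g)
        (blockCoeff_isClassFunction A)
    have haA : Cfsg.IsBrauerPairOf p M A a.1 a.2 := by
      refine ⟨hQf, hA, fun ξ' hξ' => ?_⟩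
      have h1 := memLocalIdeal_brauerOmega_sub_of_sameBlock hMp a.1
        (IsPBlock.sameBlock hMp hQf.2 hξ' hξ) hadm
      have h2 := memLocalIdeal_add hMp h1 hA1
      rwa [sub_add_sub_cancel] at h2
    have hbA := isBrauerPairOf_of_subpairLE hM h haA
    obtain ⟨ζ, hζ⟩ := IsPBlock.nonempty hMp hb.1.2
    obtain ⟨A', hA', hA'1, hA'u⟩ := exists_block_of_brauerOmega hM b.1 hb.1.1 ζ
    have h1 : A = A' := hA'u A hA (not_memLocalIdeal_of_sub_one hMp (hbA.2.2 ζ hζ))
    have h2 : B = A' := hA'u B hb.2.1 (not_memLocalIdeal_of_sub_one hMp (hb.2.2 ζ hζ))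
    rw [h2, ← h1]
    exact haA

theorem sigma_conjBlock_one (Q : Subgroup G)
    (f : Set (Cfsg.IrrCharacter (Subgroup.centralizer (Q : Set G)))) :
    (⟨Q.map (MulAut.conj (1 : G)).toMonoidHom, Cfsg.conjBlock Q 1 f⟩ : Cfsg.BrauerPairIdx G) =
      ⟨Q, f⟩ := by
  have h : Q = Q.map (MulAut.conj (1 : G)).toMonoidHom :=
    map_conj_eq_of_mem_normalizer (Subgroup.one_mem _)
  rw [sigma_conjBlock_eq 1 Q Q h f, conjBlockTo_eq_conjSet Q 1 (Subgroup.one_mem _), conjSet_one]

theorem sigma_conjBlock_conjBlock (x z : G) (Q : Subgroup G)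
    (f : Set (Cfsg.IrrCharacter (Subgroup.centralizer (Q : Set G)))) :
    (⟨(Q.map (MulAut.conj x).toMonoidHom).map (MulAut.conj z).toMonoidHom,
        Cfsg.conjBlock (Q.map (MulAut.conj x).toMonoidHom) z (Cfsg.conjBlock Q x f)⟩ :
        Cfsg.BrauerPairIdx G) =
      ⟨Q.map (MulAut.conj (z * x)).toMonoidHom, Cfsg.conjBlock Q (z * x) f⟩ := by
  have h : Q.map (MulAut.conj (z * x)).toMonoidHom =
      (Q.map (MulAut.conj x).toMonoidHom).map (MulAut.conj z).toMonoidHom :=
    (map_conj_map_conj x z Q).symm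
  rw [sigma_conjBlock_eq z (Q.map (MulAut.conj x).toMonoidHom)
    (Q.map (MulAut.conj (z * x)).toMonoidHom) h (Cfsg.conjBlock Q x f), conjBlock_eq Q x f,
    conjBlockTo_conjBlockTo x z Q _ _ rfl h f]
  rfl

end Up

section Defect

variable {M : Ideal Cfsg.AlgInt}

/-- a `p`-subgroup centralizing an element at which the idempotent of a block is outside the
local ideal lies in a defect group of the block -/
theorem exists_isDefectGroup_ge {K : Type*} [Group K] [Fintype K] {p : ℕ} [Fact p.Prime]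
    (hM : Cfsg.IsPModular p M) {F : Set (Cfsg.IrrCharacter K)} (hF : Cfsg.IsPBlock M F)
    (R' : Subgroup K) (hR' : IsPGroup p R') {c : K}
    (hc : c ∈ Subgroup.centralizer (R' : Set K))
    (hne : ¬ Cfsg.MemLocalIdeal M (Cfsg.blockCoeff F c)) :
    ∃ D : Subgroup K, Cfsg.IsDefectGroup p M F D ∧ R' ≤ D := by
  have hMp := isPrime_of_isPModular hM
  obtain ⟨D₀, hD₀⟩ := exists_isDefectGroup p hMp F hF
  obtain ⟨x, hx⟩ := (Cfsg.Agent.S0959.result p M hM F hF D₀ hD₀ R' hR').mp
    ⟨c, memLocalRing_blockCoeff hMp F hF c, hne, c, IsConj.refl c, hc⟩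
  refine ⟨D₀.map (MulAut.conj x⁻¹).toMonoidHom, isDefectGroup_map_conj hD₀ x⁻¹, ?_⟩
  intro r hr
  refine ⟨x * r * x⁻¹, hx ⟨r, hr, rfl⟩, ?_⟩
  show x⁻¹ * (x * r * x⁻¹) * x⁻¹⁻¹ = r
  group

end Defect

section Local

variable {G : Type*} [Group G] [Fintype G] {M : Ideal Cfsg.AlgInt}

/-- `C_P(Q)` lies in a defect group of `f`, for `(Q, f)` below the maximal pair `(P, e)` -/
theorem exists_isDefectGroup_centralizer_ge {p : ℕ} [Fact p.Prime] (hM : Cfsg.IsPModular p M)
    {B : Set (Cfsg.IrrCharacter G)} {P Q : Subgroup G}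
    {e : Set (Cfsg.IrrCharacter (Subgroup.centralizer (P : Set G)))}
    {f : Set (Cfsg.IrrCharacter (Subgroup.centralizer (Q : Set G)))}
    (hmax : Cfsg.IsMaximalBrauerPair p M B P e) (hQP : Q ≤ P)
    (hle : Cfsg.SubpairLE p M Q f P e) (hf : Cfsg.IsPBlock M f) :
    ∃ D : Subgroup (Subgroup.centralizer (Q : Set G)), Cfsg.IsDefectGroup p M f D ∧
      (P ⊓ Subgroup.centralizer (Q : Set G)).subgroupOf (Subgroup.centralizer (Q : Set G)) ≤ D := by
  have hMp := isPrime_of_isPModular hM
  have hPe := hmax.1.1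
  have hQR : Q ≤ P ⊓ Subgroup.normalizer (Q : Set G) := le_inf hQP Subgroup.le_normalizer
  obtain ⟨g, hns, -⟩ := exists_isNormalSubpair_of_subpairLE hM hPe hle hQR inf_le_left inf_le_right
  obtain ⟨c, hc, hne⟩ := exists_not_memLocalIdeal_of_isNormalSubpair hMp hns
  have hcQ : c ∈ Subgroup.centralizer (Q : Set G) := Subgroup.centralizer_le hQR hc
  rw [ext0_of_mem _ _ hcQ] at hne
  have hfin : Fintype (Subgroup.centralizer (Q : Set G)) := Fintype.ofFinite _
  apply exists_isDefectGroup_ge hM hf _ ((hPe.1.to_le inf_le_left).comap_subtype)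
    (c := ⟨c, hcQ⟩) _ hne
  rw [Subgroup.mem_centralizer_iff]
  intro r hr
  have hrG : (r : G) ∈ P ⊓ Subgroup.centralizer (Q : Set G) := hr
  have hrR : (r : G) ∈ P ⊓ Subgroup.normalizer (Q : Set G) :=
    ⟨hrG.1, Subgroup.centralizer_le_normalizer (Q : Set G) hrG.2⟩
  apply Subtype.ext
  exact Subgroup.mem_centralizer_iff.mp hc (r : G) hrR

/-- the idempotent of `f` is a block idempotent of the stabilizer `T` of `f` in `N_G(Q)`, and
`N_P(Q)` lies in `T` and in a defect group of that block, for `(Q, f)` below the maximal pair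
`(P, e)` -/
theorem exists_block_isDefectGroup_normalizer_ge {p : ℕ} [Fact p.Prime]
    (hM : Cfsg.IsPModular p M) {B : Set (Cfsg.IrrCharacter G)} {P Q : Subgroup G}
    {e : Set (Cfsg.IrrCharacter (Subgroup.centralizer (P : Set G)))}
    {f : Set (Cfsg.IrrCharacter (Subgroup.centralizer (Q : Set G)))}
    (hmax : Cfsg.IsMaximalBrauerPair p M B P e) (hQP : Q ≤ P)
    (hle : Cfsg.SubpairLE p M Q f P e) (hf : Cfsg.IsPBlock M f) (T : Subgroup G)
    (hT : ∀ y : G, y ∈ T ↔ y ∈ Subgroup.normalizer (Q : Set G) ∧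
      Cfsg.StabilizesBlock (Subgroup.centralizer (Q : Set G)) f y) :
    P ⊓ Subgroup.normalizer (Q : Set G) ≤ T ∧
    ∃ F : Set (Cfsg.IrrCharacter T), Cfsg.IsPBlock M F ∧
      (∀ t : T, Cfsg.blockCoeff F t =
        Cfsg.subgroupBlockCoeff (Subgroup.centralizer (Q : Set G)) f (t : G)) ∧
      ∃ D : Subgroup T, Cfsg.IsDefectGroup p M F D ∧
        (P ⊓ Subgroup.normalizer (Q : Set G)).subgroupOf T ≤ D := by
  have hMp := isPrime_of_isPModular hM
  have hPe := hmax.1.1
  have hQ : IsPGroup p Q := hPe.1.to_le hQP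
  have hQT : Q ≤ T := fun q hq =>
    (hT q).mpr ⟨Subgroup.le_normalizer hq, stabilizesBlock_of_mem_self Q f hq⟩
  have hTN : T ≤ Subgroup.normalizer (Q : Set G) := fun t ht => ((hT t).mp ht).1
  have hCT : Subgroup.centralizer (Q : Set G) ≤ T := fun c hc =>
    (hT c).mpr ⟨Subgroup.centralizer_le_normalizer (Q : Set G) hc, stabilizesBlock_of_mem _ f hc⟩
  have hstab : ∀ t ∈ T, Cfsg.StabilizesBlock (Subgroup.centralizer (Q : Set G)) f t :=
    fun t ht => ((hT t).mp ht).2
  obtain ⟨F, hF, hFe⟩ := exists_block_eq_ext0 hMp T (Subgroup.centralizer (Q : Set G)) hCT f hf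
    hstab (fun F hF t ht => blockCoeff_eq_zero_of_not_mem_centralizer' hM T Q hQ hQT hTN F hF t ht)
  have hQR : Q ≤ P ⊓ Subgroup.normalizer (Q : Set G) := le_inf hQP Subgroup.le_normalizer
  obtain ⟨g, hns, -⟩ := exists_isNormalSubpair_of_subpairLE hM hPe hle hQR inf_le_left inf_le_right
  have hRT : P ⊓ Subgroup.normalizer (Q : Set G) ≤ T :=
    fun r hr => (hT r).mpr ⟨hr.2, hns.2.2.2.2.1 r hr⟩
  obtain ⟨c, hc, hne⟩ := exists_not_memLocalIdeal_of_isNormalSubpair hMp hns
  have hcQ : c ∈ Subgroup.centralizer (Q : Set G) := Subgroup.centralizer_le hQR hc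
  have hcT : c ∈ T := hCT hcQ
  have hfin : Fintype T := Fintype.ofFinite _
  refine ⟨hRT, F, hF, hFe, ?_⟩
  apply exists_isDefectGroup_ge hM hF _ ((hPe.1.to_le inf_le_left).comap_subtype)
    (c := ⟨c, hcT⟩) _ (by rw [hFe]; exact hne)
  rw [Subgroup.mem_centralizer_iff]
  intro r hr
  apply Subtype.ext
  exact Subgroup.mem_centralizer_iff.mp hc (r : G) hr

/-- **Improvement, centralizers.**  For `(Q, f)` below the maximal pair `(P, e)` and a defect
group `D` of `f`, some conjugate of `(Q, f)` below `(P, e)` has `|C_P(Q^z)| ≥ |D|`. -/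
theorem exists_conj_card_centralizer_ge {p : ℕ} [Fact p.Prime] (hM : Cfsg.IsPModular p M)
    {B : Set (Cfsg.IrrCharacter G)} {P Q : Subgroup G}
    {e : Set (Cfsg.IrrCharacter (Subgroup.centralizer (P : Set G)))}
    {f : Set (Cfsg.IrrCharacter (Subgroup.centralizer (Q : Set G)))}
    (hmax : Cfsg.IsMaximalBrauerPair p M B P e) (hle : Cfsg.SubpairLE p M Q f P e)
    (hf : Cfsg.IsPBlock M f) (D : Subgroup (Subgroup.centralizer (Q : Set G)))
    (hD : Cfsg.IsDefectGroup p M f D) :
    ∃ z : G, Cfsg.SubpairLE p M (Q.map (MulAut.conj z).toMonoidHom) (Cfsg.conjBlock Q z f) P e ∧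
      Nat.card D ≤ Nat.card (P ⊓ Subgroup.centralizer
        ((Q.map (MulAut.conj z).toMonoidHom : Subgroup G) : Set G) : Subgroup G) := by
  have hMp := isPrime_of_isPModular hM
  have hPe := hmax.1.1
  have hQP : Q ≤ P := subpairLE_le hle
  have hQ : IsPGroup p Q := hPe.1.to_le hQP
  have hQf : Cfsg.IsBrauerPair p M Q f := ⟨hQ, hf⟩
  have hBQ : Cfsg.IsBrauerPairOf p M B Q f := isBrauerPairOf_of_subpairLE_down hM hle hmax.1
  obtain ⟨c₀, hc₀, S, rfl⟩ := hD
  have hDp : IsPGroup p (((S : Subgroup (Subgroup.centralizer ({c₀} : Set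
      (Subgroup.centralizer (Q : Set G))))).map
      (Subgroup.centralizer ({c₀} : Set (Subgroup.centralizer (Q : Set G)))).subtype).map
      (Subgroup.centralizer (Q : Set G)).subtype) := (S.isPGroup'.map _).map _
  have hDC : ((S : Subgroup (Subgroup.centralizer ({c₀} : Set
      (Subgroup.centralizer (Q : Set G))))).map
      (Subgroup.centralizer ({c₀} : Set (Subgroup.centralizer (Q : Set G)))).subtype).map
      (Subgroup.centralizer (Q : Set G)).subtype ≤ Subgroup.centralizer (Q : Set G) := by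
    rintro _ ⟨d, -, rfl⟩
    exact d.2
  have hDN := hDC.trans (Subgroup.centralizer_le_normalizer (Q : Set G))
  have hR := IsPGroup.to_sup_of_normal_left' hQ hDp hDN
  have hRN := sup_le (Subgroup.le_normalizer (H := Q)) hDN
  have hRs := sup_le (fun q hq => stabilizesBlock_of_mem_self Q f hq :
      Q ≤ blockStab (Subgroup.centralizer (Q : Set G)) f) (hDC.trans (le_blockStab _ f))
  have hcent := sup_le (a := Q) (b := ((S : Subgroup (Subgroup.centralizer ({c₀} : Set
      (Subgroup.centralizer (Q : Set G))))).map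
      (Subgroup.centralizer ({c₀} : Set (Subgroup.centralizer (Q : Set G)))).subtype).map
      (Subgroup.centralizer (Q : Set G)).subtype)
      (c := Subgroup.centralizer ({(c₀ : G)} : Set G)) (by
      intro q hq
      rw [Subgroup.mem_centralizer_iff]
      intro y hy
      rw [Set.mem_singleton_iff] at hy
      subst hy
      exact (Subgroup.mem_centralizer_iff.mp c₀.2 q hq).symm) (by
      rintro _ ⟨d, ⟨d', -, rfl⟩, rfl⟩
      rw [Subgroup.mem_centralizer_iff]
      intro y hy
      rw [Set.mem_singleton_iff] at hy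
      subst hy
      have h1 := Subgroup.mem_centralizer_iff.mp d'.2 c₀ (Set.mem_singleton c₀)
      exact congrArg Subtype.val h1)
  have hy : (c₀ : G) ∈ Subgroup.centralizer ((Q ⊔ ((S : Subgroup (Subgroup.centralizer
      ({c₀} : Set (Subgroup.centralizer (Q : Set G))))).map
      (Subgroup.centralizer ({c₀} : Set (Subgroup.centralizer (Q : Set G)))).subtype).map
      (Subgroup.centralizer (Q : Set G)).subtype : Subgroup G) : Set G) := by
    rw [Subgroup.mem_centralizer_iff]
    intro r hr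
    exact (Subgroup.mem_centralizer_iff.mp (hcent hr) (c₀ : G) (Set.mem_singleton _)).symm
  have hne : ¬ Cfsg.MemLocalIdeal M
      (ext0 (Subgroup.centralizer (Q : Set G)) (Cfsg.blockCoeff f) (c₀ : G)) := by
    rw [ext0_coe]
    exact hc₀.2.1
  obtain ⟨g₀, hns⟩ := exists_isNormalSubpair_of_not_memLocalIdeal hM hQf hR le_sup_left hRN
    (fun x hx => hRs hx) hy hne
  have hBR := isBrauerPairOf_of_isNormalSubpair hM hns hBQ
  obtain ⟨z, hz⟩ := Cfsg.Agent.S4660.result p M hM B P _ e g₀ hmax hBR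
  refine ⟨z, ?_, ?_⟩
  · have h1 := isNormalSubpair_conjBlockTo hMp z rfl rfl hns
    exact Relation.ReflTransGen.head
      (show Cfsg.NormalSubpairRel p M ⟨Q.map (MulAut.conj z).toMonoidHom, Cfsg.conjBlock Q z f⟩
        ⟨_, Cfsg.conjBlock _ z g₀⟩ from h1) hz
  · have hRP := subpairLE_le hz
    have h2 : (((S : Subgroup (Subgroup.centralizer ({c₀} : Set
        (Subgroup.centralizer (Q : Set G))))).map
        (Subgroup.centralizer ({c₀} : Set (Subgroup.centralizer (Q : Set G)))).subtype).map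
        (Subgroup.centralizer (Q : Set G)).subtype).map (MulAut.conj z).toMonoidHom ≤
        P ⊓ Subgroup.centralizer ((Q.map (MulAut.conj z).toMonoidHom : Subgroup G) : Set G) := by
      apply le_inf
      · exact (Subgroup.map_mono le_sup_right).trans hRP
      · rintro _ ⟨d, hd, rfl⟩
        exact (mem_centralizer_map_conj_iff z Q d).mp (hDC hd)
    have h3 := Subgroup.card_le_of_le h2
    rw [card_map_conj, Subgroup.card_map_of_injective (Subgroup.subtype_injective _)] at h3
    exact h3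

/-- **Improvement, normalizers.**  For `(Q, f)` below the maximal pair `(P, e)`, `T` the
stabilizer of `f` in `N_G(Q)` and a defect group `D ≥ Q` of the block of `T` with the
idempotent of `f`, some conjugate of `(Q, f)` below `(P, e)` has `|N_P(Q^z)| ≥ |D|`. -/
theorem exists_conj_card_normalizer_ge {p : ℕ} [Fact p.Prime] (hM : Cfsg.IsPModular p M)
    {B : Set (Cfsg.IrrCharacter G)} {P Q : Subgroup G}
    {e : Set (Cfsg.IrrCharacter (Subgroup.centralizer (P : Set G)))}
    {f : Set (Cfsg.IrrCharacter (Subgroup.centralizer (Q : Set G)))}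
    (hmax : Cfsg.IsMaximalBrauerPair p M B P e) (hle : Cfsg.SubpairLE p M Q f P e)
    (hf : Cfsg.IsPBlock M f) (T : Subgroup G)
    (hT : ∀ y : G, y ∈ T ↔ y ∈ Subgroup.normalizer (Q : Set G) ∧
      Cfsg.StabilizesBlock (Subgroup.centralizer (Q : Set G)) f y)
    (F : Set (Cfsg.IrrCharacter T))
    (hFe : ∀ t : T, Cfsg.blockCoeff F t =
      Cfsg.subgroupBlockCoeff (Subgroup.centralizer (Q : Set G)) f (t : G))
    (D : Subgroup T) (hD : Cfsg.IsDefectGroup p M F D) (hQD : Q.subgroupOf T ≤ D) :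
    ∃ z : G, Cfsg.SubpairLE p M (Q.map (MulAut.conj z).toMonoidHom) (Cfsg.conjBlock Q z f) P e ∧
      Nat.card D ≤ Nat.card (P ⊓ Subgroup.normalizer
        ((Q.map (MulAut.conj z).toMonoidHom : Subgroup G) : Set G) : Subgroup G) := by
  have hMp := isPrime_of_isPModular hM
  have hPe := hmax.1.1
  have hQP : Q ≤ P := subpairLE_le hle
  have hQ : IsPGroup p Q := hPe.1.to_le hQP
  have hQf : Cfsg.IsBrauerPair p M Q f := ⟨hQ, hf⟩
  have hBQ : Cfsg.IsBrauerPairOf p M B Q f := isBrauerPairOf_of_subpairLE_down hM hle hmax.1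
  have hQT : Q ≤ T := fun q hq =>
    (hT q).mpr ⟨Subgroup.le_normalizer hq, stabilizesBlock_of_mem_self Q f hq⟩
  have hTN : T ≤ Subgroup.normalizer (Q : Set G) := fun t ht => ((hT t).mp ht).1
  obtain ⟨c₀, hc₀, S, rfl⟩ := hD
  have hDp : IsPGroup p (((S : Subgroup (Subgroup.centralizer ({c₀} : Set T))).map
      (Subgroup.centralizer ({c₀} : Set T)).subtype).map T.subtype) := (S.isPGroup'.map _).map _
  have hDT : ((S : Subgroup (Subgroup.centralizer ({c₀} : Set T))).map
      (Subgroup.centralizer ({c₀} : Set T)).subtype).map T.subtype ≤ T := by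
    rintro _ ⟨d, -, rfl⟩
    exact d.2
  have hDN := hDT.trans hTN
  have hQDG : Q ≤ ((S : Subgroup (Subgroup.centralizer ({c₀} : Set T))).map
      (Subgroup.centralizer ({c₀} : Set T)).subtype).map T.subtype := by
    intro q hq
    exact ⟨⟨q, hQT hq⟩, hQD (by rw [Subgroup.mem_subgroupOf]; exact hq), rfl⟩
  have hstab : ∀ x ∈ ((S : Subgroup (Subgroup.centralizer ({c₀} : Set T))).map
      (Subgroup.centralizer ({c₀} : Set T)).subtype).map T.subtype,
      Cfsg.StabilizesBlock (Subgroup.centralizer (Q : Set G)) f x :=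
    fun x hx => ((hT x).mp (hDT hx)).2
  have hy : (c₀ : G) ∈ Subgroup.centralizer
      ((((S : Subgroup (Subgroup.centralizer ({c₀} : Set T))).map
      (Subgroup.centralizer ({c₀} : Set T)).subtype).map T.subtype : Subgroup G) : Set G) := by
    rw [Subgroup.mem_centralizer_iff]
    rintro _ ⟨d, ⟨d', -, rfl⟩, rfl⟩
    have h1 := Subgroup.mem_centralizer_iff.mp d'.2 c₀ (Set.mem_singleton c₀)
    exact (congrArg Subtype.val h1).symm
  have hne : ¬ Cfsg.MemLocalIdeal M
      (ext0 (Subgroup.centralizer (Q : Set G)) (Cfsg.blockCoeff f) (c₀ : G)) := by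
    have h1 := hFe c₀
    rw [subgroupBlockCoeff_eq_ext0] at h1
    rw [← h1]
    exact hc₀.2.1
  obtain ⟨g₀, hns⟩ := exists_isNormalSubpair_of_not_memLocalIdeal hM hQf hDp hQDG hDN
    hstab hy hne
  have hBR := isBrauerPairOf_of_isNormalSubpair hM hns hBQ
  obtain ⟨z, hz⟩ := Cfsg.Agent.S4660.result p M hM B P _ e g₀ hmax hBR
  refine ⟨z, ?_, ?_⟩
  · have h1 := isNormalSubpair_conjBlockTo hMp z rfl rfl hns
    exact Relation.ReflTransGen.head
      (show Cfsg.NormalSubpairRel p M ⟨Q.map (MulAut.conj z).toMonoidHom, Cfsg.conjBlock Q z f⟩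
        ⟨_, Cfsg.conjBlock _ z g₀⟩ from h1) hz
  · have hRP := subpairLE_le hz
    have h2 : (((S : Subgroup (Subgroup.centralizer ({c₀} : Set T))).map
        (Subgroup.centralizer ({c₀} : Set T)).subtype).map T.subtype).map
        (MulAut.conj z).toMonoidHom ≤
        P ⊓ Subgroup.normalizer ((Q.map (MulAut.conj z).toMonoidHom : Subgroup G) : Set G) := by
      apply le_inf hRP
      have h4 := Subgroup.map_equiv_normalizer_eq Q (MulAut.conj z)
      rw [← h4]
      exact Subgroup.map_mono hDN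
    have h3 := Subgroup.card_le_of_le h2
    rw [card_map_conj, Subgroup.card_map_of_injective (Subgroup.subtype_injective _)] at h3
    exact h3

/-- **Fully centralized conjugates.**  Some conjugate `(Q^x, f^x)` of a pair below the maximal
pair `(P, e)` again lies below `(P, e)` and has `C_P(Q^x)` as a defect group of `f^x`. -/
theorem exists_conj_isDefectGroup_centralizer {p : ℕ} [Fact p.Prime] (hM : Cfsg.IsPModular p M)
    {B : Set (Cfsg.IrrCharacter G)} {P Q : Subgroup G}
    {e : Set (Cfsg.IrrCharacter (Subgroup.centralizer (P : Set G)))}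
    {f : Set (Cfsg.IrrCharacter (Subgroup.centralizer (Q : Set G)))}
    (hmax : Cfsg.IsMaximalBrauerPair p M B P e) (hle : Cfsg.SubpairLE p M Q f P e)
    (hf : Cfsg.IsPBlock M f) :
    ∃ x : G, Cfsg.SubpairLE p M (Q.map (MulAut.conj x).toMonoidHom) (Cfsg.conjBlock Q x f) P e ∧
      Cfsg.IsDefectGroup p M (Cfsg.conjBlock Q x f)
        ((P ⊓ Subgroup.centralizer ((Q.map (MulAut.conj x).toMonoidHom) : Set G)).subgroupOf
          (Subgroup.centralizer ((Q.map (MulAut.conj x).toMonoidHom) : Set G))) := by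
  classical
  have hMp := isPrime_of_isPModular hM
  have h1 : (1 : G) ∈ Finset.univ.filter (fun x : G =>
      Cfsg.SubpairLE p M (Q.map (MulAut.conj x).toMonoidHom) (Cfsg.conjBlock Q x f) P e) := by
    rw [Finset.mem_filter]
    refine ⟨Finset.mem_univ _, ?_⟩
    unfold Cfsg.SubpairLE
    rw [sigma_conjBlock_one]
    exact hle
  obtain ⟨x, hxS, hxmax⟩ := Finset.exists_max_image _
    (fun x : G => Nat.card (P ⊓ Subgroup.centralizer
      ((Q.map (MulAut.conj x).toMonoidHom : Subgroup G) : Set G) : Subgroup G)) ⟨1, h1⟩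
  have hx : Cfsg.SubpairLE p M (Q.map (MulAut.conj x).toMonoidHom) (Cfsg.conjBlock Q x f) P e :=
    (Finset.mem_filter.mp hxS).2
  refine ⟨x, hx, ?_⟩
  have hQ₁P : Q.map (MulAut.conj x).toMonoidHom ≤ P := subpairLE_le hx
  have hf₁ : Cfsg.IsPBlock M (Cfsg.conjBlock Q x f) := by
    rw [conjBlock_eq, conjBlockTo_eq_mapSet x Q _ rfl]
    exact isPBlock_mapSet hMp _ hf
  obtain ⟨D, hD, hWD⟩ := exists_isDefectGroup_centralizer_ge hM hmax hQ₁P hx hf₁
  obtain ⟨z, hz, hcard⟩ := exists_conj_card_centralizer_ge hM hmax hx hf₁ D hD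
  have hzx : z * x ∈ Finset.univ.filter (fun x : G =>
      Cfsg.SubpairLE p M (Q.map (MulAut.conj x).toMonoidHom) (Cfsg.conjBlock Q x f) P e) := by
    rw [Finset.mem_filter]
    refine ⟨Finset.mem_univ _, ?_⟩
    unfold Cfsg.SubpairLE at hz ⊢
    rw [sigma_conjBlock_conjBlock] at hz
    exact hz
  have h2 := hxmax (z * x) hzx
  simp only [← map_conj_map_conj] at h2
  have h3 : Nat.card ((P ⊓ Subgroup.centralizer
      ((Q.map (MulAut.conj x).toMonoidHom : Subgroup G) : Set G)).subgroupOf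
      (Subgroup.centralizer ((Q.map (MulAut.conj x).toMonoidHom : Subgroup G) : Set G))) =
      Nat.card (P ⊓ Subgroup.centralizer
        ((Q.map (MulAut.conj x).toMonoidHom : Subgroup G) : Set G) : Subgroup G) :=
    Nat.card_congr (Subgroup.subgroupOfEquivOfLe inf_le_right).toEquiv
  have h4 := Subgroup.eq_of_le_of_card_ge hWD (by rw [h3]; exact hcard.trans h2)
  rw [h4]
  exact hD

/-- **Fully normalized conjugates.**  Some conjugate `(Q^x, f^x)` of a pair below the maximal
pair `(P, e)` again lies below `(P, e)` and has `N_P(Q^x)` as a defect group of the block of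
the stabilizer of `f^x` whose idempotent is that of `f^x`. -/
theorem exists_conj_isDefectGroup_normalizer {p : ℕ} [Fact p.Prime] (hM : Cfsg.IsPModular p M)
    {B : Set (Cfsg.IrrCharacter G)} {P Q : Subgroup G}
    {e : Set (Cfsg.IrrCharacter (Subgroup.centralizer (P : Set G)))}
    {f : Set (Cfsg.IrrCharacter (Subgroup.centralizer (Q : Set G)))}
    (hmax : Cfsg.IsMaximalBrauerPair p M B P e) (hle : Cfsg.SubpairLE p M Q f P e)
    (hf : Cfsg.IsPBlock M f) :
    ∃ x : G, Cfsg.SubpairLE p M (Q.map (MulAut.conj x).toMonoidHom) (Cfsg.conjBlock Q x f) P e ∧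
      ∀ (T' : Subgroup G), (∀ y : G, y ∈ T' ↔
        y ∈ Subgroup.normalizer ((Q.map (MulAut.conj x).toMonoidHom) : Set G) ∧
        Cfsg.StabilizesBlock (Subgroup.centralizer ((Q.map (MulAut.conj x).toMonoidHom) : Set G))
          (Cfsg.conjBlock Q x f) y) →
      ∃ F' : Set (Cfsg.IrrCharacter T'), Cfsg.IsPBlock M F' ∧
        (∀ t : T', Cfsg.blockCoeff F' t = Cfsg.subgroupBlockCoeff
          (Subgroup.centralizer ((Q.map (MulAut.conj x).toMonoidHom) : Set G))
          (Cfsg.conjBlock Q x f) (t : G)) ∧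
        Cfsg.IsDefectGroup p M F'
          ((P ⊓ Subgroup.normalizer ((Q.map (MulAut.conj x).toMonoidHom) : Set G)).subgroupOf
            T') := by
  classical
  have hMp := isPrime_of_isPModular hM
  have h1 : (1 : G) ∈ Finset.univ.filter (fun x : G =>
      Cfsg.SubpairLE p M (Q.map (MulAut.conj x).toMonoidHom) (Cfsg.conjBlock Q x f) P e) := by
    rw [Finset.mem_filter]
    refine ⟨Finset.mem_univ _, ?_⟩
    unfold Cfsg.SubpairLE
    rw [sigma_conjBlock_one]
    exact hle
  obtain ⟨x, hxS, hxmax⟩ := Finset.exists_max_image _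
    (fun x : G => Nat.card (P ⊓ Subgroup.normalizer
      ((Q.map (MulAut.conj x).toMonoidHom : Subgroup G) : Set G) : Subgroup G)) ⟨1, h1⟩
  have hx : Cfsg.SubpairLE p M (Q.map (MulAut.conj x).toMonoidHom) (Cfsg.conjBlock Q x f) P e :=
    (Finset.mem_filter.mp hxS).2
  refine ⟨x, hx, fun T' hT' => ?_⟩
  have hQ₁P : Q.map (MulAut.conj x).toMonoidHom ≤ P := subpairLE_le hx
  have hf₁ : Cfsg.IsPBlock M (Cfsg.conjBlock Q x f) := by
    rw [conjBlock_eq, conjBlockTo_eq_mapSet x Q _ rfl]
    exact isPBlock_mapSet hMp _ hf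
  obtain ⟨hRT, F', hF', hF'e, D, hD, hWD⟩ :=
    exists_block_isDefectGroup_normalizer_ge hM hmax hQ₁P hx hf₁ T' hT'
  have hQD : (Q.map (MulAut.conj x).toMonoidHom).subgroupOf T' ≤ D := by
    refine le_trans ?_ hWD
    intro t ht
    rw [Subgroup.mem_subgroupOf] at ht ⊢
    exact ⟨hQ₁P ht, Subgroup.le_normalizer ht⟩
  obtain ⟨z, hz, hcard⟩ := exists_conj_card_normalizer_ge hM hmax hx hf₁ T' hT' F' hF'e D hD hQD
  have hzx : z * x ∈ Finset.univ.filter (fun x : G =>
      Cfsg.SubpairLE p M (Q.map (MulAut.conj x).toMonoidHom) (Cfsg.conjBlock Q x f) P e) := by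
    rw [Finset.mem_filter]
    refine ⟨Finset.mem_univ _, ?_⟩
    unfold Cfsg.SubpairLE at hz ⊢
    rw [sigma_conjBlock_conjBlock] at hz
    exact hz
  have h2 := hxmax (z * x) hzx
  simp only [← map_conj_map_conj] at h2
  have h3 : Nat.card ((P ⊓ Subgroup.normalizer
      ((Q.map (MulAut.conj x).toMonoidHom : Subgroup G) : Set G)).subgroupOf T') =
      Nat.card (P ⊓ Subgroup.normalizer
        ((Q.map (MulAut.conj x).toMonoidHom : Subgroup G) : Set G) : Subgroup G) :=
    Nat.card_congr (Subgroup.subgroupOfEquivOfLe hRT).toEquiv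
  have h4 := Subgroup.eq_of_le_of_card_ge hWD (by rw [h3]; exact hcard.trans h2)
  refine ⟨F', hF', hF'e, ?_⟩
  rw [h4]
  exact hD

end Local

end Cfsg.Agent.Lib.Helper77
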