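import Mathlib
import Cfsg.Prelude.Def_Blocks
import Cfsg.Prelude.Def_BlockLocal
import Cfsg.Prelude.Def_BrauerPairs
import Cfsg.Prelude.Def_BlockFusion
import Cfsg.Agent.Lib.Helper77.LocalPairs

/-!
# The fusion system of a block: fully centralized and centric subgroups

Transport of defect groups along group isomorphisms; conjugacy in the fusion system of a
block on a maximal Brauer pair; fully centralized and centric subgroups in terms of defect
groups of the blocks of the centralizers.
-/

set_option autoImplicit false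
set_option linter.unusedSectionVars false

namespace Cfsg.Agent.Lib.Helper77

open Cfsg Cfsg.Agent.Lib.Helper16 Cfsg.Agent.Lib.Helper81

section Transport

variable {H H' : Type*} [Group H] [Group H'] [Fintype H] [Fintype H'] {M : Ideal Cfsg.AlgInt}

theorem card_centralizer_map (α : H ≃* H') (h : H) :
    Nat.card (Subgroup.centralizer ({α h} : Set H')) =
      Nat.card (Subgroup.centralizer ({h} : Set H)) := by
  have h1 := Subgroup.card_mul_index (Subgroup.centralizer ({α h} : Set H'))
  have h2 := Subgroup.card_mul_index (Subgroup.centralizer ({h} : Set H))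
  rw [index_centralizer_map, Nat.card_congr α.toEquiv.symm] at h1
  have hpos : 0 < (Subgroup.centralizer ({h} : Set H)).index :=
    Nat.pos_of_ne_zero Subgroup.index_ne_zero_of_finite
  exact Nat.eq_of_mul_eq_mul_right hpos (h1.trans h2.symm)

/-- defect groups are transported by group isomorphisms -/
theorem isDefectGroup_mapSet {p : ℕ} [Fact p.Prime] (α : H ≃* H')
    {A : Set (Cfsg.IrrCharacter H)} {D : Subgroup H} (hD : Cfsg.IsDefectGroup p M A D) :
    Cfsg.IsDefectGroup p M (mapSet α A) (D.map α.toMonoidHom) := by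
  obtain ⟨g, ⟨hg1, hg2, hg3⟩, S, rfl⟩ := hD
  have hcls : Cfsg.IsDefectClass M (mapSet α A) (α g) := by
    refine ⟨?_, ?_, ?_⟩
    · rw [blockCoeff_mapSet]; exact hg1
    · rw [blockCoeff_mapSet]; exact hg2
    · rintro χ' ⟨χ, hχ, rfl⟩
      rw [centralChar_mapIrr]
      exact hg3 χ hχ
  refine ⟨α g, hcls, ?_⟩
  have hDp : IsPGroup p (((S : Subgroup (Subgroup.centralizer ({g} : Set H))).map
      (Subgroup.centralizer ({g} : Set H)).subtype).map α.toMonoidHom) :=
    (S.isPGroup'.map _).map _
  obtain ⟨S', hS'⟩ := exists_sylow_centralizer_ge p _ hDp (α g) (by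
    rintro _ ⟨_, ⟨r, -, rfl⟩, rfl⟩
    have hr := Subgroup.mem_centralizer_iff.mp r.2 g (Set.mem_singleton g)
    show α (r : H) * α g = α g * α (r : H)
    rw [← map_mul, ← map_mul, hr])
  refine ⟨S', Subgroup.eq_of_le_of_card_ge hS' ?_⟩
  have e1 : Nat.card (((S : Subgroup (Subgroup.centralizer ({g} : Set H))).map
      (Subgroup.centralizer ({g} : Set H)).subtype).map α.toMonoidHom) = Nat.card S := by
    rw [Subgroup.card_map_of_injective α.injective,
      Subgroup.card_map_of_injective (Subgroup.subtype_injective _)]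
  have e2 : Nat.card ((S' : Subgroup (Subgroup.centralizer ({α g} : Set H'))).map
      (Subgroup.centralizer ({α g} : Set H')).subtype) = Nat.card S' :=
    Subgroup.card_map_of_injective (Subgroup.subtype_injective _)
  rw [e1, e2, S.card_eq_multiplicity, S'.card_eq_multiplicity, card_centralizer_map]

omit [Fintype H] [Fintype H'] in
theorem map_symm_map (α : H ≃* H') (D : Subgroup H) :
    (D.map α.toMonoidHom).map α.symm.toMonoidHom = D := by
  ext y
  constructor
  · rintro ⟨_, ⟨d, hd, rfl⟩, rfl⟩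
    simpa using hd
  · intro hy
    exact ⟨α y, ⟨y, hy, rfl⟩, by simp⟩

/-- two defect groups of a block have the same order -/
theorem card_eq_of_isDefectGroup {p : ℕ} [Fact p.Prime] (hM : Cfsg.IsPModular p M)
    {A : Set (Cfsg.IrrCharacter H)} (hA : Cfsg.IsPBlock M A) {D₁ D₂ : Subgroup H}
    (h₁ : Cfsg.IsDefectGroup p M A D₁) (h₂ : Cfsg.IsDefectGroup p M A D₂) :
    Nat.card D₁ = Nat.card D₂ := by
  obtain ⟨x, rfl⟩ := isDefectGroup_conj hM A hA h₁ h₂
  rw [card_map_conj]

end Transport

section Fusion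

variable {G : Type*} [Group G] [Fintype G] {M : Ideal Cfsg.AlgInt}

/-- conjugacy in the fusion system of a block: the conjugates of `Q` are the subgroups `Q^g`
with `(Q^g, f^g)` below the maximal pair -/
theorem blockFusion_isConj_iff {p : ℕ} [Fact p.Prime] (hM : Cfsg.IsPModular p M)
    {B : Set (Cfsg.IrrCharacter G)} {P : Subgroup G}
    {e : Set (Cfsg.IrrCharacter (Subgroup.centralizer (P : Set G)))} {F : Cfsg.FusionSystem P}
    (hF : Cfsg.IsBlockFusionSystemOn p M B P e F) {Q : Subgroup G}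
    {f : Set (Cfsg.IrrCharacter (Subgroup.centralizer (Q : Set G)))} (hQP : Q ≤ P)
    (hle : Cfsg.SubpairLE p M Q f P e) (Q' : Subgroup G) :
    F.IsConj Q Q' ↔ ∃ g : G, Q' = Q.map (MulAut.conj g).toMonoidHom ∧
      Cfsg.SubpairLE p M (Q.map (MulAut.conj g).toMonoidHom) (Cfsg.conjBlock Q g f) P e := by
  have hPe := hF.1.1.1
  constructor
  · rintro ⟨φ, hφ, rfl⟩
    obtain ⟨-, g, hg, -, f', hle', hle''⟩ := (hF.2 Q φ).mp hφ
    have hff := subpairLE_unique hM _ P e le_rfl hPe Q f' f hle' hle
    subst hff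
    refine ⟨g, ?_, hle''⟩
    ext y
    constructor
    · rintro ⟨u, rfl⟩
      exact ⟨u, u.2, (hg u).symm⟩
    · rintro ⟨q, hq, rfl⟩
      exact ⟨⟨q, hq⟩, hg ⟨q, hq⟩⟩
  · rintro ⟨g, rfl, hleg⟩
    refine ⟨Cfsg.conjHom Q g, (hF.2 Q _).mpr ⟨hQP, g, fun u => rfl, subpairLE_le hleg, f, hle,
      hleg⟩, ?_⟩
    ext y
    constructor
    · rintro ⟨u, rfl⟩
      exact ⟨u, u.2, rfl⟩
    · rintro ⟨q, hq, rfl⟩
      exact ⟨⟨q, hq⟩, rfl⟩

theorem isPBlock_conjBlock (hM : M.IsPrime) (Q : Subgroup G) (x : G)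
    {f : Set (Cfsg.IrrCharacter (Subgroup.centralizer (Q : Set G)))} (hf : Cfsg.IsPBlock M f) :
    Cfsg.IsPBlock M (Cfsg.conjBlock Q x f) := by
  rw [conjBlock_eq, conjBlockTo_eq_mapSet x Q _ rfl]
  exact isPBlock_mapSet hM _ hf

/-- the order of the defect groups of a conjugate block -/
theorem card_isDefectGroup_conjBlock {p : ℕ} [Fact p.Prime] (hM : Cfsg.IsPModular p M)
    (Q : Subgroup G) (x : G)
    {f : Set (Cfsg.IrrCharacter (Subgroup.centralizer (Q : Set G)))} (hf : Cfsg.IsPBlock M f)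
    {D : Subgroup (Subgroup.centralizer (Q : Set G))} (hD : Cfsg.IsDefectGroup p M f D)
    {D' : Subgroup (Subgroup.centralizer
      ((Q.map (MulAut.conj x).toMonoidHom : Subgroup G) : Set G))}
    (hD' : Cfsg.IsDefectGroup p M (Cfsg.conjBlock Q x f) D') : Nat.card D' = Nat.card D := by
  have hMp := isPrime_of_isPModular hM
  have hfin1 : Fintype (Subgroup.centralizer (Q : Set G)) := Fintype.ofFinite _
  have hfin2 : Fintype (Subgroup.centralizer
      ((Q.map (MulAut.conj x).toMonoidHom : Subgroup G) : Set G)) := Fintype.ofFinite _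
  have h1 := isDefectGroup_mapSet (M := M) (centIso x Q _ rfl) hD
  rw [← conjBlockTo_eq_mapSet x Q _ rfl, ← conjBlock_eq] at h1
  rw [card_eq_of_isDefectGroup hM (isPBlock_conjBlock hMp Q x hf) hD' h1,
    Subgroup.card_map_of_injective (MulEquiv.injective _)]

/-- **Fully centralized subgroups.**  `Q` is fully centralized in the fusion system of the
block if and only if `C_P(Q)` is a defect group of the block `f` of `C_G(Q)`. -/
theorem isFullyCentralized_iff {p : ℕ} [Fact p.Prime] (hM : Cfsg.IsPModular p M)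
    {B : Set (Cfsg.IrrCharacter G)} {P : Subgroup G}
    {e : Set (Cfsg.IrrCharacter (Subgroup.centralizer (P : Set G)))} {F : Cfsg.FusionSystem P}
    (hF : Cfsg.IsBlockFusionSystemOn p M B P e F) {Q : Subgroup G}
    {f : Set (Cfsg.IrrCharacter (Subgroup.centralizer (Q : Set G)))} (hQP : Q ≤ P)
    (hf : Cfsg.IsPBlock M f) (hle : Cfsg.SubpairLE p M Q f P e) :
    F.IsFullyCentralized Q ↔ Cfsg.IsDefectGroup p M f
      ((P ⊓ Subgroup.centralizer (Q : Set G)).subgroupOf (Subgroup.centralizer (Q : Set G))) := by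
  have hMp := isPrime_of_isPModular hM
  have hmax := hF.1
  have hcard : ∀ Q' : Subgroup G, Nat.card ((P ⊓ Subgroup.centralizer (Q' : Set G)).subgroupOf
      (Subgroup.centralizer (Q' : Set G))) =
      Nat.card (P ⊓ Subgroup.centralizer (Q' : Set G) : Subgroup G) :=
    fun Q' => Nat.card_congr (Subgroup.subgroupOfEquivOfLe inf_le_right).toEquiv
  constructor
  · rintro ⟨-, hfc⟩
    obtain ⟨x, hx, hDx⟩ := exists_conj_isDefectGroup_centralizer hM hmax hle hf
    obtain ⟨D, hD, hWD⟩ := exists_isDefectGroup_centralizer_ge hM hmax hQP hle hf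
    have h1 := card_isDefectGroup_conjBlock hM Q x hf hD hDx
    have h2 := hfc _ ((blockFusion_isConj_iff hM hF hQP hle _).mpr ⟨x, rfl, hx⟩)
    have h3 := Subgroup.eq_of_le_of_card_ge hWD (by
      rw [hcard Q, ← h1, hcard]
      exact h2)
    rw [h3]
    exact hD
  · intro hD
    refine ⟨hQP, fun Q' hQ' => ?_⟩
    obtain ⟨g, rfl, hleg⟩ := (blockFusion_isConj_iff hM hF hQP hle Q').mp hQ'
    obtain ⟨D', hD', hWD'⟩ := exists_isDefectGroup_centralizer_ge hM hmax (subpairLE_le hleg)
      hleg (isPBlock_conjBlock hMp Q g hf)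
    have h1 := card_isDefectGroup_conjBlock hM Q g hf hD hD'
    have h2 := Subgroup.card_le_of_le hWD'
    rw [hcard, h1, hcard] at h2
    exact h2

/-- conjugation carries `Z(Q)` to `Z(Q^x)` -/
theorem map_centIso_center (x : G) (Q : Subgroup G) :
    ((Q ⊓ Subgroup.centralizer (Q : Set G)).subgroupOf (Subgroup.centralizer (Q : Set G))).map
        (centIso x Q (Q.map (MulAut.conj x).toMonoidHom) rfl).toMonoidHom =
      (Q.map (MulAut.conj x).toMonoidHom ⊓ Subgroup.centralizer
        ((Q.map (MulAut.conj x).toMonoidHom : Subgroup G) : Set G)).subgroupOf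
        (Subgroup.centralizer ((Q.map (MulAut.conj x).toMonoidHom : Subgroup G) : Set G)) := by
  ext c'
  rw [Subgroup.mem_subgroupOf]
  constructor
  · rintro ⟨c, hc, rfl⟩
    have hc' : (c : G) ∈ Q ⊓ Subgroup.centralizer (Q : Set G) := hc
    exact ⟨⟨(c : G), hc'.1, rfl⟩, (centIso x Q _ rfl c).2⟩
  · rintro ⟨⟨q, hq, hqc⟩, -⟩
    have hq' : q ∈ Subgroup.centralizer (Q : Set G) := by
      have h1 : x * q * x⁻¹ ∈ Subgroup.centralizer
          ((Q.map (MulAut.conj x).toMonoidHom : Subgroup G) : Set G) := by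
        have h2 : x * q * x⁻¹ = (c' : G) := hqc
        rw [h2]
        exact c'.2
      exact (mem_centralizer_map_conj_iff x Q q).mpr h1
    refine ⟨⟨q, hq'⟩, ?_, ?_⟩
    · show (⟨q, hq'⟩ : Subgroup.centralizer (Q : Set G)) ∈
        (Q ⊓ Subgroup.centralizer (Q : Set G)).subgroupOf (Subgroup.centralizer (Q : Set G))
      rw [Subgroup.mem_subgroupOf]
      exact ⟨hq, hq'⟩
    · apply Subtype.ext
      exact hqc

/-- **Centric subgroups.**  `Q` is centric in the fusion system of the block if and only if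
`Z(Q)` is a defect group of the block `f` of `C_G(Q)`. -/
theorem isCentric_iff {p : ℕ} [Fact p.Prime] (hM : Cfsg.IsPModular p M)
    {B : Set (Cfsg.IrrCharacter G)} {P : Subgroup G}
    {e : Set (Cfsg.IrrCharacter (Subgroup.centralizer (P : Set G)))} {F : Cfsg.FusionSystem P}
    (hF : Cfsg.IsBlockFusionSystemOn p M B P e F) {Q : Subgroup G}
    {f : Set (Cfsg.IrrCharacter (Subgroup.centralizer (Q : Set G)))} (hQP : Q ≤ P)
    (hf : Cfsg.IsPBlock M f) (hle : Cfsg.SubpairLE p M Q f P e) :
    F.IsCentric Q ↔ Cfsg.IsDefectGroup p M f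
      ((Q ⊓ Subgroup.centralizer (Q : Set G)).subgroupOf (Subgroup.centralizer (Q : Set G))) := by
  have hMp := isPrime_of_isPModular hM
  have hmax := hF.1
  have hfin1 : Fintype (Subgroup.centralizer (Q : Set G)) := Fintype.ofFinite _
  constructor
  · rintro ⟨-, hc⟩
    obtain ⟨x, hx, hDx⟩ := exists_conj_isDefectGroup_centralizer hM hmax hle hf
    have hfin2 : Fintype (Subgroup.centralizer
        ((Q.map (MulAut.conj x).toMonoidHom : Subgroup G) : Set G)) := Fintype.ofFinite _
    have h2 := hc _ ((blockFusion_isConj_iff hM hF hQP hle _).mpr ⟨x, rfl, hx⟩)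
    have hQxP : Q.map (MulAut.conj x).toMonoidHom ≤ P := subpairLE_le hx
    have h3 : (P ⊓ Subgroup.centralizer ((Q.map (MulAut.conj x).toMonoidHom : Subgroup G) :
        Set G)).subgroupOf (Subgroup.centralizer
          ((Q.map (MulAut.conj x).toMonoidHom : Subgroup G) : Set G)) =
        (Q.map (MulAut.conj x).toMonoidHom ⊓ Subgroup.centralizer
          ((Q.map (MulAut.conj x).toMonoidHom : Subgroup G) : Set G)).subgroupOf
          (Subgroup.centralizer ((Q.map (MulAut.conj x).toMonoidHom : Subgroup G) : Set G)) := by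
      ext c
      rw [Subgroup.mem_subgroupOf, Subgroup.mem_subgroupOf]
      constructor
      · intro h
        exact ⟨h2 h, h.2⟩
      · intro h
        exact ⟨hQxP h.1, h.2⟩
    rw [h3, ← map_centIso_center x Q, conjBlock_eq, conjBlockTo_eq_mapSet x Q _ rfl] at hDx
    have h4 := isDefectGroup_mapSet (M := M) (centIso x Q _ rfl).symm hDx
    rw [mapSet_symm_mapSet, map_symm_map] at h4
    exact h4
  · intro hD
    refine ⟨hQP, fun Q' hQ' => ?_⟩
    obtain ⟨g, rfl, hleg⟩ := (blockFusion_isConj_iff hM hF hQP hle Q').mp hQ'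
    have hfin2 : Fintype (Subgroup.centralizer
        ((Q.map (MulAut.conj g).toMonoidHom : Subgroup G) : Set G)) := Fintype.ofFinite _
    have hQgP : Q.map (MulAut.conj g).toMonoidHom ≤ P := subpairLE_le hleg
    obtain ⟨D', hD', hWD'⟩ := exists_isDefectGroup_centralizer_ge hM hmax hQgP
      hleg (isPBlock_conjBlock hMp Q g hf)
    have h1 := isDefectGroup_mapSet (M := M) (centIso g Q _ rfl) hD
    rw [map_centIso_center g Q, ← conjBlockTo_eq_mapSet g Q _ rfl, ← conjBlock_eq] at h1
    have h2 := card_eq_of_isDefectGroup hM (isPBlock_conjBlock hMp Q g hf) hD' h1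
    have hZW : (Q.map (MulAut.conj g).toMonoidHom ⊓ Subgroup.centralizer
        ((Q.map (MulAut.conj g).toMonoidHom : Subgroup G) : Set G)).subgroupOf
        (Subgroup.centralizer ((Q.map (MulAut.conj g).toMonoidHom : Subgroup G) : Set G)) ≤ D' := by
      refine le_trans ?_ hWD'
      intro c hc
      rw [Subgroup.mem_subgroupOf] at hc ⊢
      exact ⟨hQgP hc.1, hc.2⟩
    have h3 := Subgroup.eq_of_le_of_card_ge hZW h2.le
    intro y hy
    have hy' : y ∈ P ⊓ Subgroup.centralizer
        ((Q.map (MulAut.conj g).toMonoidHom : Subgroup G) : Set G) := hy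
    have h4 : (⟨y, hy'.2⟩ : Subgroup.centralizer
        ((Q.map (MulAut.conj g).toMonoidHom : Subgroup G) : Set G)) ∈ D' :=
      hWD' (by rw [Subgroup.mem_subgroupOf]; exact hy')
    rw [← h3, Subgroup.mem_subgroupOf] at h4
    exact h4.1

end Fusion

end Cfsg.Agent.Lib.Helper77
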