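import Mathlib
import Cfsg.Prelude.Def_Blocks
import Cfsg.Prelude.Def_BlockLocal
import Cfsg.Prelude.Def_BrauerPairs
import Cfsg.Agent.Lib.Helper77.IdemSet
import Cfsg.Agent.Lib.Helper77.Osima
import Cfsg.Agent.Lib.Helper77.FusionPairs
import Cfsg.Agent.Lib.Helper16.Cover

/-!
# Stable blocks of a normal subgroup of `p`-power index

Let `N` be a normal subgroup of `G` of `p`-power index and `c` a `G`-stable block of `N`.
Then the idempotent of `c` is the idempotent of a block `B` of `G`, and for a defect group `P`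
of `B` one has `G = N P` and `P ∩ N` is a defect group of `c`.
-/

set_option autoImplicit false
set_option linter.unusedSectionVars false

namespace Cfsg.Agent.Lib.Helper77

open Cfsg Cfsg.Agent.Lib.Helper16 Cfsg.Agent.Lib.Helper81

open scoped Pointwise

section Quot

variable {G : Type*} [Group G] [Fintype G]

/-- summing a right `H`-invariant function over the group -/
theorem sum_eq_card_mul_finsum_quotient (H : Subgroup G) (ψ : G → ℂ)
    (hψ : ∀ x : G, ∀ h ∈ H, ψ (x * h) = ψ x) :
    ∑ x : G, ψ x = (Nat.card H : ℂ) * ∑ᶠ q : G ⧸ H, ψ (Quotient.out q) := by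
  classical
  have hfin : Fintype (G ⧸ H) := Fintype.ofFinite _
  rw [finsum_eq_sum_of_fintype]
  have h1 : ∀ x : G, ψ x = ψ (Quotient.out (QuotientGroup.mk x : G ⧸ H)) := by
    intro x
    obtain ⟨h, hh⟩ := QuotientGroup.mk_out_eq_mul H x
    rw [hh, hψ x h h.2]
  rw [Finset.sum_congr rfl (fun x _ => h1 x),
    ← Finset.sum_fiberwise' Finset.univ (fun x : G => (QuotientGroup.mk x : G ⧸ H))
      (fun q => ψ (Quotient.out q)), Finset.mul_sum]
  refine Finset.sum_congr rfl fun q _ => ?_
  rw [Finset.sum_const, nsmul_eq_mul]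
  congr 1
  have h2 := QuotientGroup.card_preimage_mk H ({q} : Set (G ⧸ H))
  have h3 : Nat.card ({q} : Set (G ⧸ H)) = 1 := by simp
  rw [h3, mul_one] at h2
  rw [← h2, Nat.card_eq_fintype_card, Fintype.card_subtype]
  congr 2
  ext x
  simp

end Quot

section Card

variable {G : Type*} [Group G] [Finite G]

/-- `|K| · [L : K] = |L|` for `K ≤ L` -/
theorem card_mul_relIndex_of_le {K L : Subgroup G} (h : K ≤ L) :
    Nat.card K * K.relIndex L = Nat.card L := by
  have := Subgroup.relIndex_mul_relIndex (⊥ : Subgroup G) K L bot_le h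
  rwa [Subgroup.relIndex_bot_left, Subgroup.relIndex_bot_left] at this

/-- `|N ∩ C| · [C : N ∩ C] = |C|` -/
theorem card_inf_mul_relIndex (N C : Subgroup G) :
    Nat.card (N ⊓ C : Subgroup G) * N.relIndex C = Nat.card C := by
  have := card_mul_relIndex_of_le (inf_le_right : N ⊓ C ≤ C)
  rwa [Subgroup.inf_relIndex_right] at this

/-- `|N C| = |N| · [C : N ∩ C]` for `N` normal -/
theorem card_sup_eq_of_normal (N C : Subgroup G) [N.Normal] :
    Nat.card (N ⊔ C : Subgroup G) = Nat.card N * N.relIndex C := by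
  have := card_mul_relIndex_of_le (le_sup_left : N ≤ N ⊔ C)
  rw [Subgroup.relIndex_sup_left] at this
  exact this.symm

/-- the centralizer in a subgroup `N` of an element of `N`, counted in `G` -/
theorem card_centralizer_subgroup (N : Subgroup G) (g : N) :
    Nat.card (Subgroup.centralizer ({g} : Set N)) =
      Nat.card (N ⊓ Subgroup.centralizer ({(g : G)} : Set G) : Subgroup G) := by
  have e : Subgroup.centralizer ({g} : Set N) =
      (N ⊓ Subgroup.centralizer ({(g : G)} : Set G)).subgroupOf N := by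
    ext x
    rw [Subgroup.mem_subgroupOf, Subgroup.mem_inf, Subgroup.mem_centralizer_iff,
      Subgroup.mem_centralizer_iff]
    constructor
    · intro h
      refine ⟨x.2, ?_⟩
      intro y hy
      rw [Set.mem_singleton_iff] at hy
      subst hy
      exact congrArg Subtype.val (h g rfl)
    · rintro ⟨-, h⟩ y hy
      rw [Set.mem_singleton_iff] at hy
      subst hy
      exact Subtype.ext (h _ rfl)
  rw [e]
  exact Nat.card_congr (Subgroup.subgroupOfEquivOfLe inf_le_left).toEquiv

end Card

section Key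

variable {G : Type*} [Group G] [Fintype G] {M : Ideal Cfsg.AlgInt} {p : ℕ} [Fact p.Prime]

omit [Fintype G] in
/-- an element outside a normal subgroup of `p`-power index is `p`-singular -/
theorem dvd_orderOf_of_not_mem (N : Subgroup G) [N.Normal] (hN : ∃ k : ℕ, N.index = p ^ k)
    {g : G} (hg : g ∉ N) : p ∣ orderOf g := by
  obtain ⟨k, hk⟩ := hN
  have h1 : orderOf (QuotientGroup.mk g : G ⧸ N) ∣ orderOf g :=
    orderOf_map_dvd (QuotientGroup.mk' N) g
  have h2 : orderOf (QuotientGroup.mk g : G ⧸ N) ∣ p ^ k := by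
    rw [← hk]
    exact orderOf_dvd_natCard _
  have h3 : orderOf (QuotientGroup.mk g : G ⧸ N) ≠ 1 := by
    rw [Ne, orderOf_eq_one_iff, QuotientGroup.eq_one_iff]
    exact hg
  obtain ⟨j, -, hj⟩ := (Nat.dvd_prime_pow (Fact.out : p.Prime)).mp h2
  rw [hj] at h1 h3
  have hj0 : j ≠ 0 := by
    rintro rfl
    exact h3 (pow_zero p)
  exact (dvd_pow_self p hj0).trans h1

/-- **Stable blocks under `p`-power index.**  A `G`-stable block of a normal subgroup of
`p`-power index has the idempotent of a block of `G`. -/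
theorem exists_block_eq_subgroupBlockCoeff (hM : Cfsg.IsPModular p M) (N : Subgroup G)
    [N.Normal] (hN : ∃ k : ℕ, N.index = p ^ k) (c : Set (Cfsg.IrrCharacter N))
    (hc : Cfsg.IsPBlock M c) (hst : ∀ x : G, Cfsg.StabilizesBlock N c x) :
    ∃ B : Set (Cfsg.IrrCharacter G), Cfsg.IsPBlock M B ∧
      ∀ g : G, Cfsg.blockCoeff B g = Cfsg.subgroupBlockCoeff N c g := by
  classical
  have hMp : M.IsPrime := hM.2.1.isPrime
  have hfinT : Fintype (⊤ : Subgroup G) := Fintype.ofFinite _
  obtain ⟨F, hF, hFc⟩ := exists_block_eq_ext0 hMp (⊤ : Subgroup G) N le_top c hc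
    (fun t _ => hst t) (by
      intro F hF t ht
      apply blockCoeff_eq_zero_of_singular hM F hF
      rw [← Subgroup.orderOf_coe]
      exact dvd_orderOf_of_not_mem N hN ht)
  refine ⟨mapSet Subgroup.topEquiv F, isPBlock_mapSet hMp _ hF, fun g => ?_⟩
  rw [blockCoeff_mapSet', hFc, subgroupBlockCoeff_eq_ext0]
  rfl

/-- conjugate characters of a stable block have congruent central characters -/
theorem memLocalIdeal_centralChar_conjNormal_sub (hM : M.IsPrime) (N : Subgroup G) [N.Normal]
    (c : Set (Cfsg.IrrCharacter N)) (hc : Cfsg.IsPBlock M c)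
    (hst : ∀ x : G, Cfsg.StabilizesBlock N c x) {θ : Cfsg.IrrCharacter N} (hθ : θ ∈ c)
    (x : G) (g : N) :
    Cfsg.MemLocalIdeal M (Cfsg.centralChar (θ : N → ℂ) (MulAut.conjNormal x g) -
      Cfsg.centralChar (θ : N → ℂ) g) := by
  obtain ⟨θ', hθ', hconj⟩ := (hst x⁻¹).2 θ hθ
  have h1 : ∀ m : N, (θ' : N → ℂ) m = (θ : N → ℂ) (MulAut.conjNormal x m) := by
    intro m
    apply hconj
    rw [MulAut.conjNormal_apply]
    group
  have h2 : Cfsg.centralChar (θ : N → ℂ) (MulAut.conjNormal x g) =
      Cfsg.centralChar (θ' : N → ℂ) g := by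
    unfold Cfsg.centralChar
    rw [index_centralizer_map, h1 g, h1 1, map_one]
  rw [h2]
  exact IsPBlock.sameBlock hM hc hθ' hθ g

/-- the central character of `χ` at an element of the normal subgroup `N`, in terms of a
constituent `θ` of the restriction: a sum over the cosets of `N C_G(g)` -/
theorem centralChar_eq_finsum_quotient (N : Subgroup G) [N.Normal] [Fintype N]
    {χ : Cfsg.IrrCharacter G} {θ : Cfsg.IrrCharacter N}
    (hcon : Cfsg.classInner (fun n : N => (χ : G → ℂ) n) (θ : N → ℂ) ≠ 0) (g : N) :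
    Cfsg.centralChar (χ : G → ℂ) (g : G) =
      ∑ᶠ q : G ⧸ (N ⊔ Subgroup.centralizer ({(g : G)} : Set G)),
        Cfsg.centralChar (θ : N → ℂ) (MulAut.conjNormal (Quotient.out q) g) := by
  classical
  have hθ1 := Cfsg.Agent.Lib.Helper16.irr_one_ne_zero θ
  -- invariance
  have hψ : ∀ x : G, ∀ h ∈ N ⊔ Subgroup.centralizer ({(g : G)} : Set G),
      Cfsg.centralChar (θ : N → ℂ) (MulAut.conjNormal (x * h) g) =
        Cfsg.centralChar (θ : N → ℂ) (MulAut.conjNormal x g) := by
    intro x h hh
    have hh' : h ∈ (N : Set G) * (Subgroup.centralizer ({(g : G)} : Set G) : Set G) := by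
      rw [← Subgroup.normal_mul]
      exact hh
    obtain ⟨n, hn, c, hc, rfl⟩ := Set.mem_mul.mp hh'
    have e1 : MulAut.conjNormal c g = g := by
      apply Subtype.ext
      rw [MulAut.conjNormal_apply]
      have := (Subgroup.mem_centralizer_iff.mp hc) (g : G) rfl
      rw [← this, mul_inv_cancel_right]
    have e2 : MulAut.conjNormal (x * (n * c)) g =
        MulAut.conjNormal x (⟨n, hn⟩ : N) * MulAut.conjNormal x g *
          (MulAut.conjNormal x (⟨n, hn⟩ : N))⁻¹ := by
      apply Subtype.ext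
      have e3 : MulAut.conjNormal (x * (n * c)) g =
          MulAut.conjNormal x (MulAut.conjNormal n (MulAut.conjNormal c g)) := by
        rw [map_mul, map_mul]
        rfl
      rw [e3, e1]
      simp only [MulAut.conjNormal_apply, Subgroup.coe_mul, Subgroup.coe_inv]
      group
    rw [e2, centralChar_conj]
  have hC := sum_eq_card_mul_finsum_quotient (N ⊔ Subgroup.centralizer ({(g : G)} : Set G))
    (fun x => Cfsg.centralChar (θ : N → ℂ) (MulAut.conjNormal x g)) hψ
  -- the sum over the group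
  have hB : ∀ x : G, ext0 N (θ : N → ℂ) (x * (g : G) * x⁻¹) =
      Cfsg.centralChar (θ : N → ℂ) (MulAut.conjNormal x g) * (θ : N → ℂ) 1 /
        ((Subgroup.centralizer ({g} : Set N)).index : ℂ) := by
    intro x
    have hs : ((Subgroup.centralizer ({g} : Set N)).index : ℂ) ≠ 0 := by
      exact_mod_cast Subgroup.index_ne_zero_of_finite
    have e : x * (g : G) * x⁻¹ = ((MulAut.conjNormal x g : N) : G) := by
      rw [MulAut.conjNormal_apply]
    rw [e, ext0_coe]
    unfold Cfsg.centralChar
    rw [index_centralizer_map]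
    field_simp
  have hA := sum_conj_eq' (fun y => ext0 N (θ : N → ℂ) y) (g : G)
  have hA2 : ∑ y : G, (if IsConj (g : G) y then ext0 N (θ : N → ℂ) y else 0) =
      ∑ m : N, (θ : N → ℂ) m * (if IsConj (g : G) (m : G) then 1 else 0) := by
    rw [← sum_ext0_mul N (θ : N → ℂ) (fun y => if IsConj (g : G) y then 1 else 0)]
    refine Finset.sum_congr rfl fun y _ => ?_
    split_ifs <;> simp
  have hA3 : Cfsg.centralChar (χ : G → ℂ) (g : G) * (θ : N → ℂ) 1 =
      ∑ m : N, (θ : N → ℂ) m * (if IsConj (g : G) (m : G) then 1 else 0) := by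
    rw [centralChar_eq_inducedCentralChar N hcon g]
    unfold Cfsg.inducedCentralChar
    rw [finsum_mem_eq_sum_ite, Finset.sum_mul]
    refine Finset.sum_congr rfl fun m _ => ?_
    by_cases hm : IsConj (g : G) (m : G)
    · rw [if_pos hm, if_pos (show m ∈ {h : N | IsConj (g : G) (h : G)} from hm)]
      field_simp
    · rw [if_neg hm, if_neg (show m ∉ {h : N | IsConj (g : G) (h : G)} from hm)]
      simp
  rw [hA2, ← hA3] at hA
  -- cardinalities
  have hD : (Nat.card (N ⊔ Subgroup.centralizer ({(g : G)} : Set G) : Subgroup G) : ℂ) =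
      ((Subgroup.centralizer ({g} : Set N)).index : ℂ) *
        (Nat.card (Subgroup.centralizer ({(g : G)} : Set G)) : ℂ) := by
    have h1 := card_sup_eq_of_normal N (Subgroup.centralizer ({(g : G)} : Set G))
    have h2 := card_inf_mul_relIndex N (Subgroup.centralizer ({(g : G)} : Set G))
    have h3 := Subgroup.index_mul_card (Subgroup.centralizer ({g} : Set N))
    rw [card_centralizer_subgroup] at h3
    have h4 : Nat.card (N ⊔ Subgroup.centralizer ({(g : G)} : Set G) : Subgroup G) =
        (Subgroup.centralizer ({g} : Set N)).index *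
          Nat.card (Subgroup.centralizer ({(g : G)} : Set G)) := by
      rw [h1, ← h3, ← h2]
      ring
    exact_mod_cast h4
  have hs : ((Subgroup.centralizer ({g} : Set N)).index : ℂ) ≠ 0 := by
    exact_mod_cast Subgroup.index_ne_zero_of_finite
  have hcC : (Nat.card (Subgroup.centralizer ({(g : G)} : Set G)) : ℂ) ≠ 0 := by
    exact_mod_cast Nat.card_pos.ne'
  have hsum : ∑ x : G, Cfsg.centralChar (θ : N → ℂ) (MulAut.conjNormal x g) =
      ((Subgroup.centralizer ({g} : Set N)).index : ℂ) *
        (Nat.card (Subgroup.centralizer ({(g : G)} : Set G)) : ℂ) *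
          Cfsg.centralChar (χ : G → ℂ) (g : G) := by
    have h5 : ∑ x : G, Cfsg.centralChar (θ : N → ℂ) (MulAut.conjNormal x g) =
        ((Subgroup.centralizer ({g} : Set N)).index : ℂ) / (θ : N → ℂ) 1 *
          ∑ x : G, ext0 N (θ : N → ℂ) (x * (g : G) * x⁻¹) := by
      rw [Finset.mul_sum]
      refine Finset.sum_congr rfl fun x _ => ?_
      rw [hB x]
      field_simp
    rw [h5, hA]
    field_simp
  rw [hsum, hD] at hC
  have hne : ((Subgroup.centralizer ({g} : Set N)).index : ℂ) *
      (Nat.card (Subgroup.centralizer ({(g : G)} : Set G)) : ℂ) ≠ 0 := mul_ne_zero hs hcC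
  exact mul_left_cancel₀ hne hC

/-- **Key step.**  Let `N` be normal of `p`-power index, `c` a stable block of `N`, `θ ∈ c`
a constituent of the restriction of `χ`, and `g ∈ N` with `ω_χ(g)` a unit.  Then
`G = N C_G(g)` and `ω_θ(g)` is a unit. -/
theorem sup_centralizer_eq_top_of_not_memLocalIdeal (hM : Cfsg.IsPModular p M) (N : Subgroup G)
    [N.Normal] [Fintype N] (hN : ∃ k : ℕ, N.index = p ^ k) (c : Set (Cfsg.IrrCharacter N))
    (hc : Cfsg.IsPBlock M c) (hst : ∀ x : G, Cfsg.StabilizesBlock N c x)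
    {χ : Cfsg.IrrCharacter G} {θ : Cfsg.IrrCharacter N} (hθ : θ ∈ c)
    (hcon : Cfsg.classInner (fun n : N => (χ : G → ℂ) n) (θ : N → ℂ) ≠ 0) (g : N)
    (hg : ¬ Cfsg.MemLocalIdeal M (Cfsg.centralChar (χ : G → ℂ) (g : G))) :
    N ⊔ Subgroup.centralizer ({(g : G)} : Set G) = ⊤ ∧
      ¬ Cfsg.MemLocalIdeal M (Cfsg.centralChar (θ : N → ℂ) g) := by
  classical
  have hMp : M.IsPrime := hM.2.1.isPrime
  have hfinQ : Fintype (G ⧸ (N ⊔ Subgroup.centralizer ({(g : G)} : Set G))) :=
    Fintype.ofFinite _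
  have hkey := centralChar_eq_finsum_quotient N hcon g
  rw [finsum_eq_sum_of_fintype] at hkey
  have hsplit : ∑ q : G ⧸ (N ⊔ Subgroup.centralizer ({(g : G)} : Set G)),
      Cfsg.centralChar (θ : N → ℂ) (MulAut.conjNormal (Quotient.out q) g) =
      ∑ q : G ⧸ (N ⊔ Subgroup.centralizer ({(g : G)} : Set G)),
        (Cfsg.centralChar (θ : N → ℂ) (MulAut.conjNormal (Quotient.out q) g) -
          Cfsg.centralChar (θ : N → ℂ) g) +
      ((N ⊔ Subgroup.centralizer ({(g : G)} : Set G)).index : ℂ) *
        Cfsg.centralChar (θ : N → ℂ) g := by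
    rw [Finset.sum_sub_distrib, Finset.sum_const, Finset.card_univ, nsmul_eq_mul,
      ← Nat.card_eq_fintype_card]
    unfold Subgroup.index
    ring
  have hJ : Cfsg.MemLocalIdeal M
      (∑ q : G ⧸ (N ⊔ Subgroup.centralizer ({(g : G)} : Set G)),
        (Cfsg.centralChar (θ : N → ℂ) (MulAut.conjNormal (Quotient.out q) g) -
          Cfsg.centralChar (θ : N → ℂ) g)) :=
    memLocalIdeal_sum hMp _ _
      (fun q _ => memLocalIdeal_centralChar_conjNormal_sub hMp N c hc hst hθ _ g)
  rw [hsplit] at hkey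
  have hwR : Cfsg.MemLocalRing M (Cfsg.centralChar (θ : N → ℂ) g) :=
    memLocalRing_centralChar hMp θ g
  have htop : N ⊔ Subgroup.centralizer ({(g : G)} : Set G) = ⊤ := by
    by_contra hne
    apply hg
    rw [hkey]
    apply memLocalIdeal_add hMp hJ
    apply memLocalIdeal_mul_right hMp _ hwR
    rw [memLocalIdeal_natCast_iff hM]
    obtain ⟨k, hk⟩ := hN
    have h1 : (N ⊔ Subgroup.centralizer ({(g : G)} : Set G)).index ∣ p ^ k := by
      rw [← hk]
      exact Subgroup.index_dvd_of_le le_sup_left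
    obtain ⟨j, -, hj⟩ := (Nat.dvd_prime_pow (Fact.out : p.Prime)).mp h1
    rw [hj]
    have hj0 : j ≠ 0 := by
      rintro rfl
      rw [pow_zero, Subgroup.index_eq_one] at hj
      exact hne hj
    exact dvd_pow_self p hj0
  refine ⟨htop, ?_⟩
  intro hw
  apply hg
  rw [hkey]
  apply memLocalIdeal_add hMp hJ
  exact memLocalIdeal_mul_left hMp (memLocalRing_natCast hMp _) hw

/-- a character lying over a member of `c` belongs to the block with the idempotent of `c` -/
theorem mem_of_over_of_blockCoeff_eq (N : Subgroup G) [N.Normal] [Fintype N]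
    (c : Set (Cfsg.IrrCharacter N)) (B : Set (Cfsg.IrrCharacter G))
    (hBc : ∀ g : G, Cfsg.blockCoeff B g = Cfsg.subgroupBlockCoeff N c g)
    {χ : Cfsg.IrrCharacter G} {θ : Cfsg.IrrCharacter N} (hθ : θ ∈ c)
    (hcon : Cfsg.classInner (fun n : N => (χ : G → ℂ) n) (θ : N → ℂ) ≠ 0) : χ ∈ B := by
  classical
  have h1 := omegaF_blockCoeff_set B χ
  have h2 := omegaF_blockCoeff_set c θ
  rw [if_pos hθ] at h2
  have h3 := sum_res_mul_eq N hcon (blockCoeff_isClassFunction B)
  have h4 : omegaF (χ : G → ℂ) (Cfsg.blockCoeff B) = omegaF (θ : N → ℂ) (Cfsg.blockCoeff c) := by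
    unfold omegaF
    have e1 : ∑ g : G, Cfsg.blockCoeff B g * (χ : G → ℂ) g =
        ∑ m : N, Cfsg.blockCoeff B (m : G) * (χ : G → ℂ) (m : G) := by
      rw [← sum_ext0_mul N (fun m : N => Cfsg.blockCoeff B (m : G)) (χ : G → ℂ)]
      refine Finset.sum_congr rfl fun g _ => ?_
      congr 1
      by_cases hg : g ∈ N
      · rw [ext0_of_mem N _ hg]
      · rw [ext0_of_not_mem N _ hg, hBc, subgroupBlockCoeff_eq_ext0, ext0_of_not_mem N _ hg]
    have e2 : ∑ m : N, Cfsg.blockCoeff c m * (θ : N → ℂ) m =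
        ∑ m : N, Cfsg.blockCoeff B (m : G) * (θ : N → ℂ) m := by
      refine Finset.sum_congr rfl fun m _ => ?_
      rw [hBc, subgroupBlockCoeff_eq_ext0, ext0_coe]
    rw [e1, e2]
    exact h3
  rw [h4, h2] at h1
  by_contra hn
  rw [if_neg hn] at h1
  exact one_ne_zero h1

omit [Fintype G] in
/-- a subgroup is generated by a normal subgroup of `p`-power index and a Sylow `p`-subgroup
of the subgroup, together with the normal subgroup -/
theorem le_sup_sylow_of_pindex [Finite G] (N : Subgroup G) [N.Normal]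
    (hN : ∃ k : ℕ, N.index = p ^ k) (C : Subgroup G) (S : Sylow p C) :
    C ≤ N ⊔ (S : Subgroup C).map C.subtype := by
  obtain ⟨k, hk⟩ := hN
  rw [← Subgroup.relIndex_eq_one]
  have h1 : (N ⊔ (S : Subgroup C).map C.subtype).relIndex C ∣ p ^ k := by
    rw [← hk]
    exact (Subgroup.relIndex_dvd_of_le_left C le_sup_left).trans
      (Subgroup.relIndex_dvd_index_of_normal N C)
  have h2 : (N ⊔ (S : Subgroup C).map C.subtype).relIndex C ∣ (S : Subgroup C).index := by
    have h3 := Subgroup.relIndex_dvd_of_le_left C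
      (le_sup_right : (S : Subgroup C).map C.subtype ≤ N ⊔ (S : Subgroup C).map C.subtype)
    have h4 : ((S : Subgroup C).map C.subtype).relIndex C = (S : Subgroup C).index := by
      show (((S : Subgroup C).map C.subtype).comap C.subtype).index = _
      rw [Subgroup.comap_map_eq_self_of_injective (Subgroup.subtype_injective _)]
    rwa [h4] at h3
  obtain ⟨j, -, hj⟩ := (Nat.dvd_prime_pow (Fact.out : p.Prime)).mp h1
  rw [hj] at h2 ⊢
  have hj0 : j = 0 := by
    by_contra hj0
    exact S.not_dvd_index ((dvd_pow_self p hj0).trans h2)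
  rw [hj0, pow_zero]

omit [Fintype G] in
/-- a `p`-subgroup of the centralizer of a defect class representative having the order of a
Sylow `p`-subgroup of that centralizer is a defect group -/
theorem isDefectGroup_of_card [Finite G] {B : Set (Cfsg.IrrCharacter G)} {g : G}
    (hg : Cfsg.IsDefectClass M B g) (D : Subgroup G)
    (hD : D ≤ Subgroup.centralizer ({g} : Set G))
    (hcard : Nat.card D = p ^ (Nat.card (Subgroup.centralizer ({g} : Set G))).factorization p) :
    Cfsg.IsDefectGroup p M B D := by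
  refine ⟨g, hg, Sylow.ofCard (D.subgroupOf (Subgroup.centralizer ({g} : Set G))) ?_, ?_⟩
  · rw [← hcard]
    exact Nat.card_congr (Subgroup.subgroupOfEquivOfLe hD).toEquiv
  · rw [Sylow.coe_ofCard, Subgroup.map_subgroupOf_eq_of_le hD]

/-- **Defect groups under `p`-power index.**  Let `N` be normal of `p`-power index, `c` a
stable block of `N` and `B` the block of `G` with the idempotent of `c`.  For every defect group
`P` of `B`: `G = N P` and `P ∩ N` is a defect group of `c`. -/
theorem sup_eq_top_and_isDefectGroup_inf (hM : Cfsg.IsPModular p M) (N : Subgroup G) [N.Normal]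
    (hN : ∃ k : ℕ, N.index = p ^ k) (c : Set (Cfsg.IrrCharacter N)) (hc : Cfsg.IsPBlock M c)
    (hst : ∀ x : G, Cfsg.StabilizesBlock N c x) (B : Set (Cfsg.IrrCharacter G))
    (hBc : ∀ g : G, Cfsg.blockCoeff B g = Cfsg.subgroupBlockCoeff N c g) (P : Subgroup G)
    (hP : Cfsg.IsDefectGroup p M B P) :
    N ⊔ P = ⊤ ∧ Cfsg.IsDefectGroup p M c ((P ⊓ N).subgroupOf N) := by
  classical
  have hMp : M.IsPrime := hM.2.1.isPrime
  have hp : p.Prime := Fact.out
  have hfinN : Fintype N := Fintype.ofFinite _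
  obtain ⟨g, hg, S, rfl⟩ := hP
  have hgN : g ∈ N := by
    by_contra hn
    apply hg.2.1
    rw [hBc, subgroupBlockCoeff_eq_ext0, ext0_of_not_mem N _ hn]
    exact memLocalIdeal_zero hMp
  have hover : ∀ θ ∈ c, N ⊔ Subgroup.centralizer ({g} : Set G) = ⊤ ∧
      ¬ Cfsg.MemLocalIdeal M (Cfsg.centralChar (θ : N → ℂ) (⟨g, hgN⟩ : N)) := by
    intro θ hθ
    obtain ⟨χ, hχ⟩ := exists_irr_over (G := G) N θ
    have hχB : χ ∈ B := mem_of_over_of_blockCoeff_eq N c B hBc hθ hχ
    exact sup_centralizer_eq_top_of_not_memLocalIdeal hM N hN c hc hst hθ hχ ⟨g, hgN⟩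
      (hg.2.2 χ hχB)
  obtain ⟨θ₀, hθ₀⟩ := IsPBlock.nonempty hMp hc
  have htop := (hover θ₀ hθ₀).1
  have hdc : Cfsg.IsDefectClass M c (⟨g, hgN⟩ : N) := by
    have e : Cfsg.blockCoeff c (⟨g, hgN⟩ : N) = Cfsg.blockCoeff B g := by
      rw [hBc, subgroupBlockCoeff_eq_ext0, ext0_of_mem N _ hgN]
    refine ⟨?_, ?_, fun θ hθ => (hover θ hθ).2⟩
    · rw [e]; exact hg.1
    · rw [e]; exact hg.2.1
  have hle := le_sup_sylow_of_pindex N hN (Subgroup.centralizer ({g} : Set G)) S
  have hNP : N ⊔ (S : Subgroup (Subgroup.centralizer ({g} : Set G))).map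
      (Subgroup.centralizer ({g} : Set G)).subtype = ⊤ := by
    rw [← top_le_iff, ← htop]
    exact sup_le le_sup_left hle
  refine ⟨hNP, isDefectGroup_of_card hdc _ ?_ ?_⟩
  · intro x hx
    rw [Subgroup.mem_subgroupOf, Subgroup.mem_inf] at hx
    have h1 := Subgroup.map_subtype_le _ hx.1
    rw [Subgroup.mem_centralizer_iff] at h1 ⊢
    intro y hy
    rw [Set.mem_singleton_iff] at hy
    subst hy
    exact Subtype.ext (h1 g rfl)
  · obtain ⟨k, hk⟩ := hN
    have h1 : Nat.card (((S : Subgroup (Subgroup.centralizer ({g} : Set G))).map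
        (Subgroup.centralizer ({g} : Set G)).subtype ⊓ N).subgroupOf N) =
        Nat.card ((S : Subgroup (Subgroup.centralizer ({g} : Set G))).map
          (Subgroup.centralizer ({g} : Set G)).subtype ⊓ N : Subgroup G) :=
      Nat.card_congr (Subgroup.subgroupOfEquivOfLe inf_le_right).toEquiv
    rw [h1, card_centralizer_subgroup]
    have h2 := card_inf_mul_relIndex N ((S : Subgroup (Subgroup.centralizer ({g} : Set G))).map
      (Subgroup.centralizer ({g} : Set G)).subtype)
    have h3 : N.relIndex ((S : Subgroup (Subgroup.centralizer ({g} : Set G))).map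
        (Subgroup.centralizer ({g} : Set G)).subtype) = p ^ k := by
      rw [← Subgroup.relIndex_sup_left, hNP, Subgroup.relIndex_top_right, hk]
    have h4 := card_inf_mul_relIndex N (Subgroup.centralizer ({g} : Set G))
    have h5 : N.relIndex (Subgroup.centralizer ({g} : Set G)) = p ^ k := by
      rw [← Subgroup.relIndex_sup_left, htop, Subgroup.relIndex_top_right, hk]
    have h6 : Nat.card ((S : Subgroup (Subgroup.centralizer ({g} : Set G))).map
        (Subgroup.centralizer ({g} : Set G)).subtype) =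
        p ^ (Nat.card (Subgroup.centralizer ({g} : Set G))).factorization p := by
      rw [Subgroup.card_map_of_injective (Subgroup.subtype_injective _)]
      exact S.card_eq_multiplicity
    rw [h3] at h2
    rw [h5] at h4
    have h7 : (Nat.card (Subgroup.centralizer ({g} : Set G))).factorization p =
        (Nat.card (N ⊓ Subgroup.centralizer ({g} : Set G) : Subgroup G)).factorization p + k := by
      rw [← h4, Nat.factorization_mul Nat.card_pos.ne' (pow_ne_zero _ hp.ne_zero)]
      simp [hp.factorization_self]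
    rw [h6, h7, pow_add] at h2
    rw [inf_comm]
    exact Nat.eq_of_mul_eq_mul_right (pow_pos hp.pos k) h2

end Key

end Cfsg.Agent.Lib.Helper77
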