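import Mathlib
import Cfsg.Prelude.Def_Blocks
import Cfsg.Prelude.Def_BlockLocal
import Cfsg.Prelude.Def_BrauerPairs
import Cfsg.Agent.Lib.Helper77.PIndex
import Cfsg.Agent.Lib.Helper84.PCoreBasic

/-!
# Blocks of a subgroup read inside a larger subgroup

Tools for a block `f` of a subgroup `K` and a subgroup `L ≥ K` normalizing `K` and stabilizing
`f`: the copy of `f` on `K.subgroupOf L`, and the block of `L` with the idempotent of `f` when
`L / K` is a `p`-group.  Also: normal `p`-subgroups lie in every defect group, and a Brauer pair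
belongs to a unique block.
-/

set_option autoImplicit false
set_option linter.unusedSectionVars false

namespace Cfsg.Agent.Lib.Helper77

open Cfsg Cfsg.Agent.Lib.Helper16 Cfsg.Agent.Lib.Helper81

section General

variable {K : Type*} [Group K] [Finite K] {M : Ideal Cfsg.AlgInt} {p : ℕ} [Fact p.Prime]

/-- a normal `p`-subgroup lies in every defect group -/
theorem normal_pgroup_le_of_isDefectGroup (hM : Cfsg.IsPModular p M) (R : Subgroup K)
    [hRn : R.Normal] (hR : IsPGroup p R) {B : Set (Cfsg.IrrCharacter K)}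
    (hB : Cfsg.IsPBlock M B) {D : Subgroup K} (hD : Cfsg.IsDefectGroup p M B D) : R ≤ D := by
  classical
  have := Fintype.ofFinite K
  have hMp := isPrime_of_isPModular hM
  obtain ⟨g, hg, S, rfl⟩ := hD
  have hgC : g ∈ Subgroup.centralizer (R : Set K) := by
    by_contra hcon
    have h0 := blockCoeff_eq_zero_of_not_mem_centralizer hM R hR B hB g hcon
    exact hg.2.1 (h0 ▸ memLocalIdeal_zero hMp)
  have hle : R ≤ Subgroup.centralizer ({g} : Set K) := by
    intro x hx
    rw [Subgroup.mem_centralizer_iff]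
    intro y hy
    rw [Set.mem_singleton_iff] at hy
    subst hy
    exact ((Subgroup.mem_centralizer_iff.mp hgC) x hx).symm
  have hN' : (R.subgroupOf (Subgroup.centralizer ({g} : Set K))).Normal := inferInstance
  have hp' : IsPGroup p (R.subgroupOf (Subgroup.centralizer ({g} : Set K))) := hR.comap_subtype
  have h1 := Cfsg.Agent.Lib.Helper84.normal_pgroup_le_sylow hN' hp' S
  intro x hx
  exact ⟨⟨x, hle hx⟩, h1 (by simpa [Subgroup.mem_subgroupOf] using hx), rfl⟩

end General

section Unique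

variable {G : Type*} [Group G] [Fintype G] {M : Ideal Cfsg.AlgInt} {p : ℕ} [Fact p.Prime]

/-- a Brauer pair belongs to a unique block -/
theorem isBrauerPairOf_unique (hM : Cfsg.IsPModular p M) {B B' : Set (Cfsg.IrrCharacter G)}
    {P : Subgroup G} {e : Set (Cfsg.IrrCharacter (Subgroup.centralizer (P : Set G)))}
    (h : Cfsg.IsBrauerPairOf p M B P e) (h' : Cfsg.IsBrauerPairOf p M B' P e) : B = B' := by
  have hMp := isPrime_of_isPModular hM
  obtain ⟨ξ, hξ⟩ := IsPBlock.nonempty hMp h.1.2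
  obtain ⟨A, hA, hA1, hAu⟩ := exists_block_of_brauerOmega hM P h.1.1 ξ
  rw [hAu B h.2.1 (not_memLocalIdeal_of_sub_one hMp (h.2.2 ξ hξ)),
    hAu B' h'.2.1 (not_memLocalIdeal_of_sub_one hMp (h'.2.2 ξ hξ))]

/-- a stable block of a subgroup supporting all block idempotents of the group has the
idempotent of a block of the group -/
theorem exists_block_of_stable_of_supp (hM : M.IsPrime) (K : Subgroup G)
    (f : Set (Cfsg.IrrCharacter K)) (hf : Cfsg.IsPBlock M f)
    (hst : ∀ x : G, Cfsg.StabilizesBlock K f x)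
    (hsupp : ∀ B : Set (Cfsg.IrrCharacter G), Cfsg.IsPBlock M B →
      ∀ g : G, g ∉ K → Cfsg.blockCoeff B g = 0) :
    ∃ B : Set (Cfsg.IrrCharacter G), Cfsg.IsPBlock M B ∧
      ∀ g : G, Cfsg.blockCoeff B g = Cfsg.subgroupBlockCoeff K f g := by
  classical
  have hfinT : Fintype (⊤ : Subgroup G) := Fintype.ofFinite _
  obtain ⟨F, hF, hFc⟩ := exists_block_eq_ext0 hM (⊤ : Subgroup G) K le_top f hf
    (fun t _ => hst t) (by
      intro F hF t ht
      have h1 := hsupp (mapSet Subgroup.topEquiv F) (isPBlock_mapSet hM _ hF) (t : G) ht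
      rw [blockCoeff_mapSet'] at h1
      exact h1)
  refine ⟨mapSet Subgroup.topEquiv F, isPBlock_mapSet hM _ hF, fun g => ?_⟩
  rw [blockCoeff_mapSet', hFc, subgroupBlockCoeff_eq_ext0]
  rfl

end Unique

section Pull

variable {G : Type*} [Group G] [Fintype G] {M : Ideal Cfsg.AlgInt}

/-- a set of characters of `K`, read on the copy of `K` inside a larger subgroup `L` -/
def pullSet {K L : Subgroup G} (h : K ≤ L) (f : Set (Cfsg.IrrCharacter K)) :
    Set (Cfsg.IrrCharacter (K.subgroupOf L)) :=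
  mapSet (Subgroup.subgroupOfEquivOfLe h).symm f

theorem isPBlock_pullSet (hM : M.IsPrime) {K L : Subgroup G} (h : K ≤ L)
    {f : Set (Cfsg.IrrCharacter K)} (hf : Cfsg.IsPBlock M f) :
    Cfsg.IsPBlock M (pullSet h f) :=
  isPBlock_mapSet hM _ hf

theorem blockCoeff_pullSet {K L : Subgroup G} (h : K ≤ L) (f : Set (Cfsg.IrrCharacter K))
    (k : K.subgroupOf L) :
    Cfsg.blockCoeff (pullSet h f) k = Cfsg.blockCoeff f (Subgroup.subgroupOfEquivOfLe h k) := by
  unfold pullSet
  rw [blockCoeff_mapSet']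
  rfl

theorem subgroupBlockCoeff_pullSet {K L : Subgroup G} (h : K ≤ L)
    (f : Set (Cfsg.IrrCharacter K)) (t : L) :
    Cfsg.subgroupBlockCoeff (K.subgroupOf L) (pullSet h f) t =
      Cfsg.subgroupBlockCoeff K f (t : G) := by
  rw [subgroupBlockCoeff_eq_ext0, subgroupBlockCoeff_eq_ext0]
  by_cases ht : (t : G) ∈ K
  · have ht' : t ∈ K.subgroupOf L := Subgroup.mem_subgroupOf.mpr ht
    rw [ext0_of_mem _ _ ht', ext0_of_mem _ _ ht, blockCoeff_pullSet]
    rfl
  · have ht' : t ∉ K.subgroupOf L := fun h' => ht (Subgroup.mem_subgroupOf.mp h')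
    rw [ext0_of_not_mem _ _ ht', ext0_of_not_mem _ _ ht]

theorem stabilizesBlock_pullSet {K L : Subgroup G} (h : K ≤ L)
    {f : Set (Cfsg.IrrCharacter K)} {x : L} (hx : Cfsg.StabilizesBlock K f (x : G)) :
    Cfsg.StabilizesBlock (K.subgroupOf L) (pullSet h f) x := by
  obtain ⟨hxn, hxs⟩ := hx
  refine ⟨?_, ?_⟩
  · rw [Subgroup.mem_normalizer_iff]
    intro k
    rw [Subgroup.mem_subgroupOf, Subgroup.mem_subgroupOf]
    exact Subgroup.mem_normalizer_iff.mp hxn (k : G)
  · rintro χ ⟨ξ, hξ, rfl⟩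
    obtain ⟨ξ', hξ', hconj⟩ := hxs ξ hξ
    refine ⟨mapIrr (Subgroup.subgroupOfEquivOfLe h).symm ξ', ⟨ξ', hξ', rfl⟩, ?_⟩
    intro k k' hk
    rw [mapIrr_apply, mapIrr_apply]
    apply hconj
    show (((k' : K.subgroupOf L) : L) : G) = (x : G) * (((k : K.subgroupOf L) : L) : G) * (x : G)⁻¹
    rw [hk]
    rfl

theorem isDefectGroup_pullSet {p : ℕ} [Fact p.Prime] {K L : Subgroup G} (h : K ≤ L)
    {f : Set (Cfsg.IrrCharacter K)} {D : Subgroup K} (hD : Cfsg.IsDefectGroup p M f D) :
    Cfsg.IsDefectGroup p M (pullSet h f)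
      (D.map (Subgroup.subgroupOfEquivOfLe h).symm.toMonoidHom) := by
  have hfin1 : Fintype K := Fintype.ofFinite _
  have hfin2 : Fintype (K.subgroupOf L) := Fintype.ofFinite _
  exact isDefectGroup_mapSet _ hD

end Pull

section Rel

variable {G : Type*} [Group G] [Fintype G] {M : Ideal Cfsg.AlgInt} {p : ℕ} [Fact p.Prime]

/-- **Stable blocks under relative `p`-power index.**  Let `K ≤ L` be subgroups with `L`
normalizing `K`, `[L : K]` a power of `p`, and `f` a block of `K` stable under `L`.  Then the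
idempotent of `f` is the idempotent of a block of `L`. -/
theorem exists_block_of_stable_relIndex (hM : Cfsg.IsPModular p M) {K L : Subgroup G}
    (hKL : K ≤ L) (hLN : L ≤ Subgroup.normalizer (K : Set G))
    (hidx : ∃ k : ℕ, K.relIndex L = p ^ k) (f : Set (Cfsg.IrrCharacter K))
    (hf : Cfsg.IsPBlock M f) (hst : ∀ x ∈ L, Cfsg.StabilizesBlock K f x) :
    ∃ F : Set (Cfsg.IrrCharacter L), Cfsg.IsPBlock M F ∧
      ∀ t : L, Cfsg.blockCoeff F t = Cfsg.subgroupBlockCoeff K f (t : G) := by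
  have hMp := isPrime_of_isPModular hM
  have hfinL : Fintype L := Fintype.ofFinite _
  have hn : (K.subgroupOf L).Normal := (Subgroup.normal_subgroupOf_iff_le_normalizer hKL).mpr hLN
  obtain ⟨F, hF, hFc⟩ := exists_block_eq_subgroupBlockCoeff hM (K.subgroupOf L) hidx
    (pullSet hKL f) (isPBlock_pullSet hMp hKL hf)
    (fun x => stabilizesBlock_pullSet hKL (hst x x.2))
  exact ⟨F, hF, fun t => by rw [hFc, subgroupBlockCoeff_pullSet]⟩

/-- **Defect groups under relative `p`-power index.** -/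
theorem sup_eq_top_and_isDefectGroup_inf_rel (hM : Cfsg.IsPModular p M) {K L : Subgroup G}
    (hKL : K ≤ L) (hLN : L ≤ Subgroup.normalizer (K : Set G))
    (hidx : ∃ k : ℕ, K.relIndex L = p ^ k) (f : Set (Cfsg.IrrCharacter K))
    (hf : Cfsg.IsPBlock M f) (hst : ∀ x ∈ L, Cfsg.StabilizesBlock K f x)
    (F : Set (Cfsg.IrrCharacter L))
    (hFf : ∀ t : L, Cfsg.blockCoeff F t = Cfsg.subgroupBlockCoeff K f (t : G))
    (D : Subgroup L) (hD : Cfsg.IsDefectGroup p M F D) :
    K.subgroupOf L ⊔ D = ⊤ ∧ Cfsg.IsDefectGroup p M (pullSet hKL f)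
      ((D ⊓ K.subgroupOf L).subgroupOf (K.subgroupOf L)) := by
  have hMp := isPrime_of_isPModular hM
  have hfinL : Fintype L := Fintype.ofFinite _
  have hn : (K.subgroupOf L).Normal := (Subgroup.normal_subgroupOf_iff_le_normalizer hKL).mpr hLN
  exact sup_eq_top_and_isDefectGroup_inf hM (K.subgroupOf L) hidx
    (pullSet hKL f) (isPBlock_pullSet hMp hKL hf)
    (fun x => stabilizesBlock_pullSet hKL (hst x x.2)) F
    (fun t => by rw [hFf, subgroupBlockCoeff_pullSet]) D hD

end Rel

end Cfsg.Agent.Lib.Helper77
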