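import Mathlib
import Cfsg.Prelude.Def_Blocks
import Cfsg.Prelude.Def_BlockLocal
import Cfsg.Prelude.Def_BrauerPairs
import Cfsg.Agent.Lib.Helper77.SubBlock
import Cfsg.Agent.Lib.Helper77.LocalPairs
import Cfsg.Agent.Lib.Helper77.ConjPair

/-!
# Brauer pairs of a subgroup and Brauer pairs of the group

Let `H` be a subgroup of `G`, `R'` a subgroup of `H` and `R₂` a subgroup of `G` whose
centralizer in `G` is the centralizer of `R'` in `H`.  Then the blocks of the two centralizers
correspond, and the Brauer functionals agree.  Consequences: for a block `f` of `C_G(Q)` and a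
subgroup `H ≥ C_G(Q)` having a block `F` with the idempotent of `f`, the Brauer pairs of `F`
correspond to the Brauer pairs of `G` normally containing `(Q, f)`; normal inclusions and
inclusions of Brauer pairs of `H` are inclusions in `G`; conjugation is compatible.
-/

set_option autoImplicit false
set_option linter.unusedSectionVars false

namespace Cfsg.Agent.Lib.Helper77

open Cfsg Cfsg.Agent.Lib.Helper16 Cfsg.Agent.Lib.Helper81

section Core

variable {G : Type*} [Group G] {M : Ideal Cfsg.AlgInt}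

/-- the centralizer of `R₂` in `G` is the centralizer of `R'` in `H` -/
def CentEq (H : Subgroup G) (R' : Subgroup H) (R₂ : Subgroup G) : Prop :=
  ∀ x : G, x ∈ Subgroup.centralizer (R₂ : Set G) ↔
    ∃ hx : x ∈ H, (⟨x, hx⟩ : H) ∈ Subgroup.centralizer (R' : Set H)

/-- the identification of `C_H(R')` with `C_G(R₂)` -/
def subCentIso (H : Subgroup G) (R' : Subgroup H) (R₂ : Subgroup G) (h : CentEq H R' R₂) :
    Subgroup.centralizer (R' : Set H) ≃* Subgroup.centralizer (R₂ : Set G) where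
  toFun y := ⟨((y : H) : G), (h _).mpr ⟨(y : H).2, y.2⟩⟩
  invFun z := ⟨⟨(z : G), ((h _).mp z.2).1⟩, ((h _).mp z.2).2⟩
  left_inv _ := rfl
  right_inv _ := rfl
  map_mul' _ _ := rfl

theorem subCentIso_apply_coe (H : Subgroup G) (R' : Subgroup H) (R₂ : Subgroup G)
    (h : CentEq H R' R₂) (y : Subgroup.centralizer (R' : Set H)) :
    ((subCentIso H R' R₂ h y : Subgroup.centralizer (R₂ : Set G)) : G) = ((y : H) : G) := rfl

theorem subCentIso_symm_apply_coe (H : Subgroup G) (R' : Subgroup H) (R₂ : Subgroup G)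
    (h : CentEq H R' R₂) (z : Subgroup.centralizer (R₂ : Set G)) :
    ((((subCentIso H R' R₂ h).symm z : Subgroup.centralizer (R' : Set H)) : H) : G) = (z : G) :=
  rfl

/-- `C_G(R) ≤ H` gives the identification for the image of `R'` in `G` -/
theorem centEq_map (H : Subgroup G) (R' : Subgroup H)
    (hC : Subgroup.centralizer ((R'.map H.subtype : Subgroup G) : Set G) ≤ H) :
    CentEq H R' (R'.map H.subtype) := by
  intro x
  constructor
  · intro hx
    refine ⟨hC hx, ?_⟩
    rw [Subgroup.mem_centralizer_iff] at hx ⊢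
    intro r hr
    apply Subtype.ext
    exact hx (r : G) ⟨r, hr, rfl⟩
  · rintro ⟨hxH, hx⟩
    rw [Subgroup.mem_centralizer_iff] at hx ⊢
    rintro _ ⟨r, hr, rfl⟩
    exact congrArg Subtype.val (hx r hr)

/-- `R ≤ H` and `C_G(R) ≤ H` give the identification for `R` read in `H` -/
theorem centEq_subgroupOf (H : Subgroup G) (R : Subgroup G) (hRH : R ≤ H)
    (hC : Subgroup.centralizer (R : Set G) ≤ H) : CentEq H (R.subgroupOf H) R := by
  intro x
  constructor
  · intro hx
    refine ⟨hC hx, ?_⟩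
    rw [Subgroup.mem_centralizer_iff] at hx ⊢
    intro r hr
    apply Subtype.ext
    exact hx (r : G) (Subgroup.mem_subgroupOf.mp hr)
  · rintro ⟨hxH, hx⟩
    rw [Subgroup.mem_centralizer_iff] at hx ⊢
    intro r hr
    exact congrArg Subtype.val (hx ⟨r, hRH hr⟩ (Subgroup.mem_subgroupOf.mpr hr))

/-- the Brauer functional read in the subgroup -/
theorem brauerOmega_subCentIso (H : Subgroup G) (R' : Subgroup H) (R₂ : Subgroup G)
    (h : CentEq H R' R₂) (β : G → ℂ) (β' : H → ℂ)
    (hβ : ∀ y : H, y ∈ Subgroup.centralizer (R' : Set H) → β' y = β (y : G))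
    (ξ' : Cfsg.IrrCharacter (Subgroup.centralizer (R' : Set H))) :
    Cfsg.brauerOmega R₂ β
        (mapIrr (subCentIso H R' R₂ h) ξ' : Subgroup.centralizer (R₂ : Set G) → ℂ) =
      Cfsg.brauerOmega R' β' (ξ' : Subgroup.centralizer (R' : Set H) → ℂ) := by
  unfold Cfsg.brauerOmega
  rw [← finsum_comp_equiv (subCentIso H R' R₂ h).toEquiv]
  refine finsum_congr fun y => ?_
  have e1 : (((subCentIso H R' R₂ h).toEquiv y : Subgroup.centralizer (R₂ : Set G)) : G) =
      ((y : H) : G) := rfl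
  have e2 : (mapIrr (subCentIso H R' R₂ h) ξ' : Subgroup.centralizer (R₂ : Set G) → ℂ)
      ((subCentIso H R' R₂ h).toEquiv y) = (ξ' : Subgroup.centralizer (R' : Set H) → ℂ) y :=
    mapIrr_apply_apply _ ξ' y
  rw [e1, ← hβ (y : H) y.2, mapIrr_one, e2]

/-- stabilizing a set of characters, read in the subgroup -/
theorem stabilizesBlock_subCentIso (H : Subgroup G) (R' : Subgroup H) (R₂ : Subgroup G)
    (h : CentEq H R' R₂) (g' : Set (Cfsg.IrrCharacter (Subgroup.centralizer (R' : Set H))))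
    {x : H} (hx : Cfsg.StabilizesBlock (Subgroup.centralizer (R' : Set H)) g' x) :
    Cfsg.StabilizesBlock (Subgroup.centralizer (R₂ : Set G))
      (mapSet (subCentIso H R' R₂ h) g') (x : G) := by
  obtain ⟨hxn, hxs⟩ := hx
  refine ⟨?_, ?_⟩
  · rw [Subgroup.mem_normalizer_iff]
    intro k
    constructor
    · intro hk
      obtain ⟨hkH, hk'⟩ := (h k).mp hk
      have h1 := (Subgroup.mem_normalizer_iff.mp hxn ⟨k, hkH⟩).mp hk'
      exact (h _).mpr ⟨H.mul_mem (H.mul_mem x.2 hkH) (H.inv_mem x.2), h1⟩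
    · intro hk
      obtain ⟨hkH, hk'⟩ := (h _).mp hk
      have hkH' : k ∈ H := by
        have h2 := H.mul_mem (H.mul_mem (H.inv_mem x.2) hkH) x.2
        have e : (x : G)⁻¹ * ((x : G) * k * (x : G)⁻¹) * (x : G) = k := by group
        rwa [e] at h2
      have h1 := (Subgroup.mem_normalizer_iff.mp hxn ⟨k, hkH'⟩).mpr hk'
      exact (h k).mpr ⟨hkH', h1⟩
  · rintro χ ⟨ξ, hξ, rfl⟩
    obtain ⟨ξ', hξ', hconj⟩ := hxs ξ hξ
    refine ⟨mapIrr (subCentIso H R' R₂ h) ξ', ⟨ξ', hξ', rfl⟩, ?_⟩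
    intro k k' hk
    rw [mapIrr_apply, mapIrr_apply]
    apply hconj
    apply Subtype.ext
    exact hk

/-- **From the group to the subgroup.**  A Brauer pair of `G` normally containing `(Q, f₀)`
is a Brauer pair of the block of `H` with the idempotent of `f₀`. -/
theorem isBrauerPairOf_of_isNormalSubpair_sub (hM : M.IsPrime) {p : ℕ} {Q : Subgroup G}
    {f₀ : Set (Cfsg.IrrCharacter (Subgroup.centralizer (Q : Set G)))} (H : Subgroup G)
    {F : Set (Cfsg.IrrCharacter H)} (hF : Cfsg.IsPBlock M F)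
    (hFf : ∀ t : H, Cfsg.blockCoeff F t =
      Cfsg.subgroupBlockCoeff (Subgroup.centralizer (Q : Set G)) f₀ (t : G))
    {R' : Subgroup H} {R₂ : Subgroup G} (h : CentEq H R' R₂) (hp' : IsPGroup p R')
    {g' : Set (Cfsg.IrrCharacter (Subgroup.centralizer (R' : Set H)))}
    (hn : Cfsg.IsNormalSubpair p M Q f₀ R₂ (mapSet (subCentIso H R' R₂ h) g')) :
    Cfsg.IsBrauerPairOf p M F R' g' := by
  obtain ⟨hQf, ⟨hR₂, hg⟩, hQR, hRN, hstab, hω⟩ := hn
  refine ⟨⟨hp', (isPBlock_mapSet_iff hM _ g').mp hg⟩, hF, fun ξ' hξ' => ?_⟩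
  have h1 := hω (mapIrr (subCentIso H R' R₂ h) ξ') ⟨ξ', hξ', rfl⟩
  rw [brauerOmega_subCentIso H R' R₂ h _ (Cfsg.blockCoeff F) (fun y _ => hFf y)] at h1
  exact h1

/-- **From the subgroup to the group.**  A Brauer pair of the block of `H` with the
idempotent of `f₀` gives a Brauer pair of `G` normally containing `(Q, f₀)`. -/
theorem isNormalSubpair_of_isBrauerPairOf_sub (hM : M.IsPrime) {p : ℕ} {Q : Subgroup G}
    {f₀ : Set (Cfsg.IrrCharacter (Subgroup.centralizer (Q : Set G)))}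
    (hQf : Cfsg.IsBrauerPair p M Q f₀) (H : Subgroup G)
    {F : Set (Cfsg.IrrCharacter H)}
    (hFf : ∀ t : H, Cfsg.blockCoeff F t =
      Cfsg.subgroupBlockCoeff (Subgroup.centralizer (Q : Set G)) f₀ (t : G))
    {R' : Subgroup H} {R₂ : Subgroup G} (h : CentEq H R' R₂) (hp : IsPGroup p R₂)
    (hQR : Q ≤ R₂) (hRN : R₂ ≤ Subgroup.normalizer (Q : Set G))
    (hstab : ∀ x ∈ R₂, Cfsg.StabilizesBlock (Subgroup.centralizer (Q : Set G)) f₀ x)
    {g' : Set (Cfsg.IrrCharacter (Subgroup.centralizer (R' : Set H)))}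
    (hb : Cfsg.IsBrauerPairOf p M F R' g') :
    Cfsg.IsNormalSubpair p M Q f₀ R₂ (mapSet (subCentIso H R' R₂ h) g') := by
  refine ⟨hQf, ⟨hp, isPBlock_mapSet hM _ hb.1.2⟩, hQR, hRN, hstab, ?_⟩
  rintro ξ ⟨ξ', hξ', rfl⟩
  rw [brauerOmega_subCentIso H R' R₂ h _ (Cfsg.blockCoeff F) (fun y _ => hFf y)]
  exact hb.2.2 ξ' hξ'

/-- a normal inclusion of Brauer pairs of `H` is a normal inclusion in `G` -/
theorem isNormalSubpair_sub (hM : M.IsPrime) {p : ℕ} (H : Subgroup G) {R₁' R₂' : Subgroup H}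
    {g₁' : Set (Cfsg.IrrCharacter (Subgroup.centralizer (R₁' : Set H)))}
    {g₂' : Set (Cfsg.IrrCharacter (Subgroup.centralizer (R₂' : Set H)))}
    (h₁ : CentEq H R₁' (R₁'.map H.subtype)) (h₂ : CentEq H R₂' (R₂'.map H.subtype))
    (hn : Cfsg.IsNormalSubpair p M R₁' g₁' R₂' g₂') :
    Cfsg.IsNormalSubpair p M (R₁'.map H.subtype) (mapSet (subCentIso H R₁' _ h₁) g₁')
      (R₂'.map H.subtype) (mapSet (subCentIso H R₂' _ h₂) g₂') := by
  obtain ⟨⟨hp₁, hg₁⟩, ⟨hp₂, hg₂⟩, hle, hnorm, hstab, hω⟩ := hn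
  refine ⟨⟨hp₁.map _, isPBlock_mapSet hM _ hg₁⟩, ⟨hp₂.map _, isPBlock_mapSet hM _ hg₂⟩,
    Subgroup.map_mono hle, ?_, ?_, ?_⟩
  · rintro _ ⟨r, hr, rfl⟩
    have h1 := hnorm hr
    rw [Subgroup.mem_normalizer_iff] at h1 ⊢
    intro k
    constructor
    · rintro ⟨k', hk', rfl⟩
      exact ⟨r * k' * r⁻¹, (h1 k').mp hk', rfl⟩
    · rintro ⟨k', hk', hk'eq⟩
      have hk'eq' : ((k' : H) : G) = (r : G) * k * (r : G)⁻¹ := hk'eq
      refine ⟨r⁻¹ * k' * r, (h1 _).mpr ?_, ?_⟩
      · have e : r * (r⁻¹ * k' * r) * r⁻¹ = k' := by group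
        rw [e]
        exact hk'
      · show ((r⁻¹ * k' * r : H) : G) = k
        push_cast
        rw [hk'eq']
        group
  · rintro _ ⟨r, hr, rfl⟩
    exact stabilizesBlock_subCentIso H R₁' _ h₁ g₁' (hstab r hr)
  · rintro ξ ⟨ξ', hξ', rfl⟩
    rw [brauerOmega_subCentIso H R₂' _ h₂ _
      (Cfsg.subgroupBlockCoeff (Subgroup.centralizer (R₁' : Set H)) g₁') (by
        intro y hy
        have hy1 : y ∈ Subgroup.centralizer (R₁' : Set H) := Subgroup.centralizer_le hle hy
        have hy2 : (y : G) ∈ Subgroup.centralizer ((R₁'.map H.subtype : Subgroup G) : Set G) :=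
          (h₁ _).mpr ⟨y.2, hy1⟩
        rw [subgroupBlockCoeff_eq_ext0, subgroupBlockCoeff_eq_ext0, ext0_of_mem _ _ hy1,
          ext0_of_mem _ _ hy2, blockCoeff_mapSet']
        rfl) ξ']
    exact hω ξ' hξ'

/-- an inclusion of Brauer pairs of `H` is an inclusion in `G` -/
theorem subpairLE_sub (hM : M.IsPrime) {p : ℕ} (H : Subgroup G) (a b : Cfsg.BrauerPairIdx H)
    (hab : Relation.ReflTransGen (Cfsg.NormalSubpairRel p M) a b)
    (ha : CentEq H a.1 (a.1.map H.subtype)) :
    ∃ hb : CentEq H b.1 (b.1.map H.subtype),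
      Relation.ReflTransGen (Cfsg.NormalSubpairRel p M)
        (⟨a.1.map H.subtype, mapSet (subCentIso H a.1 _ ha) a.2⟩ : Cfsg.BrauerPairIdx G)
        ⟨b.1.map H.subtype, mapSet (subCentIso H b.1 _ hb) b.2⟩ := by
  induction hab with
  | refl => exact ⟨ha, Relation.ReflTransGen.refl⟩
  | @tail b c _ hbc ih =>
    obtain ⟨hb, hchain⟩ := ih
    have hc : CentEq H c.1 (c.1.map H.subtype) := by
      apply centEq_map
      intro x hx
      have hx' : x ∈ Subgroup.centralizer ((b.1.map H.subtype : Subgroup G) : Set G) :=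
        Subgroup.centralizer_le (Subgroup.map_mono hbc.2.2.1) hx
      exact ((hb x).mp hx').1
    exact ⟨hc, hchain.tail (isNormalSubpair_sub hM H hb hc hbc)⟩

theorem sigma_subCentIso_eq (H : Subgroup G) (R' : Subgroup H) (R₂ R₃ : Subgroup G)
    (h₂ : CentEq H R' R₂) (h₃ : CentEq H R' R₃) (heq : R₂ = R₃)
    (g' : Set (Cfsg.IrrCharacter (Subgroup.centralizer (R' : Set H)))) :
    (⟨R₂, mapSet (subCentIso H R' R₂ h₂) g'⟩ : Cfsg.BrauerPairIdx G) =
      ⟨R₃, mapSet (subCentIso H R' R₃ h₃) g'⟩ := by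
  subst heq
  rfl

/-- conjugation by an element of the subgroup is compatible with the identification -/
theorem mapSet_subCentIso_conjBlock (H : Subgroup G) (c : H) (R' : Subgroup H)
    (R₂ R₂c : Subgroup G) (h₁ : CentEq H R' R₂)
    (h₂ : CentEq H (R'.map (MulAut.conj c).toMonoidHom) R₂c)
    (hc : R₂c = R₂.map (MulAut.conj (c : G)).toMonoidHom)
    (g' : Set (Cfsg.IrrCharacter (Subgroup.centralizer (R' : Set H)))) :
    mapSet (subCentIso H (R'.map (MulAut.conj c).toMonoidHom) R₂c h₂) (Cfsg.conjBlock R' c g') =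
      conjBlockTo (c : G) R₂ R₂c (mapSet (subCentIso H R' R₂ h₁) g') := by
  rw [conjBlock_eq, conjBlockTo_eq_mapSet c R' _ rfl, conjBlockTo_eq_mapSet (c : G) R₂ R₂c hc,
    ← mapSet_trans, ← mapSet_trans]
  apply mapSet_congr
  intro y
  exact Subtype.ext rfl

end Core

section Max

variable {G : Type*} [Group G] [Fintype G] {M : Ideal Cfsg.AlgInt} {p : ℕ} [Fact p.Prime]

omit [Fintype G] [Fact p.Prime] in
/-- the second isomorphism theorem for indices, with a normalizer hypothesis -/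
theorem relIndex_sup_right_of_le_normalizer (H N : Subgroup G)
    (hLE : H ≤ Subgroup.normalizer (N : Set G)) : N.relIndex (H ⊔ N) = N.relIndex H := by
  letI := Subgroup.normal_subgroupOf_of_le_normalizer hLE
  letI := Subgroup.normal_subgroupOf_sup_of_le_normalizer hLE
  exact (Nat.card_congr
    (QuotientGroup.quotientInfEquivProdNormalizerQuotient H N hLE).toEquiv).symm

/-- **Maximal pairs read in a subgroup.**  Let `(P, e)` be a maximal Brauer pair of the block
`B` of `G` normally containing `(Q, f₀)`, and `H` a subgroup containing `P` and `C_G(P)` with a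
block `F` having the idempotent of `f₀`.  Then `(P, e)`, read in `H`, is a maximal Brauer pair
of `F`. -/
theorem isMaximalBrauerPair_sub (hM : Cfsg.IsPModular p M) {B : Set (Cfsg.IrrCharacter G)}
    {P : Subgroup G} {e : Set (Cfsg.IrrCharacter (Subgroup.centralizer (P : Set G)))}
    (hmax : Cfsg.IsMaximalBrauerPair p M B P e) {Q : Subgroup G}
    {f₀ : Set (Cfsg.IrrCharacter (Subgroup.centralizer (Q : Set G)))}
    (hn : Cfsg.IsNormalSubpair p M Q f₀ P e) (H : Subgroup G)
    {F : Set (Cfsg.IrrCharacter H)} (hF : Cfsg.IsPBlock M F)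
    (hFf : ∀ t : H, Cfsg.blockCoeff F t =
      Cfsg.subgroupBlockCoeff (Subgroup.centralizer (Q : Set G)) f₀ (t : G))
    (hPH : P ≤ H) (hCH : Subgroup.centralizer (P : Set G) ≤ H) :
    Cfsg.IsMaximalBrauerPair p M F (P.subgroupOf H)
      (mapSet (subCentIso H (P.subgroupOf H) P (centEq_subgroupOf H P hPH hCH)).symm e) := by
  have hMp := isPrime_of_isPModular hM
  have hP : IsPGroup p P := hmax.1.1.1
  have hpair : Cfsg.IsBrauerPairOf p M F (P.subgroupOf H)
      (mapSet (subCentIso H (P.subgroupOf H) P (centEq_subgroupOf H P hPH hCH)).symm e) := by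
    apply isBrauerPairOf_of_isNormalSubpair_sub hMp H hF hFf (centEq_subgroupOf H P hPH hCH)
      hP.comap_subtype
    rw [mapSet_mapSet_symm]
    exact hn
  refine ⟨hpair, ?_⟩
  intro R' g' _ hle
  have hmapP : (P.subgroupOf H).map H.subtype = P := Subgroup.map_subgroupOf_eq_of_le hPH
  have ha : CentEq H (P.subgroupOf H) ((P.subgroupOf H).map H.subtype) := by
    apply centEq_map
    rw [hmapP]
    exact hCH
  obtain ⟨hb, hchain⟩ := subpairLE_sub hMp H
    ⟨P.subgroupOf H, mapSet (subCentIso H (P.subgroupOf H) P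
      (centEq_subgroupOf H P hPH hCH)).symm e⟩ ⟨R', g'⟩ hle ha
  have hsig : (⟨(P.subgroupOf H).map H.subtype, mapSet (subCentIso H (P.subgroupOf H) _ ha)
      (mapSet (subCentIso H (P.subgroupOf H) P (centEq_subgroupOf H P hPH hCH)).symm e)⟩ :
      Cfsg.BrauerPairIdx G) = ⟨P, e⟩ := by
    rw [sigma_subCentIso_eq H (P.subgroupOf H) _ P ha (centEq_subgroupOf H P hPH hCH) hmapP,
      mapSet_mapSet_symm]
  rw [hsig] at hchain
  have hRg := isBrauerPairOf_of_subpairLE hM hchain hmax.1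
  have hRP : R'.map H.subtype = P := hmax.2 _ _ hRg hchain
  rw [← hRP]
  exact (Subgroup.comap_map_eq_self_of_injective (Subgroup.subtype_injective H) R').symm

/-- **The inertial quotient is a `p'`-group.**  Let `(P, e)` be a maximal Brauer pair.  Every
`p`-element of `N_G(P)` stabilizing `e` lies in `P C_G(P)`. -/
theorem mem_sup_centralizer_of_isMaximalBrauerPair (hM : Cfsg.IsPModular p M)
    {B : Set (Cfsg.IrrCharacter G)} {P : Subgroup G}
    {e : Set (Cfsg.IrrCharacter (Subgroup.centralizer (P : Set G)))}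
    (hmax : Cfsg.IsMaximalBrauerPair p M B P e) {x : G}
    (hxn : x ∈ Subgroup.normalizer (P : Set G))
    (hxs : Cfsg.StabilizesBlock (Subgroup.centralizer (P : Set G)) e x)
    (hxp : IsPGroup p (Subgroup.zpowers x)) : x ∈ P ⊔ Subgroup.centralizer (P : Set G) := by
  classical
  have hMp := isPrime_of_isPModular hM
  obtain ⟨⟨hP, he⟩, hB, -⟩ := hmax.1
  have hzN : Subgroup.zpowers x ≤ Subgroup.normalizer (P : Set G) := by
    rw [Subgroup.zpowers_le]
    exact hxn
  have hR : IsPGroup p (P ⊔ Subgroup.zpowers x : Subgroup G) :=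
    hP.to_sup_of_normal_left' hxp hzN
  have hRN : P ⊔ Subgroup.zpowers x ≤ Subgroup.normalizer (P : Set G) :=
    sup_le Subgroup.le_normalizer hzN
  have hRNC : P ⊔ Subgroup.zpowers x ≤
      Subgroup.normalizer ((Subgroup.centralizer (P : Set G) : Subgroup G) : Set G) :=
    fun y hy => normalizer_le_normalizer_centralizer P (hRN hy)
  have hKL : Subgroup.centralizer (P : Set G) ≤
      (P ⊔ Subgroup.zpowers x) ⊔ Subgroup.centralizer (P : Set G) := le_sup_right
  have hLN : (P ⊔ Subgroup.zpowers x) ⊔ Subgroup.centralizer (P : Set G) ≤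
      Subgroup.normalizer ((Subgroup.centralizer (P : Set G) : Subgroup G) : Set G) :=
    sup_le hRNC Subgroup.le_normalizer
  have hLNP : (P ⊔ Subgroup.zpowers x) ⊔ Subgroup.centralizer (P : Set G) ≤
      Subgroup.normalizer (P : Set G) :=
    sup_le hRN (Subgroup.centralizer_le_normalizer (P : Set G))
  have hidx : ∃ k : ℕ, (Subgroup.centralizer (P : Set G)).relIndex
      ((P ⊔ Subgroup.zpowers x) ⊔ Subgroup.centralizer (P : Set G)) = p ^ k := by
    rw [relIndex_sup_right_of_le_normalizer _ _ hRNC]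
    obtain ⟨n, hn⟩ := IsPGroup.iff_card.mp hR
    have h1 := Subgroup.relIndex_dvd_card (Subgroup.centralizer (P : Set G))
      (P ⊔ Subgroup.zpowers x)
    rw [hn] at h1
    obtain ⟨j, -, hj⟩ := (Nat.dvd_prime_pow (Fact.out : p.Prime)).mp h1
    exact ⟨j, hj⟩
  have hstabL : ∀ y ∈ (P ⊔ Subgroup.zpowers x) ⊔ Subgroup.centralizer (P : Set G),
      Cfsg.StabilizesBlock (Subgroup.centralizer (P : Set G)) e y := by
    have hle : (P ⊔ Subgroup.zpowers x) ⊔ Subgroup.centralizer (P : Set G) ≤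
        blockStab (Subgroup.centralizer (P : Set G)) e :=
      sup_le (sup_le (fun y hy => stabilizesBlock_of_mem_self P e hy)
        (by rw [Subgroup.zpowers_le]; exact hxs)) (le_blockStab _ e)
    exact fun y hy => hle hy
  obtain ⟨F, hF, hFc⟩ := exists_block_of_stable_relIndex hM hKL hLN hidx e he hstabL
  have hfinL : Fintype ↥((P ⊔ Subgroup.zpowers x) ⊔ Subgroup.centralizer (P : Set G)) :=
    Fintype.ofFinite _
  obtain ⟨D', hD'⟩ := exists_isDefectGroup p hMp F hF
  obtain ⟨htop, -⟩ := sup_eq_top_and_isDefectGroup_inf_rel hM hKL hLN hidx e he hstabL F hFc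
    D' hD'
  have hPL : P ≤ (P ⊔ Subgroup.zpowers x) ⊔ Subgroup.centralizer (P : Set G) :=
    le_sup_left.trans le_sup_left
  have hP'n : (P.subgroupOf
      ((P ⊔ Subgroup.zpowers x) ⊔ Subgroup.centralizer (P : Set G))).Normal :=
    (Subgroup.normal_subgroupOf_iff_le_normalizer hPL).mpr hLNP
  have hP'D' : P.subgroupOf ((P ⊔ Subgroup.zpowers x) ⊔ Subgroup.centralizer (P : Set G)) ≤ D' :=
    normal_pgroup_le_of_isDefectGroup hM (P.subgroupOf
      ((P ⊔ Subgroup.zpowers x) ⊔ Subgroup.centralizer (P : Set G))) (hRn := hP'n)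
      hP.comap_subtype hF hD'
  have hPD : P ≤ D'.map (Subgroup.subtype _) :=
    fun y hy => ⟨⟨y, hPL hy⟩, hP'D' (Subgroup.mem_subgroupOf.mpr hy), rfl⟩
  have hDL : D'.map (Subgroup.subtype _) ≤
      (P ⊔ Subgroup.zpowers x) ⊔ Subgroup.centralizer (P : Set G) := Subgroup.map_subtype_le D'
  obtain ⟨c, hc, S, hS⟩ := hD'
  have hDp : IsPGroup p (D'.map (Subgroup.subtype _)) := by
    rw [hS]
    exact (S.isPGroup'.map _).map _
  have hcD : (c : G) ∈ Subgroup.centralizer
      ((D'.map (Subgroup.subtype _) : Subgroup G) : Set G) := by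
    rw [Subgroup.mem_centralizer_iff]
    rintro _ ⟨d, hd, rfl⟩
    have hd' : d ∈ Subgroup.centralizer ({c} : Set _) := by
      rw [hS] at hd
      exact Subgroup.map_subtype_le _ hd
    have h1 := (Subgroup.mem_centralizer_iff.mp hd') c rfl
    exact (congrArg Subtype.val h1).symm
  have hne : ¬ Cfsg.MemLocalIdeal M
      (ext0 (Subgroup.centralizer (P : Set G)) (Cfsg.blockCoeff e) (c : G)) := by
    rw [← subgroupBlockCoeff_eq_ext0, ← hFc]
    exact hc.2.1
  obtain ⟨g, hg⟩ := exists_isNormalSubpair_of_not_memLocalIdeal hM ⟨hP, he⟩ hDp hPD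
    (hDL.trans hLNP) (fun y hy => hstabL y (hDL hy)) hcD hne
  have hDg : Cfsg.IsBrauerPairOf p M B (D'.map (Subgroup.subtype _)) g :=
    isBrauerPairOf_of_isNormalSubpair hM hg hmax.1
  have hDP : D'.map (Subgroup.subtype _) = P :=
    hmax.2 _ g hDg (Relation.ReflTransGen.single hg)
  have hD'eq : D' = P.subgroupOf
      ((P ⊔ Subgroup.zpowers x) ⊔ Subgroup.centralizer (P : Set G)) := by
    have h0 := (Subgroup.comap_map_eq_self_of_injective (Subgroup.subtype_injective _) D').symm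
    rw [hDP] at h0
    exact h0
  have hxL : x ∈ (P ⊔ Subgroup.zpowers x) ⊔ Subgroup.centralizer (P : Set G) :=
    le_sup_left (a := P ⊔ Subgroup.zpowers x)
      (le_sup_right (a := P) (Subgroup.mem_zpowers x))
  have h1 : (⟨x, hxL⟩ : ↥((P ⊔ Subgroup.zpowers x) ⊔ Subgroup.centralizer (P : Set G))) ∈
      (Subgroup.centralizer (P : Set G)).subgroupOf _ ⊔ D' := by
    rw [htop]
    trivial
  rw [hD'eq, ← Subgroup.subgroupOf_sup hKL hPL, Subgroup.mem_subgroupOf] at h1
  rw [sup_comm]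
  exact h1

end Max

end Cfsg.Agent.Lib.Helper77
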