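import Mathlib
import Cfsg.Prelude.Def_Blocks
import Cfsg.Agent.Lib.Helper76.MajorNV
import Cfsg.Agent.Lib.Helper76.ContribDiag
import Cfsg.Agent.S4574

/-!
# Contributions of a subsection: cyclotomic form and divisibility by the height

* `contrib_cyclo_form`: the numbers `p ^ d(e) * contrib (y ^ j) χ ψ` are the values at `ζ ^ j`
  of one integer polynomial;
* `contrib_val`: `p ^ d(B) * contrib y ψ φ` is, up to a unit, divisible by `φ(1) / p ^ (a - d)`
  in the local ring.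
-/

set_option autoImplicit false
set_option linter.unusedSectionVars false
set_option linter.style.haveILetI false
set_option linter.unusedVariables false

namespace Cfsg.Agent.Lib.Helper77

open Cfsg Cfsg.Agent.Lib.Helper16 Cfsg.Agent.Lib.Helper26 Cfsg.Agent.Lib.Helper78
  Cfsg.Agent.Lib.Helper81 Cfsg.Agent.Lib.Helper76
open scoped ComplexConjugate
open Polynomial

variable {G : Type*} [Group G] [Fintype G]

/-- The numbers `p ^ d(e) * contrib (y ^ j) χ ψ` as integer combinations of `p ^ k`-th roots of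
unity. -/
theorem contrib_cyclo_sum [Fintype (Cfsg.IrrCharacter G)] {p : ℕ} [Fact p.Prime]
    {M : Ideal Cfsg.AlgInt} (hM : Cfsg.IsPModular p M)
    (y : G) (k : ℕ) (hk : orderOf y = p ^ k) (C : Subgroup G)
    (hC : ∀ g : G, g ∈ C ↔ g * y = y * g) (e : Set (Cfsg.IrrCharacter C))
    (he : Cfsg.IsPBlock M e) (χ ψ : Cfsg.IrrCharacter G) :
    letI : Fintype C := Fintype.ofFinite _
    letI : Fintype (Cfsg.IrrCharacter C) := @Fintype.ofFinite _ (irr_finite _)
    ∃ (c : Cfsg.IrrCharacter C × Cfsg.IrrCharacter C → ℤ)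
      (r : Cfsg.IrrCharacter C × Cfsg.IrrCharacter C → ℂ),
      (∀ i, r i ^ (p ^ k) = 1) ∧
      ∀ j : ℕ, ((p ^ Cfsg.blockDefect p e : ℕ) : ℂ) *
          contrib p C e (y ^ j) (χ : G → ℂ) (ψ : G → ℂ) = ∑ i, (c i : ℂ) * r i ^ j := by
  classical
  have hp : p.Prime := Fact.out
  letI : Fintype C := Fintype.ofFinite _
  letI : Fintype (Cfsg.IrrCharacter C) := @Fintype.ofFinite _ (irr_finite _)
  obtain ⟨ω, hω, hcon⟩ := contrib_lam hp y k hk C hC e
  obtain ⟨nχ, hnχ⟩ := character_expansion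
    (Cfsg.Agent.Lib.Helper75.isCharacter_res C (isCharacter_of_irr χ.2))
  obtain ⟨nψ, hnψ⟩ := character_expansion
    (Cfsg.Agent.Lib.Helper75.isCharacter_res C (isCharacter_of_irr ψ.2))
  have hz : ∀ θ : Cfsg.IrrCharacter C, ∃ z : Cfsg.IrrCharacter C → ℤ,
      (∀ θ', θ' ∉ e → z θ' = 0) ∧ (θ ∈ e → ∀ θ' : Cfsg.IrrCharacter C,
        ((p ^ Cfsg.blockDefect p e : ℕ) : ℂ) *
          Cfsg.classInner (Cfsg.pRegularPart p (θ : C → ℂ)) (θ' : C → ℂ) = (z θ' : ℂ)) := by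
    intro θ
    by_cases hθ : θ ∈ e
    · obtain ⟨z, hz0, hz⟩ := exists_int_truncInner hM e he θ hθ
      exact ⟨z, hz0, fun _ => hz⟩
    · exact ⟨fun _ => 0, fun _ _ => rfl, fun h => absurd h hθ⟩
  choose z hz0 hz using hz
  refine ⟨fun i => if i.1 ∈ e then (nχ i.1 : ℤ) * (nψ i.2 : ℤ) * z i.1 i.2 else 0,
    fun i => ω i.1 * conj (ω i.2), ?_, ?_⟩
  · intro i
    rw [mul_pow, ← map_pow, hω, hω, map_one, one_mul]
  · intro j
    rw [hcon χ ψ j, Fintype.sum_prod_type, Finset.mul_sum]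
    refine Finset.sum_congr rfl (fun θ _ => ?_)
    rw [Finset.mul_sum]
    refine Finset.sum_congr rfl (fun θ' _ => ?_)
    by_cases hθ : θ ∈ e
    · simp only [if_pos hθ]
      have h1 : Cfsg.classInner (fun c : C => (χ : G → ℂ) (c : G)) (θ : C → ℂ) = (nχ θ : ℂ) := by
        rw [hnχ, classInner_expansion_irr]
      have h2 : Cfsg.classInner (fun c : C => (ψ : G → ℂ) (c : G)) (θ' : C → ℂ) = (nψ θ' : ℂ) := by
        rw [hnψ, classInner_expansion_irr]
      rw [h1, h2, map_natCast]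
      have h3 := hz θ hθ θ'
      push_cast
      rw [← h3]
      push_cast
      ring
    · simp [hθ]


/-- The numbers `p ^ d(e) * contrib (y ^ j) χ ψ` are the values at the powers `ζ ^ j` of one
integer polynomial, for `ζ` a primitive `p ^ K`-th root of unity and `y` of order dividing
`p ^ K`. -/
theorem contrib_cyclo_form [Fintype (Cfsg.IrrCharacter G)] {p : ℕ} [Fact p.Prime]
    {M : Ideal Cfsg.AlgInt} (hM : Cfsg.IsPModular p M)
    (y : G) (k : ℕ) (hk : orderOf y = p ^ k) (C : Subgroup G)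
    (hC : ∀ g : G, g ∈ C ↔ g * y = y * g) (e : Set (Cfsg.IrrCharacter C))
    (he : Cfsg.IsPBlock M e) (χ ψ : Cfsg.IrrCharacter G) (K : ℕ) (hkK : k ≤ K) (ζ : ℂ)
    (hζ : IsPrimitiveRoot ζ (p ^ K)) :
    ∃ F : ℤ[X], ∀ j : ℕ, ((p ^ Cfsg.blockDefect p e : ℕ) : ℂ) *
      contrib p C e (y ^ j) (χ : G → ℂ) (ψ : G → ℂ) = aeval (ζ ^ j) F := by
  classical
  have hp : p.Prime := Fact.out
  letI : Fintype C := Fintype.ofFinite _
  letI : Fintype (Cfsg.IrrCharacter C) := @Fintype.ofFinite _ (irr_finite _)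
  obtain ⟨c, r, hr, hform⟩ := contrib_cyclo_sum hM y k hk C hC e he χ ψ
  have hN : 0 < p ^ K := pow_pos hp.pos K
  haveI : NeZero (p ^ K) := ⟨hN.ne'⟩
  have hrK : ∀ i, r i ^ (p ^ K) = 1 := by
    intro i
    obtain ⟨m, hm⟩ := pow_dvd_pow p hkK
    rw [hm, pow_mul, hr i, one_pow]
  have hex : ∀ i, ∃ n : ℕ, ζ ^ n = r i := fun i => by
    obtain ⟨n, -, hn⟩ := hζ.eq_pow_of_pow_eq_one (hrK i)
    exact ⟨n, hn⟩
  choose n hn using hex
  refine ⟨∑ i, Polynomial.C (c i) * X ^ n i, fun j => ?_⟩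
  rw [hform j, map_sum]
  refine Finset.sum_congr rfl (fun i _ => ?_)
  rw [map_mul, map_pow, aeval_X, aeval_C, ← hn i, ← pow_mul, ← pow_mul, mul_comm j]
  simp

/-- **Divisibility of the contributions by the height.**  For `φ ∈ B` and any `ψ`, the number
`c' * (p ^ d * contrib y ψ φ)` is the product of `φ(1) / p ^ (a - d)` and an element of the
local ring; here `p ^ a` is the `p`-part of the order of `G`, `c'` its `p'`-part and `d` the
defect of `B`. -/
theorem contrib_val [Fintype (Cfsg.IrrCharacter G)] {p : ℕ} [Fact p.Prime]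
    {M : Ideal Cfsg.AlgInt} (hM : Cfsg.IsPModular p M) (B : Set (Cfsg.IrrCharacter G))
    (y : G) (k : ℕ) (hk : orderOf y = p ^ k) (C : Subgroup G)
    (hC : ∀ g : G, g ∈ C ↔ g * y = y * g) (e : Set (Cfsg.IrrCharacter C))
    (ψ φ₀ : Cfsg.IrrCharacter G) (hφ₀ : φ₀ ∈ B) :
    ∃ t : ℂ, MemLocalRing M t ∧
      t * ((Cfsg.charDegree (φ₀ : G → ℂ) /
        p ^ ((Nat.card G).factorization p - Cfsg.blockDefect p B) : ℕ) : ℂ) =
      ((Nat.card G / p ^ (Nat.card G).factorization p : ℕ) : ℂ) *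
        (((p ^ Cfsg.blockDefect p B : ℕ) : ℂ) * contrib p C e y (ψ : G → ℂ) (φ₀ : G → ℂ)) := by
  classical
  have hp : p.Prime := Fact.out
  have hMp := isPrime_of_isPModular hM
  letI : Fintype C := Fintype.ofFinite _
  letI : Fintype (Cfsg.IrrCharacter C) := @Fintype.ofFinite _ (irr_finite _)
  have hyC : y ∈ C := (hC y).2 rfl
  have hcomm : ∀ c : C, y * (c : G) = (c : G) * y := fun c => ((hC c).1 c.2).symm
  set z : C := ⟨y, hyC⟩ with hz
  set V : C → ℂ := vsec p C e y (ψ : G → ℂ) with hV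
  have hVcf : Cfsg.IsClassFunction C V := isClassFunction_vsec p C e y _
  -- local integrality of the values of `V`
  have hVR : ∀ s : C, MemLocalRing M (V s) := by
    obtain ⟨ω, hω, hexp⟩ := vsec_expansion hp y k hk C hC e
    obtain ⟨n, -, hn⟩ := hexp ψ
    intro s
    have h1 := hn 1 s
    rw [pow_one] at h1
    rw [hV, h1]
    refine memLocalRing_sum hMp _ _ (fun θ _ => ?_)
    split_ifs
    · refine memLocalRing_mul hMp (memLocalRing_mul hMp ?_ (memLocalRing_natCast hMp _)) ?_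
      · rw [pow_one]
        exact memLocalRing_of_sub_one hMp (memLocalIdeal_sub_one_of_pow_pow_eq_one hM k (hω θ))
      · rw [pRegularPart_apply']
        split_ifs
        · exact memLocalRing_zero hMp
        · exact Cfsg.Agent.Lib.Helper77.memLocalRing_irr_apply hMp θ s
    · exact memLocalRing_zero hMp
  set β : C → ℂ := fun c => V (z⁻¹ * c) with hβ
  have hzc : ∀ t : C, z⁻¹ * t = t * z⁻¹ := by
    intro t
    have h1 : z * t = t * z := Subtype.ext (hcomm t)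
    calc z⁻¹ * t = z⁻¹ * (t * z) * z⁻¹ := by group
      _ = z⁻¹ * (z * t) * z⁻¹ := by rw [h1]
      _ = t * z⁻¹ := by group
  have hβR : IsRClass M β := by
    refine ⟨?_, fun c => hVR _⟩
    intro c t
    show V (z⁻¹ * (t * c * t⁻¹)) = V (z⁻¹ * c)
    have : z⁻¹ * (t * c * t⁻¹) = t * (z⁻¹ * c) * t⁻¹ := by
      rw [← mul_assoc, ← mul_assoc, hzc t]
      simp only [mul_assoc]
    rw [this]
    exact hVcf _ _
  set α : G → ℂ := fun g => Cfsg.indFun C β g⁻¹ with hα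
  have hindR := isRClass_indFun hMp C hβR
  have hαR : IsRClass M α := by
    refine ⟨?_, fun g => hindR.2 _⟩
    intro g h
    show Cfsg.indFun C β (h * g * h⁻¹)⁻¹ = Cfsg.indFun C β g⁻¹
    have : (h * g * h⁻¹)⁻¹ = h * g⁻¹ * h⁻¹ := by group
    rw [this]
    exact hindR.1 _ _
  have hC0 : (Nat.card C : ℂ) ≠ 0 := by exact_mod_cast Nat.card_pos.ne'
  -- the central character at `α`
  have key : ∀ φ : Cfsg.IrrCharacter G, omega (φ : G → ℂ) α =
      (Nat.card G : ℂ) * contrib p C e y (ψ : G → ℂ) (φ : G → ℂ) / (φ : G → ℂ) 1 := by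
    intro φ
    unfold omega
    rw [← Finset.sum_div]
    congr 1
    have hf : Cfsg.IsClassFunction G (fun g => (φ : G → ℂ) g⁻¹) := by
      intro g h
      show (φ : G → ℂ) (h * g * h⁻¹)⁻¹ = (φ : G → ℂ) g⁻¹
      have : (h * g * h⁻¹)⁻¹ = h * g⁻¹ * h⁻¹ := by group
      rw [this]
      exact irr_conj_class φ _ _
    have h1 : ∑ g : G, α g * (φ : G → ℂ) g =
        ∑ g : G, Cfsg.indFun C β g * (φ : G → ℂ) g⁻¹ := by
      rw [← Equiv.sum_comp (Equiv.inv G) (fun g => Cfsg.indFun C β g * (φ : G → ℂ) g⁻¹)]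
      refine Finset.sum_congr rfl (fun g _ => ?_)
      simp only [Equiv.inv_apply, inv_inv]
      rfl
    rw [h1, sum_indFun_mul C β hf]
    have h2 : ∑ h : C, β h * (φ : G → ℂ) ((h : G))⁻¹ =
        ∑ s : C, V s * (φ : G → ℂ) (y⁻¹ * (s : G)⁻¹) := by
      rw [← Equiv.sum_comp (Equiv.mulLeft z) (fun h : C => β h * (φ : G → ℂ) ((h : G))⁻¹)]
      refine Finset.sum_congr rfl (fun s _ => ?_)
      simp only [Equiv.coe_mulLeft, hβ, inv_mul_cancel_left]
      have hzs : ((z * s : C) : G)⁻¹ = y⁻¹ * (s : G)⁻¹ := by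
        show (y * (s : G))⁻¹ = y⁻¹ * (s : G)⁻¹
        rw [hcomm s, mul_inv_rev]
      rw [hzs]
    rw [h2]
    have h3 : contrib p C e y (ψ : G → ℂ) (φ : G → ℂ) =
        (Nat.card C : ℂ)⁻¹ * ∑ s : C, V s * (φ : G → ℂ) (y⁻¹ * (s : G)⁻¹) := rfl
    rw [h3, ← mul_assoc]
    congr 1
    have h4 : (C.index : ℂ) * (Nat.card C : ℂ) = (Nat.card G : ℂ) := by
      rw [← Nat.cast_mul, Subgroup.index_mul_card]
    rw [← h4]
    field_simp
  -- degrees
  set a := (Nat.card G).factorization p with ha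
  set d := Cfsg.blockDefect p B with hd
  obtain ⟨hda, hdvd, hD0⟩ := degree_block_facts (p := p) B
  set c' := Nat.card G / p ^ a with hc'def
  have hcard : Nat.card G = p ^ a * c' := (Nat.ordProj_mul_ordCompl_eq_self _ p).symm
  have hc' : ¬ p ∣ c' := Nat.not_dvd_ordCompl hp Nat.card_pos.ne'
  have hp0 : (p : ℂ) ≠ 0 := by exact_mod_cast hp.ne_zero
  have hpa : (p : ℂ) ^ a = (p : ℂ) ^ d * (p : ℂ) ^ (a - d) := by
    rw [← pow_add, Nat.add_sub_cancel' hda]
  have hΩD : ∀ φ ∈ B, omega (φ : G → ℂ) α *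
      ((Cfsg.charDegree (φ : G → ℂ) / p ^ (a - d) : ℕ) : ℂ) =
      (c' : ℂ) * (((p ^ d : ℕ) : ℂ) * contrib p C e y (ψ : G → ℂ) (φ : G → ℂ)) := by
    intro φ hφ
    obtain ⟨h1, hpos, -⟩ := Cfsg.Agent.Lib.Helper79.irr_charDegree φ.2
    have hdeg : Cfsg.charDegree (φ : G → ℂ) =
        p ^ (a - d) * (Cfsg.charDegree (φ : G → ℂ) / p ^ (a - d)) :=
      (Nat.mul_div_cancel' (hdvd φ hφ)).symm
    have hDpos : 0 < Cfsg.charDegree (φ : G → ℂ) / p ^ (a - d) := by
      rcases Nat.eq_zero_or_pos (Cfsg.charDegree (φ : G → ℂ) / p ^ (a - d)) with h | h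
      · rw [h, mul_zero] at hdeg
        omega
      · exact h
    have hD0' : ((Cfsg.charDegree (φ : G → ℂ) / p ^ (a - d) : ℕ) : ℂ) ≠ 0 := by
      exact_mod_cast hDpos.ne'
    have hφ1 : (φ : G → ℂ) 1 = (p : ℂ) ^ (a - d) *
        ((Cfsg.charDegree (φ : G → ℂ) / p ^ (a - d) : ℕ) : ℂ) := by
      rw [h1]
      conv_lhs => rw [hdeg]
      push_cast
      rfl
    have hcardC : (Nat.card G : ℂ) = (p : ℂ) ^ a * (c' : ℂ) := by
      rw [hcard]; push_cast; rfl
    rw [key φ, hφ1, hcardC, hpa]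
    have hpad : (p : ℂ) ^ (a - d) ≠ 0 := pow_ne_zero _ hp0
    push_cast
    field_simp
  exact ⟨omega (φ₀ : G → ℂ) α, memLocalRing_omega hMp φ₀ hαR, hΩD φ₀ hφ₀⟩

end Cfsg.Agent.Lib.Helper77
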