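import Mathlib
import Cfsg.Prelude.Def_Blocks
import Cfsg.Agent.Lib.Helper77.MajorVal
import Cfsg.Agent.Lib.Helper76.PRegHeight

/-!
# A lower bound for the contributions of a subsection of full defect

For a subsection `(y, e)` of full defect, `ψ ∈ B` of height zero and `χ ∈ B` of height `h`,
the numbers `p ^ d * contrib (y ^ j) ψ χ`, `j` prime to `p`, are the conjugates of a nonzero
algebraic integer divisible by `p ^ h`; hence the sum of their absolute values is at least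
`p ^ h` times their number.
-/

set_option autoImplicit false
set_option linter.unusedSectionVars false
set_option linter.style.haveILetI false

namespace Cfsg.Agent.Lib.Helper77

open Cfsg Cfsg.Agent.Lib.Helper16 Cfsg.Agent.Lib.Helper26 Cfsg.Agent.Lib.Helper78
  Cfsg.Agent.Lib.Helper81 Cfsg.Agent.Lib.Helper76
open scoped ComplexConjugate
open Polynomial

variable {G : Type*} [Group G] [Fintype G]

/-- the height of `χ ∈ B` is the exponent of `p` in `χ(1) / p ^ (a - d)` -/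
theorem factorization_degree_div {p : ℕ} [Fact p.Prime] (B : Set (Cfsg.IrrCharacter G))
    (χ : Cfsg.IrrCharacter G) (hχ : χ ∈ B) :
    0 < Cfsg.charDegree (χ : G → ℂ) /
        p ^ ((Nat.card G).factorization p - Cfsg.blockDefect p B) ∧
    (Cfsg.charDegree (χ : G → ℂ) /
        p ^ ((Nat.card G).factorization p - Cfsg.blockDefect p B)).factorization p =
      Cfsg.blockHeight p B (χ : G → ℂ) := by
  have hp : p.Prime := Fact.out
  obtain ⟨hda, hdvd, -⟩ := degree_block_facts (p := p) B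
  obtain ⟨-, hpos, hdvdG⟩ := Cfsg.Agent.Lib.Helper79.irr_charDegree χ.2
  have hd := hdvd χ hχ
  have hpowpos : 0 < p ^ ((Nat.card G).factorization p - Cfsg.blockDefect p B) :=
    pow_pos hp.pos _
  refine ⟨Nat.div_pos (Nat.le_of_dvd hpos hd) hpowpos, ?_⟩
  rw [Nat.factorization_div hd, Finsupp.tsub_apply, Nat.Prime.factorization_pow hp,
    Finsupp.single_eq_same]
  have hmem : (Cfsg.charDegree (χ : G → ℂ)).factorization p ∈
      ((fun ψ : Cfsg.IrrCharacter G => (Cfsg.charDegree (ψ : G → ℂ)).factorization p) '' B) :=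
    ⟨χ, hχ, rfl⟩
  have hle := Nat.sInf_le hmem
  have hs : (Cfsg.charDegree (χ : G → ℂ)).factorization p ≤ (Nat.card G).factorization p :=
    (Nat.factorization_le_iff_dvd hpos.ne' Nat.card_pos.ne').2 hdvdG p
  unfold Cfsg.blockHeight Cfsg.blockDefect
  omega

/-- **Lower bound for the contributions of a major subsection.** -/
theorem sum_norm_contrib_ge [Fintype (Cfsg.IrrCharacter G)] {p : ℕ} [Fact p.Prime]
    {M : Ideal Cfsg.AlgInt} (hM : Cfsg.IsPModular p M) (B : Set (Cfsg.IrrCharacter G))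
    (y : G) (k : ℕ) (hk : orderOf y = p ^ k) (C : Subgroup G)
    (hC : ∀ g : G, g ∈ C ↔ g * y = y * g) (e : Set (Cfsg.IrrCharacter C))
    (hind : Cfsg.IsInducedBlock M C e B)
    (hdef : Cfsg.blockDefect p e = Cfsg.blockDefect p B)
    (ψ χ : Cfsg.IrrCharacter G) (hψ : ψ ∈ B) (hχ : χ ∈ B)
    (h0ψ : Cfsg.blockHeight p B (ψ : G → ℂ) = 0) (K : ℕ) (hkK : k ≤ K) (ζ : ℂ)
    (hζ : IsPrimitiveRoot ζ (p ^ K)) (jf : ℂ → ℕ)
    (hjf : ∀ μ ∈ primitiveRoots (p ^ K) ℂ, ζ ^ jf μ = μ) :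
    ((primitiveRoots (p ^ K) ℂ).card : ℝ) * (p : ℝ) ^ Cfsg.blockHeight p B (χ : G → ℂ) ≤
      ∑ μ ∈ primitiveRoots (p ^ K) ℂ, ‖((p ^ Cfsg.blockDefect p B : ℕ) : ℂ) *
        contrib p C e (y ^ jf μ) (ψ : G → ℂ) (χ : G → ℂ)‖ := by
  classical
  have hp : p.Prime := Fact.out
  have hMp := isPrime_of_isPModular hM
  have hN : 0 < p ^ K := pow_pos hp.pos K
  obtain ⟨F, hF⟩ := contrib_cyclo_form hM y k hk C hC e hind.1 ψ χ K hkK ζ hζ
  rw [hdef] at hF
  have hterm : ∀ μ ∈ primitiveRoots (p ^ K) ℂ, ((p ^ Cfsg.blockDefect p B : ℕ) : ℂ) *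
      contrib p C e (y ^ jf μ) (ψ : G → ℂ) (χ : G → ℂ) = aeval μ F := fun μ hμ => by
    rw [hF, hjf μ hμ]
  rw [Finset.sum_congr rfl (fun μ hμ => by rw [hterm μ hμ])]
  -- nonvanishing
  have h0 : aeval ζ F ≠ 0 := by
    have h1 := hF 1
    rw [pow_one, pow_one] at h1
    rw [← h1]
    have h2 := (major_nonvanishing hM B y k hk C hC e hind hdef ψ χ hψ hχ h0ψ).1
    have h3 : ((p ^ Cfsg.blockDefect p B : ℕ) : ℂ) ≠ 0 := by
      exact_mod_cast (pow_pos hp.pos _).ne'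
    exact mul_ne_zero h3 h2
  have hne : ∀ μ ∈ primitiveRoots (p ^ K) ℂ, aeval μ F ≠ 0 := fun μ hμ h =>
    h0 (Cfsg.Agent.S4574.aeval_eq_zero_of_primitive F (p ^ K) hN μ ζ
      ((mem_primitiveRoots hN).1 hμ) hζ h)
  obtain ⟨z, hz⟩ := Cfsg.Agent.S4574.exists_int_prod F (p ^ K) hN
  have hz0 : z ≠ 0 := by
    intro h
    rw [h, Int.cast_zero] at hz
    obtain ⟨μ, hμ, hμ0⟩ := Finset.prod_eq_zero_iff.mp hz.symm
    exact hne μ hμ hμ0
  -- the valuation
  set D := Cfsg.charDegree (χ : G → ℂ) /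
    p ^ ((Nat.card G).factorization p - Cfsg.blockDefect p B) with hDdef
  set c' := Nat.card G / p ^ (Nat.card G).factorization p with hc'def
  have hc' : ¬ p ∣ c' := Nat.not_dvd_ordCompl hp Nat.card_pos.ne'
  obtain ⟨hDpos, hDfac⟩ := factorization_degree_div (p := p) B χ hχ
  have hval : ∀ μ ∈ primitiveRoots (p ^ K) ℂ, ∃ t : ℂ, MemLocalRing M t ∧
      t * (D : ℂ) = (c' : ℂ) * aeval μ F := by
    intro μ hμ
    have hμ' := (mem_primitiveRoots hN).1 hμ
    have hcop : (jf μ).Coprime (p ^ K) := by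
      rw [← hjf μ hμ] at hμ'
      exact (hζ.pow_iff_coprime hN (jf μ)).mp hμ'
    have hcopk : (jf μ).Coprime (p ^ k) :=
      Nat.Coprime.coprime_dvd_right (pow_dvd_pow p hkK) hcop
    obtain ⟨hord, hC'⟩ := centralizer_pow_coprime y (p ^ k) hk C hC (jf μ) hcopk
    obtain ⟨t, ht, hteq⟩ := contrib_val hM B (y ^ jf μ) k hord C hC' e ψ χ hχ
    exact ⟨t, ht, by rw [hteq, hterm μ hμ]⟩
  choose! t ht hteq using hval
  set Φ := (primitiveRoots (p ^ K) ℂ).card with hΦ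
  have hprod : (∏ μ ∈ primitiveRoots (p ^ K) ℂ, t μ) * (D : ℂ) ^ Φ = (c' : ℂ) ^ Φ * (z : ℂ) := by
    rw [hz]
    calc (∏ μ ∈ primitiveRoots (p ^ K) ℂ, t μ) * (D : ℂ) ^ Φ
        = ∏ μ ∈ primitiveRoots (p ^ K) ℂ, t μ * (D : ℂ) := by
          rw [Finset.prod_mul_distrib, Finset.prod_const]
      _ = ∏ μ ∈ primitiveRoots (p ^ K) ℂ, (c' : ℂ) * aeval μ F :=
          Finset.prod_congr rfl hteq
      _ = (c' : ℂ) ^ Φ * ∏ μ ∈ primitiveRoots (p ^ K) ℂ, aeval μ F := by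
          rw [Finset.prod_mul_distrib, Finset.prod_const]
  have hc'pow : ¬ p ∣ c' ^ Φ := fun h => hc' (hp.dvd_of_dvd_pow h)
  obtain ⟨n', hn', -⟩ := val_lemma hM z (D ^ Φ) (c' ^ Φ) (pow_pos hDpos _) hc'pow
    (∏ μ ∈ primitiveRoots (p ^ K) ℂ, t μ) (memLocalRing_prod hMp _ _ ht) (by
      push_cast
      rw [mul_comm, ← hprod, mul_comm])
  have hfac : (D ^ Φ).factorization p = Φ * Cfsg.blockHeight p B (χ : G → ℂ) := by
    rw [Nat.factorization_pow, Finsupp.smul_apply, hDfac, smul_eq_mul]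
  rw [hfac] at hn'
  have hn'0 : n' ≠ 0 := by
    intro h
    rw [h, mul_zero] at hn'
    exact hz0 hn'
  set h := Cfsg.blockHeight p B (χ : G → ℂ) with hh
  have hpR : (0 : ℝ) < (p : ℝ) := by exact_mod_cast hp.pos
  have hzabs : (p : ℝ) ^ (Φ * h) ≤ ‖(z : ℂ)‖ := by
    rw [hn']
    push_cast
    rw [norm_mul, norm_pow, Complex.norm_natCast]
    have h1 : (1 : ℝ) ≤ ‖(n' : ℂ)‖ := by
      rw [Complex.norm_intCast]
      exact_mod_cast Int.one_le_abs hn'0
    calc (p : ℝ) ^ (Φ * h) = (p : ℝ) ^ (Φ * h) * 1 := (mul_one _).symm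
      _ ≤ (p : ℝ) ^ (Φ * h) * ‖(n' : ℂ)‖ :=
        mul_le_mul_of_nonneg_left h1 (pow_nonneg hpR.le _)
  -- AM-GM
  have hph : (0 : ℝ) < (p : ℝ) ^ h := pow_pos hpR h
  have key := Cfsg.Agent.S4574.card_le_sum_of_one_le_prod (primitiveRoots (p ^ K) ℂ)
    (fun μ => ‖aeval μ F‖ / (p : ℝ) ^ h)
    (fun μ hμ => div_pos (norm_pos_iff.mpr (hne μ hμ)) hph) (by
      rw [Finset.prod_div_distrib, Finset.prod_const, ← norm_prod, ← hz, ← pow_mul,
        mul_comm h, le_div_iff₀ (pow_pos hpR _), one_mul]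
      exact hzabs)
  rw [← Finset.sum_div, le_div_iff₀ hph] at key
  exact key

end Cfsg.Agent.Lib.Helper77
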