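import Mathlib
import Cfsg.Prelude.Def_Blocks
import Cfsg.Prelude.Def_BlockRank
import Cfsg.Prelude.Def_BlockLocal
import Cfsg.Prelude.Def_BrauerPairs
import Cfsg.Agent.Lib.Helper77.MajorSum
import Cfsg.Agent.Lib.Helper77.MajorLower
import Cfsg.Agent.Lib.Helper77.KleinPairs
import Cfsg.Agent.Lib.Helper77.PairTools
import Cfsg.Agent.Lib.Helper78.HeightZero
import Cfsg.Agent.S4659

/-!
# Brauer's bound for the heights of the characters of a block

Let `(P, c)` be a maximal Brauer pair of the block `B` of defect `d`, `Z` a set of central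
elements of `P` closed under powers, `T` a subgroup containing the stabilizer of `(P, c)` and
`H` a subgroup centralizing `Z`.  Then `|Z| * p ^ h ≤ p ^ d * [T : H]` for every height `h` of a
character of `B`.
-/

set_option autoImplicit false
set_option linter.unusedSectionVars false
set_option linter.style.haveILetI false

namespace Cfsg.Agent.Lib.Helper77

open Cfsg Cfsg.Agent.Lib.Helper16 Cfsg.Agent.Lib.Helper81 Cfsg.Agent.Lib.Helper76

variable {G : Type*} [Group G] [Fintype G] {M : Ideal Cfsg.AlgInt} {p : ℕ} [Fact p.Prime]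

theorem mem_centralizer_zpowers_iff (u g : G) :
    g ∈ Subgroup.centralizer (Subgroup.zpowers u : Set G) ↔ g * u = u * g := by
  rw [centralizer_zpowers_eq, Subgroup.mem_centralizer_iff]
  constructor
  · intro h; exact (h u rfl).symm
  · intro h y hy
    rw [Set.mem_singleton_iff] at hy
    rw [hy]; exact h.symm

/-- the subsection attached to a central element of the defect group is major -/
theorem subBlock_facts (hM : Cfsg.IsPModular p M) {B : Set (Cfsg.IrrCharacter G)}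
    {P : Subgroup G} {c : Set (Cfsg.IrrCharacter (Subgroup.centralizer (P : Set G)))}
    (hmax : Cfsg.IsMaximalBrauerPair p M B P c) {u : G} (hu : u ∈ P)
    (hucen : ∀ y ∈ P, y * u = u * y) :
    Cfsg.IsInducedBlock M (Subgroup.centralizer (Subgroup.zpowers u : Set G))
        (subBlock p M P c u) B ∧
      Cfsg.blockDefect p (subBlock p M P c u) = Cfsg.blockDefect p B := by
  classical
  have hp : p.Prime := Fact.out
  have hPe : Cfsg.IsBrauerPair p M P c := hmax.1.1
  obtain ⟨hf, hle⟩ := subBlock_spec hM hPe hu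
  have hBf : Cfsg.IsBrauerPairOf p M B (Subgroup.zpowers u) (subBlock p M P c u) :=
    isBrauerPairOf_of_subpairLE_down hM (a := ⟨Subgroup.zpowers u, subBlock p M P c u⟩)
      (b := ⟨P, c⟩) hle hmax.1
  have hind := isInducedBlock_of_isBrauerPairOf hM (zpowers_le_centralizer_zpowers u) hBf
  refine ⟨hind, ?_⟩
  have hPH : P ≤ Subgroup.centralizer (Subgroup.zpowers u : Set G) := fun y hy =>
    (mem_centralizer_zpowers_iff u y).mpr (hucen y hy)
  have hCH : Subgroup.centralizer (P : Set G) ≤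
      Subgroup.centralizer (Subgroup.zpowers u : Set G) :=
    Subgroup.centralizer_le (by
      rw [SetLike.coe_subset_coe, Subgroup.zpowers_le]; exact hu)
  have hmax' := isMaximalBrauerPair_centralizer hM hmax hf hle hPH hCH
  letI : Fintype (Subgroup.centralizer (Subgroup.zpowers u : Set G)) := Fintype.ofFinite _
  have hdf := Cfsg.Agent.S4659.result p M hM _ _ _ hmax'
  have hP := Cfsg.Agent.S4659.result p M hM _ _ _ hmax
  have hcardP := card_isDefectGroup hM B hBf.2.1 P hP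
  have hcardf := card_isDefectGroup hM _ hf _ hdf
  have hcc : Nat.card (P.subgroupOf (Subgroup.centralizer (Subgroup.zpowers u : Set G))) =
      Nat.card P :=
    Nat.card_congr (Subgroup.subgroupOfEquivOfLe hPH).toEquiv
  rw [hcc, hcardP] at hcardf
  exact (Nat.pow_right_injective hp.two_le hcardf).symm

theorem contrib_sigma_congr (p : ℕ) (a b : Cfsg.BrauerPairIdx G) (h : a = b) (v : G)
    (ψ χ : G → ℂ) :
    contrib p (Subgroup.centralizer (a.1 : Set G)) a.2 v ψ χ =
      contrib p (Subgroup.centralizer (b.1 : Set G)) b.2 v ψ χ := by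
  subst h; rfl

/-- **Brauer's height bound, in terms of a maximal Brauer pair.** -/
theorem card_mul_pow_height_le (hM : Cfsg.IsPModular p M) {B : Set (Cfsg.IrrCharacter G)}
    {P : Subgroup G} {c : Set (Cfsg.IrrCharacter (Subgroup.centralizer (P : Set G)))}
    (hmax : Cfsg.IsMaximalBrauerPair p M B P c) (Z : Finset G) (hZP : ∀ u ∈ Z, u ∈ P)
    (hZcen : ∀ u ∈ Z, ∀ y ∈ P, y * u = u * y) (hZpow : ∀ u ∈ Z, ∀ j : ℕ, u ^ j ∈ Z)
    (T H : Subgroup G)
    (hT : ∀ g : G, g ∈ Subgroup.normalizer (P : Set G) →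
      Cfsg.StabilizesBlock (Subgroup.centralizer (P : Set G)) c g → g ∈ T)
    (hH : ∀ h ∈ H, ∀ u ∈ Z, h * u = u * h) (χ : Cfsg.IrrCharacter G) (hχ : χ ∈ B) :
    (Z.card : ℝ) * (p : ℝ) ^ Cfsg.blockHeight p B (χ : G → ℂ) ≤
      (p : ℝ) ^ Cfsg.blockDefect p B * (H.relIndex T : ℝ) := by
  classical
  have hp : p.Prime := Fact.out
  have hMp := isPrime_of_isPModular hM
  have hPe : Cfsg.IsBrauerPair p M P c := hmax.1.1
  have hB : Cfsg.IsPBlock M B := hmax.1.2.1
  haveI : Finite (Cfsg.IrrCharacter G) := Cfsg.Agent.Lib.Helper77.irr_finite G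
  letI : Fintype (Cfsg.IrrCharacter G) := Fintype.ofFinite _
  obtain ⟨ψ, hψ, h0ψ⟩ := Cfsg.Agent.Lib.Helper78.exists_height_zero p B ⟨χ, hχ⟩
  have hPdef := Cfsg.Agent.S4659.result p M hM _ _ _ hmax
  have hcardP := card_isDefectGroup hM B hB P hPdef
  generalize hd : Cfsg.blockDefect p B = d at hcardP ⊢
  have hN : 0 < p ^ d := pow_pos hp.pos d
  obtain ⟨ζ, hζ⟩ : ∃ ζ : ℂ, IsPrimitiveRoot ζ (p ^ d) :=
    ⟨_, Complex.isPrimitiveRoot_exp (p ^ d) hN.ne'⟩
  have hex : ∀ μ ∈ primitiveRoots (p ^ d) ℂ, ∃ j : ℕ, ζ ^ j = μ := by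
    intro μ hμ
    have hμ' := (mem_primitiveRoots hN).1 hμ
    obtain ⟨i, -, hi⟩ := hζ.eq_pow_of_pow_eq_one hμ'.pow_eq_one
    exact ⟨i, hi⟩
  choose! jf hjf using hex
  have hcop : ∀ μ ∈ primitiveRoots (p ^ d) ℂ, (jf μ).Coprime (p ^ d) := by
    intro μ hμ
    have hμ' := (mem_primitiveRoots hN).1 hμ
    rw [← hjf μ hμ] at hμ'
    exact (hζ.pow_iff_coprime hN (jf μ)).mp hμ'
  let xx : G → ℝ := fun v => ‖((p ^ d : ℕ) : ℂ) *
    contrib p (Subgroup.centralizer (Subgroup.zpowers v : Set G)) (subBlock p M P c v) v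
      (ψ : G → ℂ) (χ : G → ℂ)‖
  -- the lower bound
  have hlow : ∀ u ∈ Z, ((primitiveRoots (p ^ d) ℂ).card : ℝ) *
      (p : ℝ) ^ Cfsg.blockHeight p B (χ : G → ℂ) ≤
      ∑ μ ∈ primitiveRoots (p ^ d) ℂ, xx (u ^ jf μ) := by
    intro u hu
    obtain ⟨k, hk⟩ : ∃ k : ℕ, orderOf u = p ^ k := by
      obtain ⟨k, hk⟩ := (IsPGroup.iff_orderOf.mp hPe.1) ⟨u, hZP u hu⟩
      exact ⟨k, by rw [← hk, ← Subgroup.orderOf_coe]⟩
    have hkd : k ≤ d := by
      have h1 : orderOf u ∣ Nat.card P := by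
        have h2 := orderOf_dvd_natCard (⟨u, hZP u hu⟩ : P)
        rwa [← Subgroup.orderOf_coe] at h2
      rw [hk, hcardP] at h1
      exact (Nat.pow_dvd_pow_iff_le_right hp.one_lt).mp h1
    obtain ⟨hind, hdef⟩ := subBlock_facts hM hmax (hZP u hu) (hZcen u hu)
    rw [hd] at hdef
    have hge := sum_norm_contrib_ge hM B u k hk _ (mem_centralizer_zpowers_iff u) _ hind
      (by rw [hd]; exact hdef) ψ χ hψ hχ h0ψ d hkd ζ hζ jf hjf
    rw [hd] at hge
    refine hge.trans (le_of_eq (Finset.sum_congr rfl (fun μ hμ => ?_)))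
    have hck : (orderOf u).Coprime (jf μ) := by
      rw [hk]
      exact (Nat.Coprime.coprime_dvd_right (pow_dvd_pow p hkd) (hcop μ hμ)).symm
    have hz : Subgroup.zpowers (u ^ jf μ) = Subgroup.zpowers u := by
      apply Subgroup.eq_of_le_of_card_ge
      · rw [Subgroup.zpowers_le]
        exact pow_mem (Subgroup.mem_zpowers u) _
      · rw [Nat.card_zpowers, Nat.card_zpowers, hck.orderOf_pow]
    have hsig := sigma_subBlock_eq hM hPe (hZP _ (hZpow u hu (jf μ))) (hZP u hu) hz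
    show ‖_ * contrib p _ (subBlock p M P c u) (u ^ jf μ) _ _‖ =
      ‖_ * contrib p _ (subBlock p M P c (u ^ jf μ)) (u ^ jf μ) _ _‖
    rw [contrib_sigma_congr p _ _ hsig]
  have hperm : ∀ μ ∈ primitiveRoots (p ^ d) ℂ, ∑ u ∈ Z, xx (u ^ jf μ) = ∑ u ∈ Z, xx u := by
    intro μ hμ
    have hmaps : Set.MapsTo (fun u : G => u ^ jf μ) Z Z := fun u hu => hZpow u hu (jf μ)
    have hinj : Set.InjOn (fun u : G => u ^ jf μ) Z := by
      intro u hu v hv huv
      have hc : (Nat.card P).Coprime (jf μ) := by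
        rw [hcardP]; exact (hcop μ hμ).symm
      have h1 : powCoprime hc ⟨u, hZP u hu⟩ = powCoprime hc ⟨v, hZP v hv⟩ :=
        Subtype.ext huv
      exact congrArg Subtype.val ((powCoprime hc).injective h1)
    exact Finset.sum_nbij (fun u => u ^ jf μ) hmaps hinj
      (Finset.surjOn_of_injOn_of_card_le _ hmaps hinj le_rfl) (fun _ _ => rfl)
  have hΦpos : 0 < ((primitiveRoots (p ^ d) ℂ).card : ℝ) := by
    have h1 : ζ ∈ primitiveRoots (p ^ d) ℂ := (mem_primitiveRoots hN).2 hζ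
    exact_mod_cast Finset.card_pos.mpr ⟨ζ, h1⟩
  have hlow2 : (Z.card : ℝ) * (p : ℝ) ^ Cfsg.blockHeight p B (χ : G → ℂ) ≤ ∑ u ∈ Z, xx u := by
    have h1 := Finset.sum_le_sum hlow
    rw [Finset.sum_comm, Finset.sum_congr rfl hperm, Finset.sum_const, Finset.sum_const,
      nsmul_eq_mul, nsmul_eq_mul] at h1
    have h2 : ((primitiveRoots (p ^ d) ℂ).card : ℝ) *
        ((Z.card : ℝ) * (p : ℝ) ^ Cfsg.blockHeight p B (χ : G → ℂ)) ≤
        ((primitiveRoots (p ^ d) ℂ).card : ℝ) * ∑ u ∈ Z, xx u := by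
      calc _ = (Z.card : ℝ) * (((primitiveRoots (p ^ d) ℂ).card : ℝ) *
            (p : ℝ) ^ Cfsg.blockHeight p B (χ : G → ℂ)) := by ring
        _ ≤ _ := h1
    exact le_of_mul_le_mul_left h2 hΦpos
  -- the upper bound
  have hup : ∑ u ∈ Z, xx u ≤ (p : ℝ) ^ d * (H.relIndex T : ℝ) := by
    have h1 : ∀ u ∈ Z, xx u ≤ (p : ℝ) ^ d *
        (√(secNorm p (Subgroup.centralizer (Subgroup.zpowers u : Set G))
            (subBlock p M P c u) u (ψ : G → ℂ)) *
          √(secNorm p (Subgroup.centralizer (Subgroup.zpowers u : Set G))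
            (subBlock p M P c u) u (χ : G → ℂ))) := by
      intro u hu
      have hle := normSq_contrib_le hM u _ (mem_centralizer_zpowers_iff u) _
        (subBlock_spec hM hPe (hZP u hu)).1 ψ χ
      show ‖_ * _‖ ≤ _
      rw [norm_mul, Complex.norm_natCast, Nat.cast_pow]
      refine mul_le_mul_of_nonneg_left ?_ (by positivity)
      rw [← Real.sqrt_mul (secNorm_nonneg _ _ _ _ _), Complex.norm_def]
      exact Real.sqrt_le_sqrt hle
    refine (Finset.sum_le_sum h1).trans ?_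
    rw [← Finset.mul_sum]
    refine mul_le_mul_of_nonneg_left ?_ (by positivity)
    refine (Real.sum_sqrt_mul_sqrt_le Z (fun u => secNorm_nonneg _ _ _ _ _)
      (fun u => secNorm_nonneg _ _ _ _ _)).trans ?_
    have hs1 := sum_secNorm_le hM hmax Z hZP hZcen T H hT hH ψ
    have hs2 := sum_secNorm_le hM hmax Z hZP hZcen T H hT hH χ
    calc _ ≤ √(H.relIndex T : ℝ) * √(H.relIndex T : ℝ) :=
          mul_le_mul (Real.sqrt_le_sqrt hs1) (Real.sqrt_le_sqrt hs2) (Real.sqrt_nonneg _)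
            (Real.sqrt_nonneg _)
      _ = (H.relIndex T : ℝ) := Real.mul_self_sqrt (Nat.cast_nonneg _)
  exact hlow2.trans hup

end Cfsg.Agent.Lib.Helper77
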